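import Cfsg.Agent.H18.SpAux

/-! Maximal subgroups of symplectic groups. -/

set_option autoImplicit false

namespace Cfsg.Agent.H18

open Cfsg.Geo
open scoped MatrixGroups Matrix Kronecker commutatorElement

variable {ι : Type} [Fintype ι] [DecidableEq ι] {F : Type*} [Field F]
  {f : (ι → F) → (ι → F) → F} {H G : Subgroup (GL ι F)}

lemma TvF.Has.not_le_quadSim {ε : F} {hf : TvF (RingHom.id F) ε f 1} (hG : hf.Has G)
    (ha : ∀ v, f v v = 0) (hn : 3 ≤ Fintype.card ι) {Q : (ι → F) → F}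
    (hQ : IsNondegenerateQuadraticForm Q) (h : QuadraticMap.polar Q = f) :
    ¬ G ≤ quadSimilarityGroup Q := fun hle => by
  have : Nonempty ι := Fintype.card_pos_iff.mp (by omega)
  have h1 : ∀ w, w ≠ 0 → Q w = -1 := fun w h0 => by
    obtain ⟨c, hc⟩ := hle (hG w (ha w))
    have h1 : (c : F) = 1 := hf.mult_unique (g := hf.ft 1 (ha w)) (fun u v => by
      rw [← congrFun₂ h, ← congrFun₂ h u]
      simp only [QuadraticMap.polar, ← Matrix.mulVec_add, hc]; ring)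
      (mult_one_iff.mpr (hf.ft_mem hf.tr0 (ha w)).1)
    obtain ⟨u, hu⟩ : ∃ u, f u w ≠ 0 := by
      by_contra! h2; exact h0 (hf.nondeg w h2)
    have h2 := hc u
    rw [hf.ft_mulVec, quad_add (Q := Q), hQ.smul, h, hf.smul_right, h1] at h2
    exact mul_left_cancel₀ (pow_ne_zero 2 hu) (by simp at h2; linear_combination h2)
  obtain ⟨u, h0, -⟩ := hf.iso
  obtain ⟨v, h2, h3⟩ : ∃ v ∈ hf.perp (Submodule.span F {u}), v ∉ Submodule.span F {u} := by
    by_contra! h2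
    have h3 := Submodule.finrank_mono h2
    have h4 := hf.le_finrank_perp (Submodule.span F {u})
    have h5 := finrank_span_singleton_le u
    omega
  have h4 := h1 (v + u) fun h4 => h3 (eq_neg_of_add_eq_zero_left h4 ▸
    neg_mem (Submodule.mem_span_singleton_self u))
  rw [quad_add (Q := Q), h1 u h0, h1 v (fun h => h3 (h ▸ zero_mem _)), h,
    h2 u (Submodule.mem_span_singleton_self u)] at h4
  exact one_ne_zero (by linear_combination -h4 : (1 : F) = 0)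

variable [Fintype F]

/-- the orthogonally imprimitive cases -/
def SpDec (f : (ι → F) → (ι → F) → F) (H : Subgroup (GL ι F)) : Prop :=
  ∃ (t m : ℕ) (D : Fin t → Submodule F (ι → F)), IsNondegenerateMDecomposition f m D ∧
    Fintype.card ι = t * m ∧ Even m ∧ (m = 2 → 3 ≤ Fintype.card F) ∧
    H = decompositionStabilizer D ⊓ isoG f

/-- the orthogonal case -/
def SpO (f : (ι → F) → (ι → F) → F) (H : Subgroup (GL ι F)) : Prop :=
  ¬ Odd (Fintype.card F) ∧ ∃ Q : (ι → F) → F, IsNondegenerateQuadraticForm Q ∧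
    (∀ u v, QuadraticMap.polar Q u v = f u v) ∧ H = quadSimilarityGroup Q ⊓ isoG f

/-- the field extension case of symplectic type -/
def SpFld (f : (ι → F) → (ι → F) → F) (H : Subgroup (GL ι F)) : Prop :=
  ∃ (r : ℕ) (K : Subalgebra F (Matrix ι ι F)), r.Prime ∧ 2 * r ∣ Fintype.card ι ∧
    IsFieldSubalgebra r K ∧ IsSelfAdjointFor f K ∧ (∀ k ∈ K, ∀ v, f (k *ᵥ v) v = 0) ∧
    H = subalgebraNormalizer K ⊓ isoG f

/-- the field extension case of unitary type -/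
def SpU (f : (ι → F) → (ι → F) → F) (H : Subgroup (GL ι F)) : Prop :=
  ∃ K : Subalgebra F (Matrix ι ι F), IsFieldSubalgebra 2 K ∧ IsAdjointClosedFor f K ∧
    ¬ IsSelfAdjointFor f K ∧ H = subalgebraNormalizer K ⊓ isoG f

/-- the standing hypotheses -/
structure SpH (f : (ι → F) → (ι → F) → F) (H : Subgroup (GL ι F)) : Prop where
  sp : IsSymplecticForm f
  hn : 4 ≤ Fintype.card ι
  max : IsMaximalIn (isoG f) H

namespace SpH

omit [Fintype F] in
lemma hf (h : SpH f H) : TvF (RingHom.id F) (-1) f 1 :=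
  have : Nonempty ι := Fintype.card_pos_iff.mp (by have := h.hn; omega)
  (hform_of_symplectic h.sp).tvF_alt h.sp.alternating 1 one_ne_zero

omit [Fintype F] in
lemma has (h : SpH f H) : h.hf.Has (isoG f) := fun _ hw => (h.hf.ft_mem h.hf.tr0 hw).1

omit [Fintype F] in
lemma le (h : SpH f H) : H ≤ isoG f := h.max.1.le

lemma spO (h : SpH f H) (h1 : ¬ Odd (Fintype.card F)) (h2 : InO f H) : SpO f H := by
  obtain ⟨Q, h2, h3, h4⟩ := h2
  exact ⟨h1, Q, h2, fun u v => by rw [h3], eq_of_maximal h.max (h4.trans isometryGroup_le_quadSim)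
    (h.has.not_le_quadSim h.sp.alternating (by have := h.hn; omega) h2 h3)⟩

lemma spDec (h : SpH f H) {t m : ℕ} {D : Fin t → Submodule F (ι → F)}
    (hD : IsNondegenerateMDecomposition f m D) (hle : H ≤ decompositionStabilizer D) :
    SpDec f H ∨ SpO f H := by
  have h1 := hD.decomp.finrank_eq ⟨0, by have := hD.decomp.two_le; omega⟩ ▸
    h.hf.even_of_nondegOn (fun v _ => h.sp.alternating v) (hD.nondegenerate _)
  by_cases h2 : m = 2 ∧ Fintype.card F = 2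
  · obtain ⟨rfl, h2⟩ := h2
    obtain ⟨Q, h3, h4, h5⟩ := inO_of_two h.sp h2 hD
    exact Or.inr (h.spO (h2 ▸ by decide) ⟨Q, h3, h4, (le_inf hle h.le).trans h5⟩)
  · exact Or.inl ⟨t, m, D, hD, card_eq_of_isMDecomposition hD.decomp, h1, by
      have := two_le_card (F := F); omega, eq_of_maximal h.max hle (h.has.not_le_decomp hD.decomp
        (by have := hD.decomp.pos; obtain ⟨k, rfl⟩ := h1; omega))⟩

lemma of_red (h : SpH f H) (hi : ¬ Irr H) : RedM f (isoG f) H ∨ SpDec f H ∨ SpO f H := by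
  rcases h.hf.red (h.le.trans (isoG_le_sim f)) hi with h1 | ⟨W, h1, h2, h3, h4⟩
  · exact Or.inl (h.has.redM h.max (Or.inl h1))
  · rcases h3.lt_or_eq with h5 | h5
    · exact Or.inl (h.has.redM h.max (Or.inr ⟨W, h1, h2, h5, h4⟩))
    · obtain ⟨h6, h7⟩ := h.hf.pair_decomp h1 h2 h5
      exact Or.inr (h.spDec h6 ((le_inf (h.le.trans (isoG_le_sim f)) h4).trans h7))

omit [Fintype F] in
lemma pairM (h : SpH f H) {m : ℕ} {D : Fin 2 → Submodule F (ι → F)}
    (hD : IsMDecomposition m D) (h1 : ∀ i, IsTotallySingularFor f (D i))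
    (hle : H ≤ decompositionStabilizer D) : PairM f (isoG f) H :=
  have h2 := card_eq_of_isMDecomposition hD
  ⟨m, D, h2, hD, h1, eq_of_maximal h.max hle (h.has.not_le_decomp hD (by have := h.hn; omega))⟩

omit [Fintype F] in
lemma eq_field (h : SpH f H) {r : ℕ} {K : Subalgebra F (Matrix ι ι F)} (h1 : r.Prime)
    (h3 : IsFieldSubalgebra r K) (hle : H ≤ subalgebraNormalizer K) :
    H = subalgebraNormalizer K ⊓ isoG f := by
  obtain ⟨g, hg, U, h5, h6, h7⟩ := h.has.exists_small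
  exact eq_of_maximal h.max hle fun h8 =>
    not_mem_normalizer_of_small (by have := h.hn; omega) h5 h6 h7 h1.two_le h3 (h8 hg)

lemma spFld (h : SpH f H) {r : ℕ} {K : Subalgebra F (Matrix ι ι F)} (h1 : r.Prime)
    (h2 : IsFieldSubalgebra r K) (h3 : IsSelfAdjointFor f K) (h4 : ∀ k ∈ K, ∀ v, f (k *ᵥ v) v = 0)
    (hle : H ≤ subalgebraNormalizer K) : SpFld f H :=
  have : Nonempty ι := Fintype.card_pos_iff.mp (by have := h.hn; omega)
  ⟨r, K, h1, h.hf.two_mul_dvd h2 h3 h4, h2, h3, h4, h.eq_field h1 h2 hle⟩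

lemma of_commD (h : SpH f H) (ho : Odd (Fintype.card F)) (h1 : CommD (RingHom.id F) f H) :
    RedM f (isoG f) H ∨ SpDec f H ∨ SpO f H ∨ SpFld f H ∨
      (Odd (Fintype.card F) ∧ (PairM f (isoG f) H ∨ SpU f H)) := by
  have : Nonempty ι := Fintype.card_pos_iff.mp (by have := h.hn; omega)
  by_cases hi : Irr H
  swap
  · exact (h.of_red hi).imp_right (Or.imp_right Or.inl)
  obtain ⟨C, hc, hn, ha, hne⟩ := h1
  rcases h.hf.comm_cases (h.le.trans (isoG_le_sim f)) hi C hc hn ha hne with ⟨t, m, D, h1, h2, -⟩ |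
    ⟨m, e, -, -, -, h4, h5, h6, -⟩ | ⟨r, K, h1, h2, -, h3, h4, -⟩
  · exact Or.inr ((h.spDec h1 h2).imp_right Or.inl)
  · exact Or.inr (Or.inr (Or.inr (Or.inr ⟨ho, Or.inl (h.pairM h4 h5 h6)⟩)))
  iterate 3 right
  by_cases h5 : ∀ x ∈ K, adj (RingHom.id F) f x = x
  · exact Or.inl (h.spFld h1 h2 (h.hf.selfAdj_iff.mpr h5)
      (fun k hk => h.hf.alt_of_selfAdj h.sp.alternating h2 h3 hk (h5 k hk)) h4)
  · obtain rfl : r = 2 := by
      by_contra h0
      exact h5 (h.hf.selfAdj_of_odd h2 h3 (h1.odd_of_ne_two h0))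
    exact Or.inr ⟨ho, Or.inr ⟨K, h2, h.hf.adjClosed_iff.mpr h3,
      fun h0 => h5 (h.hf.selfAdj_iff.mp h0), h.eq_field h1 h2 h4⟩⟩

theorem cases (h : SpH f H) : RedM f (isoG f) H ∨ SpDec f H ∨ SpO f H ∨ SpFld f H ∨
    (Odd (Fintype.card F) ∧ (PairM f (isoG f) H ∨ SpU f H)) ∨
    (∃ (F₀ : Subfield F) (r : ℕ) (P : GL ι F) (ζ : F), r.Prime ∧ Fintype.card F = Nat.card F₀ ^ r ∧
      ζ ≠ 0 ∧ IsFormRationalStructure f F₀ ζ P ∧ H = subfieldSubgroup F₀ P ⊓ isoG f) ∨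
    (∃ (R : Subgroup (GL ι F)) (k : ℕ), Fintype.card ι = 2 ^ k ∧ (Fintype.card F).Prime ∧
      Odd (Fintype.card F) ∧ IsSymplecticTypeGroup 2 R ∧ ActsAbsolutelyIrreducibly (matrixSet R) ∧
      R ≤ similarityGroup f ∧ Nat.card R = 2 ^ (1 + 2 * k) ∧ Nat.card (Subgroup.center R) = 2 ∧
      IsOfMinusType k R ∧ H = subgroupNormalizer R ⊓ isoG f) ∨
    (∃ (a b : ℕ) (e : ι ≃ Fin a × Fin b) (P : GL ι F) (f₁ : _) (f₂ : _), Odd (Fintype.card F) ∧
      Even a ∧ 3 ≤ b ∧ (b = 3 → 5 ≤ Fintype.card F) ∧ KronD (RingHom.id F) f e P (-1) f₁ 1 f₂ ∧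
      IsSymplecticForm f₁ ∧ IsSymmetricForm f₂ ∧ IsTensorFormStructure id f f₁ f₂ e P ∧
      H = tensorProductSubgroup a b e P ⊓ isoG f) ∨
    (∃ (k t : ℕ) (e : ι ≃ (Fin t → Fin k)) (P : GL ι F) (f₁ : _), Odd (Fintype.card F) ∧
      2 ≤ k ∧ 3 ≤ t ∧ Fintype.card ι = k ^ t ∧ (k = 2 → 5 ≤ Fintype.card F) ∧
      IsSymplecticForm f₁ ∧ IsTensorPowerFormStructure id f f₁ e P ∧
      H = tensorWreathSubgroup k t e P ⊓ isoG f) ∨
    InSymplecticResidualClass H := by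
  have hn := h.hn
  have hq := two_le_card (F := F)
  obtain ⟨g, hg, U, a1, a2, a3⟩ := h.has.exists_small
  rcases spCase h.sp (by omega) h.le with h1 | h1 | ⟨t, k, D, h1, h2⟩ | ⟨k, D, h1, h2, h3, h4⟩ |
    ⟨F₀, r, P, ζ, h1, h2, h3, h4, h5⟩ | ⟨R, k, h1, h2, h3, h4, h5, h6, h7, h8, h9, h10⟩ |
    ⟨h1, h2⟩ | ⟨r, K, h1, h2, h3, h4, h5⟩ | ⟨K, h1, h2, h3, h4, h5⟩ |
    ⟨a, b, e, P, f₁, f₂, h1, h2, h3, h4⟩ | ⟨k, t, e, P, f₁, h1, h2, h3, h4, h5, h6⟩ | h1
  · exact Or.inl (h.has.redM h.max (Or.inl h1))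
  · exact Or.inl (h.has.redM h.max (Or.inr h1))
  · exact Or.inr ((h.spDec h1 h2).imp_right Or.inl)
  · iterate 4 right
    exact Or.inl ⟨h1, Or.inl (h.pairM h2 h3 h4)⟩
  · iterate 5 right
    exact Or.inl ⟨F₀, r, P, ζ, h1, h2, h3, h4, eq_of_maximal h.max h5
      (h.has.not_le_subfield (by omega) (ne_top_of_card_eq_pow h1 h2) _)⟩
  · iterate 6 right
    exact Or.inl ⟨R, k, h6, h4, h5, h1, h2, h3.trans (isoG_le_sim f), h7, h8, h9,
      eq_of_maximal h.max h10 (h.has.not_le_normalizer h1.prime h1.pGroup h2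
        (Or.inl ⟨rfl, two_ne_zero_iff_odd.mpr h5, by omega⟩))⟩
  · exact Or.inr (Or.inr (Or.inl (h.spO h1 h2)))
  · exact Or.inr (Or.inr (Or.inr (Or.inl (h.spFld h1 h2 h3 h4 h5))))
  · iterate 4 right
    exact Or.inl ⟨h1, Or.inr ⟨K, h2, h3, h4, h.eq_field Nat.prime_two h2 h5⟩⟩
  · by_cases h5 : b = 3 ∧ Fintype.card F = 3
    · obtain ⟨rfl, h5⟩ := h5
      rcases h.of_commD h1 (h3.swap.commD h.hf.toHForm (by rwa [tensorProductSubgroup_swap])
        (h.le.trans (isoG_le_sim f)) (h3.hf₂.commD_three h5)) with h4 | h4 | h4 | h4 | h4 <;>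
        simp only [h4, true_or, or_true, and_self]
    iterate 7 right
    exact Or.inl ⟨a, b, e, P, f₁, f₂, h1, by
      simpa using even_card_of_symplectic (h3.hf₁.symplectic_of_odd h1), h2, by
      obtain ⟨k, hk⟩ := h1; omega, h3, h3.hf₁.symplectic_of_odd h1, h3.hf₂.symmetric,
      h3.struct h.hf.toHForm, eq_of_maximal h.max h4 fun h5 =>
        not_mem_tensor_of_small (by omega) a1 a2 a3 h3.two_le₁ h3.two_le₂ e P (h5 hg)⟩
  · iterate 8 right
    exact Or.inl ⟨k, t, e, P, f₁, h1, h5.two_le_k, h3, h5.card, by obtain ⟨k, hk⟩ := h1; omega,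
      h5.hf₁.symplectic_of_odd h1, h5.struct h.hf.toHForm, eq_of_maximal h.max h6 fun h7 =>
        not_mem_wreath_of_small (by omega) a1 a2 a3 h5.two_le_t (Or.inr ⟨h5.two_le_k, h3⟩) e P
          (h7 hg)⟩
  · iterate 9 right
    exact h1

end SpH

lemma spH_std {m : ℕ} (hm : 2 ≤ m) {H : Subgroup (GL (Fin m ⊕ Fin m) F)}
    (hH : IsMaximalIn (spGL m F) H) : SpH (sympForm m F) H :=
  ⟨symplectic_sympForm m, by simp; omega, hH⟩

end Cfsg.Agent.H18
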