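import Cfsg.Agent.H18.SpCase

/-! The standard symplectic form. -/

set_option autoImplicit false

namespace Cfsg.Agent.H18

open Cfsg.Geo
open scoped MatrixGroups Matrix

variable {F : Type*} [Field F]

lemma sympForm_apply (m : ℕ) (u v : Fin m ⊕ Fin m → F) :
    sympForm m F u v = ∑ i, (u (.inr i) * v (.inl i) - u (.inl i) * v (.inr i)) := by
  simp [sympForm, Matrix.J, dotProduct, Matrix.mulVec, Fintype.sum_sum_type, Matrix.one_apply,
    Finset.sum_sub_distrib, Matrix.fromBlocks, apply_ite (Neg.neg : F → F)]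
  ring

lemma symplectic_sympForm (m : ℕ) : IsSymplecticForm (sympForm m F) := by
  have h : HForm (RingHom.id F) (-1) (frm (RingHom.id F) (Matrix.J (Fin m) F)) :=
    hform_frm (fun _ => rfl) (by simp) (Matrix.isUnit_det_J _ _) (by
      rw [show (Matrix.J (Fin m) F).map (RingHom.id F) = Matrix.J (Fin m) F from rfl,
        Matrix.J_transpose]; simp)
  exact h.symplectic fun v => (sympForm_apply m v v).trans (by simp [mul_comm])

lemma spGL_eq (m : ℕ) : spGL m F = isoG (sympForm m F) := rfl

lemma HForm.symplectic_of_odd [Fintype F] {ι : Type} {f : (ι → F) → (ι → F) → F}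
    (hf : HForm (RingHom.id F) (-1) f) (h : Odd (Fintype.card F)) : IsSymplecticForm f :=
  hf.symplectic (hf.alt_of_two_ne_zero (two_ne_zero_iff_odd.mpr h))

end Cfsg.Agent.H18
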