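import Cfsg.Agent.H18.Orth
import Cfsg.Agent.H18.SLArith

/-! Maximal subgroups of special unitary groups. -/

set_option autoImplicit false

namespace Cfsg.Agent.H18

open Cfsg.Geo
open scoped MatrixGroups Matrix Kronecker commutatorElement

variable {ι : Type} [Fintype ι] [DecidableEq ι] {F : Type*} [Field F]
  {σ : F →+* F} {ε : F} {f : (ι → F) → (ι → F) → F}

lemma HForm.ft_notMem_frame (hf : HForm σ ε f) {t m : ℕ} {D : Fin t → Submodule F (ι → F)}
    (hD : IsNondegenerateMDecomposition f m D) {a : F} (ha : a ≠ 0) {w : ι → F} (hw : f w w = 0)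
    {i j k : Fin t} (hij : i ≠ j) (hik : i ≠ k) (hjk : j ≠ k) {x y z : ι → F} (hx : x ∈ D i)
    (hy : y ∈ D j) (hz : z ∈ D k) (h1 : f x w ≠ 0) (h2 : f w y ≠ 0) (h3 : f w z ≠ 0) :
    hf.ft a hw ∉ decompositionStabilizer D := fun h => by
  obtain ⟨l, hl⟩ := exists_mem_of_stab h hx
  have key : ∀ j, i ≠ j → l ≠ j → ∀ y ∈ D j, f w y = 0 := fun j h4 h5 y hy => by
    have := hD.orthogonal l j h5 _ hl y hy
    rw [hf.ft_mulVec, hf.add_left, hD.orthogonal i j h4 x hx y hy, hf.smul_left, zero_add] at this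
    exact (mul_eq_zero.mp this).resolve_left (mul_ne_zero ha h1)
  by_cases h4 : l = j
  · exact h3 (key k hik (h4 ▸ hjk) z hz)
  · exact h2 (key j hij h4 y hy)

omit [DecidableEq ι] in
lemma HForm.exists_unit_frame [Finite F] (hf : HForm σ 1 f) (hσ : σ ≠ RingHom.id F) {t : ℕ}
    {D : Fin t → Submodule F (ι → F)} (hD : IsNondegenerateMDecomposition f 1 D) :
    ∃ v : Fin t → ι → F, (∀ i, v i ∈ D i) ∧ ∀ i j, f (v i) (v j) = if i = j then 1 else 0 := by
  choose b hb using fun i => hf.exists_onb hσ (hD.nondegenerate i) (hD.decomp.finrank_eq i)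
  refine ⟨fun i => b i 0, fun i => (b i 0).2, fun i j => ?_⟩
  split_ifs with h
  · subst h; simpa using hb i 0 0
  · exact hD.orthogonal i j h _ (b i 0).2 _ (b j 0).2

section su
variable [Fintype F] {q : ℕ} {a : F} {H G : Subgroup (GL ι F)}

lemma two_le_of_card_sq (hF : Fintype.card F = q ^ 2) : 2 ≤ q := by
  have := two_le_card (F := F)
  by_contra h
  interval_cases q <;> omega

lemma exists_fixed (hσ : ∀ x, σ (σ x) = x) (hq : ∀ x, σ x = x ^ q) (hF : Fintype.card F = q ^ 2)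
    (h3 : 3 ≤ q) : ∃ s : F, σ s = s ∧ s ≠ 0 ∧ s + 1 ≠ 0 := by
  by_contra! h
  obtain ⟨g, hg⟩ := IsCyclic.exists_ofOrder_eq_natCard (α := Fˣ)
  rw [Nat.card_units, Nat.card_eq_fintype_card, hF] at hg
  have h1 := h (g * σ g) (by rw [map_mul, hσ, mul_comm]) (by simp)
  have h2 := h 1 (by simp) (by simp)
  have h4 : g ^ (q + 1) = 1 := Units.ext (by
    rw [Units.val_pow_eq_pow_val, pow_succ', ← hq, Units.val_one]; linear_combination h1 - h2)
  have := Nat.le_of_dvd (by omega) (hg ▸ orderOf_dvd_of_pow_eq_one h4)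
  have : 3 * q ≤ q ^ 2 := by nlinarith
  omega

lemma TvF.Has.not_le_frame {hf : TvF σ 1 f a} (hG : hf.Has G) (hq : ∀ x, σ x = x ^ q)
    (hσ : σ ≠ RingHom.id F) (hF : Fintype.card F = q ^ 2) {t : ℕ} {D : Fin t → Submodule F (ι → F)}
    (hD : IsNondegenerateMDecomposition f 1 D) (ht : 4 ≤ t ∨ (3 ≤ t ∧ 3 ≤ q)) :
    ¬ G ≤ decompositionStabilizer D := fun h => by
  obtain ⟨u, h1, h2⟩ := hf.exists_unit_frame hσ hD
  have key : ∀ {k} (hk : k ≤ t), ∃ v : Fin k → ι → F, (∀ i, v i ∈ D (Fin.castLE hk i)) ∧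
      ∀ i j, f (v i) (v j) = if i = j then 1 else 0 := fun hk =>
    ⟨fun i => u (Fin.castLE hk i), fun i => h1 _, fun i j => by simp [h2]⟩
  rcases ht with ht | ⟨ht, h3⟩ <;> obtain ⟨v, h1, h2⟩ := key ht
  · obtain ⟨c, hc⟩ := H13.exists_conj_mul_eq hσ hf.invol (c := -1) (by simp)
    have h0 : c ≠ 0 := by rintro rfl; simp at hc
    have hw : f (v 0 + c • v 1 + v 2 + c • v 3) (v 0 + c • v 1 + v 2 + c • v 3) = 0 := by
      simp [hf.add_left, hf.add_right, hf.smul_left, hf.smul_right, h2]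
      linear_combination 2 * hc
    refine hf.ft_notMem_frame hD hf.ne hw (by simp) (by simp) (by simp) (h1 0) (h1 1) (h1 2)
      ?_ ?_ ?_ (h (hG _ hw)) <;>
    simp [hf.add_left, hf.add_right, hf.smul_left, hf.smul_right, h2, h0]
  · obtain ⟨s, h4, h5, h6⟩ := exists_fixed hf.invol hq hF h3
    obtain ⟨c, hc⟩ := H13.exists_conj_mul_eq hσ hf.invol h4
    obtain ⟨d, hd⟩ := H13.exists_conj_mul_eq hσ hf.invol (c := -(s + 1)) (by simp [h4])
    have h0 : c ≠ 0 := by rintro rfl; exact h5 (by simpa using hc.symm)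
    have h0' : d ≠ 0 := by rintro rfl; exact h6 (by simp at hd; linear_combination hd)
    have hw : f (v 0 + c • v 1 + d • v 2) (v 0 + c • v 1 + d • v 2) = 0 := by
      simp [hf.add_left, hf.add_right, hf.smul_left, hf.smul_right, h2]
      linear_combination hc + hd
    refine hf.ft_notMem_frame hD hf.ne hw (by simp) (by simp) (by simp) (h1 0) (h1 1) (h1 2)
      ?_ ?_ ?_ (h (hG _ hw)) <;>
    simp [hf.add_left, hf.add_right, hf.smul_left, hf.smul_right, h2, h0, h0']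

omit [DecidableEq ι] in
lemma HForm.mem_span_of_two (hf : HForm σ 1 f) (hq : ∀ x, σ x = x ^ 2) (hF : Fintype.card F = 2 ^ 2)
    {W : Submodule F (ι → F)} (b : Module.Basis (Fin 2) F W)
    (hb : ∀ i j, f (b i) (b j) = if i = j then 1 else 0) {x : ι → F} (hx : x ∈ W) (h : f x x ≠ 0) :
    ∃ i, x ∈ Submodule.span F {(b i : ι → F)} := by
  have h1 : x = b.repr ⟨x, hx⟩ 0 • (b 0 : ι → F) + b.repr ⟨x, hx⟩ 1 • (b 1 : ι → F) := by
    have := congrArg Subtype.val (b.sum_repr ⟨x, hx⟩)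
    rw [Fin.sum_univ_two] at this
    exact this.symm
  generalize b.repr ⟨x, hx⟩ 0 = c, b.repr ⟨x, hx⟩ 1 = d at h1
  subst h1
  by_cases hc : c = 0
  · exact ⟨1, by simp [hc, Submodule.smul_mem, Submodule.mem_span_singleton_self]⟩
  by_cases hd : d = 0
  · exact ⟨0, by simp [hd, Submodule.smul_mem, Submodule.mem_span_singleton_self]⟩
  have h2 : (2 : F) = 0 := by
    by_contra h2
    have := two_ne_zero_iff_odd.mp h2
    rw [hF] at this
    exact absurd this (by decide)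
  refine absurd ?_ h
  simp [hf.add_left, hf.add_right, hf.smul_left, hf.smul_right, hb, hq]
  linear_combination pow_pred_card (q := 3) hF hc + pow_pred_card (q := 3) hF hd + h2

lemma HForm.frame_of_two (hf : HForm σ 1 f) (hq : ∀ x, σ x = x ^ 2) (hσ : σ ≠ RingHom.id F)
    (hF : Fintype.card F = 2 ^ 2) {t : ℕ} {D : Fin t → Submodule F (ι → F)}
    (hD : IsNondegenerateMDecomposition f 2 D) : ∃ D' : Fin (Fintype.card ι) → Submodule F (ι → F),
      IsNondegenerateMDecomposition f 1 D' ∧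
        decompositionStabilizer D ⊓ isoG f ≤ decompositionStabilizer D' := by
  choose b hb using fun i => hf.exists_onb hσ (hD.nondegenerate i) (hD.decomp.finrank_eq i)
  have h1 := card_eq_of_isMDecomposition hD.decomp
  have h2 := hD.decomp.two_le
  obtain ⟨D', h3, -, h4⟩ := hf.exists_frame_of_orth (v := fun p : Fin t × Fin 2 => b p.1 p.2)
    (fun p => by simp [hb]) (fun ⟨i, x⟩ ⟨j, y⟩ h => by
      by_cases hij : i = j
      · subst hij
        exact (hb i x y).trans (if_neg (by simpa using h))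
      · exact hD.orthogonal i j hij _ (b i x).2 _ (b j y).2) (by simp [h1]) (by omega)
  refine ⟨D', h3, fun g hg => h4 g fun p => ?_⟩
  obtain ⟨k, hk⟩ := exists_mem_of_stab hg.1 (b p.1 p.2).2
  obtain ⟨i, hi⟩ := hf.mem_span_of_two hq hF (b k) (hb k) hk (by simp [mem_isoG.mp hg.2, hb])
  exact ⟨(k, i), hi⟩

lemma HForm.commD_two {f : (Fin 2 → F) → (Fin 2 → F) → F} (hf : HForm σ 1 f)
    (hq : ∀ x, σ x = x ^ 2) (hσ : σ ≠ RingHom.id F) (hF : Fintype.card F = 2 ^ 2) :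
    CommD σ f (similarityGroup f) := by
  obtain ⟨b, hb⟩ := hf.exists_onb hσ (W := ⊤) (m := 2) (hf.nondegOn_iff.mpr (eq_bot_iff.mpr
    fun x hx => hf.nondeg' x fun y => hx.2 y trivial)) (by simp)
  refine hf.commD_of_orth (v := fun i => b i) (by simp [hb]) (fun i j h => by simp [hb, h]) rfl
    (by simp) fun g hg i => ?_
  obtain ⟨c, hc⟩ := hg
  exact hf.mem_span_of_two hq hF b hb (x := g.val *ᵥ (b i).val) Submodule.mem_top
    (by rw [hc, hb]; simp)

/-- the reducible cases -/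
def RedM (f : (ι → F) → (ι → F) → F) (G H : Subgroup (GL ι F)) : Prop :=
  (∃ W, W ≠ ⊥ ∧ IsTotallySingularFor f W ∧ H = subspaceStabilizer W ⊓ G) ∨
  (∃ W, W ≠ ⊥ ∧ IsNondegenerateOn f W ∧ 2 * Module.finrank F W < Fintype.card ι ∧
      H = subspaceStabilizer W ⊓ G)

/-- the orthogonally imprimitive cases -/
def DecM (q : ℕ) (f : (ι → F) → (ι → F) → F) (G H : Subgroup (GL ι F)) : Prop :=
  ∃ (t m : ℕ) (D : Fin t → Submodule F (ι → F)), IsNondegenerateMDecomposition f m D ∧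
    Fintype.card ι = t * m ∧ (m = 2 → 3 ≤ q) ∧ H = decompositionStabilizer D ⊓ G

/-- the stabilisers of pairs of totally singular subspaces -/
def PairM (f : (ι → F) → (ι → F) → F) (G H : Subgroup (GL ι F)) : Prop :=
  ∃ (m : ℕ) (D : Fin 2 → Submodule F (ι → F)), Fintype.card ι = 2 * m ∧ IsMDecomposition m D ∧
    (∀ i, IsTotallySingularFor f (D i)) ∧ H = decompositionStabilizer D ⊓ G

/-- the subfield cases -/
def SuSub (q : ℕ) (f : (ι → F) → (ι → F) → F) (G H : Subgroup (GL ι F)) : Prop :=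
  (∃ (F₀ : Subfield F) (r : ℕ) (P : GL ι F), r.Prime ∧ Odd r ∧ Fintype.card F = Nat.card F₀ ^ r ∧
    IsFormRationalStructure f F₀ 1 P ∧ H = subfieldSubgroup F₀ P ⊓ G) ∨
  (Odd q ∧ ∃ (F₀ : Subfield F) (P : GL ι F), Fintype.card F = Nat.card F₀ ^ 2 ∧
    IsFormRationalStructure f F₀ 1 P ∧ H = subfieldSubgroup F₀ P ⊓ G) ∨
  (Even (Fintype.card ι) ∧ ∃ (F₀ : Subfield F) (P : GL ι F) (ζ : F),
    Fintype.card F = Nat.card F₀ ^ 2 ∧ ζ ≠ 0 ∧ ζ + ζ ^ q = 0 ∧ IsFormRationalStructure f F₀ ζ P ∧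
    (∀ u : ι → F, (∀ i, u i ∈ F₀) →
      f ((P : Matrix ι ι F) *ᵥ u) ((P : Matrix ι ι F) *ᵥ u) = 0) ∧ H = subfieldSubgroup F₀ P ⊓ G)

/-- the field extension case -/
def SuFld (f : (ι → F) → (ι → F) → F) (G H : Subgroup (GL ι F)) : Prop :=
  ∃ (r : ℕ) (K : Subalgebra F (Matrix ι ι F)), r.Prime ∧ Odd r ∧ r ∣ Fintype.card ι ∧
    IsFieldSubalgebra r K ∧ IsAdjointClosedFor f K ∧ H = subalgebraNormalizer K ⊓ G

/-- the normalisers of groups of symplectic type -/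
def SuExt (q : ℕ) (f : (ι → F) → (ι → F) → F) (H : Subgroup (GL ι F)) : Prop :=
  ∃ (r : ℕ) (R : Subgroup (GL ι F)) (p d k : ℕ), IsSymplecticTypeGroup r R ∧
    ActsAbsolutelyIrreducibly (matrixSet R) ∧ R ≤ similarityGroup f ∧ p.Prime ∧ CharP F p ∧
    q = p ^ d ∧ Fintype.card ι = r ^ k ∧
    ((R ≤ isoG f ∧ Nat.card (Subgroup.center R) = r ∧ Nat.card R = r ^ (1 + 2 * k) ∧ 0 < d ∧
        2 * d < r ∧ (p % r) ^ (2 * d) % r = 1 ∧ ∀ e < 2 * d, 0 < e → (p % r) ^ e % r ≠ 1) ∨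
      (r = 2 ∧ q = p ∧ p % 4 = 3 ∧ Nat.card (Subgroup.center R) = 4 ∧
        Nat.card R = 2 ^ (2 + 2 * k))) ∧ H ≤ subgroupNormalizer R

/-- the standing hypotheses -/
structure SuH (σ : F →+* F) (q : ℕ) (f : (ι → F) → (ι → F) → F) (a : F) (H : Subgroup (GL ι F)) :
    Prop where
  hf : TvF σ 1 f a
  hq : ∀ x, σ x = x ^ q
  hσ : σ ≠ RingHom.id F
  hF : Fintype.card F = q ^ 2
  hn : 4 ≤ Fintype.card ι ∨ (3 ≤ Fintype.card ι ∧ 3 ≤ q)
  max : IsMaximalIn (isoG f ⊓ specialLinear ι F) H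

omit [Fintype F] in
lemma TvF.Has.redM {ε : F} {hf : TvF σ ε f a} (hG : hf.Has G) (hH : IsMaximalIn G H)
    (h : (∃ W, W ≠ ⊥ ∧ IsTotallySingularFor f W ∧ H ≤ subspaceStabilizer W) ∨
      ∃ W, W ≠ ⊥ ∧ IsNondegenerateOn f W ∧ 2 * Module.finrank F W < Fintype.card ι ∧
        H ≤ subspaceStabilizer W) : RedM f G H := by
  rcases h with ⟨W, h1, h2, h3⟩ | ⟨W, h1, h2, h3, h4⟩
  · refine Or.inl ⟨W, h1, h2, eq_of_maximal hH h3 (hG.not_le_stab h1 ?_)⟩
    rintro rfl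
    obtain ⟨w, h0, -⟩ := hf.iso
    exact h0 (hf.nondeg w fun x => h2 x trivial w trivial)
  · refine Or.inr ⟨W, h1, h2, h3, eq_of_maximal hH h4 (hG.not_le_stab h1 ?_)⟩
    rintro rfl
    simp at h3
    omega

namespace SuH

lemma has (h : SuH σ q f a H) : h.hf.Has (isoG f ⊓ specialLinear ι F) :=
  fun _ hw => h.hf.ft_mem h.hf.tr0 hw

lemma le (h : SuH σ q f a H) : H ≤ isoG f := h.max.1.le.trans inf_le_left

lemma three_le (h : SuH σ q f a H) : 3 ≤ Fintype.card ι := by have := h.hn; omega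

lemma decM (h : SuH σ q f a H) {t m : ℕ} {D : Fin t → Submodule F (ι → F)}
    (hD : IsNondegenerateMDecomposition f m D) (hle : H ≤ decompositionStabilizer D) :
    DecM q f (isoG f ⊓ specialLinear ι F) H := by
  have h1 : ∀ {t} {D : Fin t → Submodule F (ι → F)}, IsNondegenerateMDecomposition f 1 D →
      H ≤ decompositionStabilizer D → DecM q f (isoG f ⊓ specialLinear ι F) H := by
    intro t D hD hle
    have h1 := card_eq_of_isMDecomposition hD.decomp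
    exact ⟨t, 1, D, hD, h1, by omega, eq_of_maximal h.max hle
      (h.has.not_le_frame h.hq h.hσ h.hF hD (by have := h.hn; omega))⟩
  by_cases h2 : m = 2 ∧ q = 2
  · obtain ⟨rfl, rfl⟩ := h2
    obtain ⟨D', h2, h3⟩ := h.hf.frame_of_two h.hq h.hσ h.hF hD
    exact h1 h2 ((le_inf hle h.le).trans h3)
  rcases (show m = 1 ∨ 2 ≤ m by have := hD.decomp.pos; omega) with rfl | h3
  · exact h1 hD hle
  · exact ⟨t, m, D, hD, card_eq_of_isMDecomposition hD.decomp, by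
      have := two_le_of_card_sq h.hF; omega,
      eq_of_maximal h.max hle (h.has.not_le_decomp hD.decomp h3)⟩

lemma of_red (h : SuH σ q f a H) (hi : ¬ Irr H) :
    RedM f (isoG f ⊓ specialLinear ι F) H ∨ DecM q f (isoG f ⊓ specialLinear ι F) H := by
  rcases h.hf.red (h.le.trans (isoG_le_sim f)) hi with h1 | ⟨W, h1, h2, h3, h4⟩
  · exact Or.inl (h.has.redM h.max (Or.inl h1))
  · rcases h3.lt_or_eq with h5 | h5
    · exact Or.inl (h.has.redM h.max (Or.inr ⟨W, h1, h2, h5, h4⟩))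
    · obtain ⟨h6, h7⟩ := h.hf.pair_decomp h1 h2 h5
      exact Or.inr (h.decM h6 ((le_inf (h.le.trans (isoG_le_sim f)) h4).trans h7))

lemma pairM (h : SuH σ q f a H) {m : ℕ} {D : Fin 2 → Submodule F (ι → F)}
    (hD : IsMDecomposition m D) (h1 : ∀ i, IsTotallySingularFor f (D i))
    (hle : H ≤ decompositionStabilizer D) : PairM f (isoG f ⊓ specialLinear ι F) H :=
  have h2 := card_eq_of_isMDecomposition hD
  ⟨m, D, h2, hD, h1, eq_of_maximal h.max hle (h.has.not_le_decomp hD (by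
    have := h.three_le; omega))⟩

lemma suSub (h : SuH σ q f a H) (h1 : UC5 q f H) : SuSub q f (isoG f ⊓ specialLinear ι F) H := by
  have key : ∀ {F₀ : Subfield F} {r : ℕ} {P : GL ι F}, r.Prime → Fintype.card F = Nat.card F₀ ^ r → H ≤ subfieldSubgroup F₀ P →
      H = subfieldSubgroup F₀ P ⊓ (isoG f ⊓ specialLinear ι F) := fun h1 h2 h3 =>
    eq_of_maximal h.max h3 (h.has.not_le_subfield h.three_le (ne_top_of_card_eq_pow h1 h2) _)
  rcases h1 with ⟨F₀, r, P, h1, h2, h3, h4, h5⟩ | ⟨F₀, P, h1, h2, h3, h4⟩ |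
    ⟨F₀, P, ζ, h1, h2, h3, h4, h5, h6, h7⟩
  · exact Or.inl ⟨F₀, r, P, h1, h2, h3, h4, key h1 h3 h5⟩
  · exact Or.inr (Or.inl ⟨h1, F₀, P, h2, h3, key Nat.prime_two h2 h4⟩)
  · exact Or.inr (Or.inr ⟨h1, F₀, P, ζ, h2, h3, h4, h5, h6, key Nat.prime_two h2 h7⟩)

lemma of_fc5 (h : SuH σ q f a H) (h1 : FC5 f H) : RedM f (isoG f ⊓ specialLinear ι F) H ∨
    DecM q f (isoG f ⊓ specialLinear ι F) H ∨ SuSub q f (isoG f ⊓ specialLinear ι F) H := by
  by_cases hi : Irr H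
  · exact Or.inr (Or.inr (h.suSub (h1.unitary h.hf.toHForm h.hq h.hσ h.hF
      (by have := h.three_le; omega) hi h.le)))
  · exact (h.of_red hi).imp_right Or.inl

lemma suFld (h : SuH σ q f a H) {r : ℕ} {K : Subalgebra F (Matrix ι ι F)} (h1 : r.Prime)
    (h2 : Odd r) (h3 : IsFieldSubalgebra r K) (h4 : IsAdjointClosedFor f K)
    (hle : H ≤ subalgebraNormalizer K) : SuFld f (isoG f ⊓ specialLinear ι F) H := by
  have : Nonempty ι := Fintype.card_pos_iff.mp (by have := h.three_le; omega)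
  obtain ⟨g, hg, U, h5, h6, h7⟩ := h.has.exists_small
  exact ⟨r, K, h1, h2, dvd_card_of_isFieldSubalgebra h3, h3, h4, eq_of_maximal h.max hle fun h8 =>
    not_mem_normalizer_of_small h.three_le h5 h6 h7 h1.two_le h3 (h8 hg)⟩

lemma of_commD (h : SuH σ q f a H) (h1 : CommD σ f H) : RedM f (isoG f ⊓ specialLinear ι F) H ∨
    DecM q f (isoG f ⊓ specialLinear ι F) H ∨ PairM f (isoG f ⊓ specialLinear ι F) H ∨
      SuFld f (isoG f ⊓ specialLinear ι F) H := by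
  have : Nonempty ι := Fintype.card_pos_iff.mp (by have := h.three_le; omega)
  by_cases hi : Irr H
  swap
  · exact (h.of_red hi).imp_right Or.inl
  obtain ⟨C, hc, hn, ha, hne⟩ := h1
  rcases h.hf.comm_cases (h.le.trans (isoG_le_sim f)) hi C hc hn ha hne with ⟨t, m, D, h1, h2, -⟩ |
    ⟨m, e, -, -, -, h4, h5, h6, -⟩ | ⟨r, K, h1, h2, -, h3, h4, -⟩
  · exact Or.inr (Or.inl (h.decM h1 h2))
  · exact Or.inr (Or.inr (Or.inl (h.pairM h4 h5 h6)))
  · exact Or.inr (Or.inr (Or.inr (h.suFld h1 (h.hf.odd_of_ne_id h.hσ h2 h3 h1) h2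
      (h.hf.adjClosed_iff.mpr h3) h4)))

theorem cases (h : SuH σ q f a H) : RedM f (isoG f ⊓ specialLinear ι F) H ∨
    DecM q f (isoG f ⊓ specialLinear ι F) H ∨ PairM f (isoG f ⊓ specialLinear ι F) H ∨
    SuFld f (isoG f ⊓ specialLinear ι F) H ∨ SuSub q f (isoG f ⊓ specialLinear ι F) H ∨
    SuExt q f H ∨
    (∃ (a b : ℕ) (e : ι ≃ Fin a × Fin b) (P : GL ι F) (f₁ : _) (f₂ : _), 2 ≤ a ∧ a < b ∧
      Fintype.card ι = a * b ∧ (a = 2 → 3 ≤ q) ∧ IsUnitaryFormPow q f₁ ∧ IsUnitaryFormPow q f₂ ∧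
      IsTensorFormStructure (fun x : F => x ^ q) f f₁ f₂ e P ∧
      H = tensorProductSubgroup a b e P ⊓ (isoG f ⊓ specialLinear ι F)) ∨
    (∃ (k t : ℕ) (e : ι ≃ (Fin t → Fin k)) (P : GL ι F) (f₁ : _), 3 ≤ k ∧ 2 ≤ t ∧
      Fintype.card ι = k ^ t ∧ (k = 3 → 3 ≤ q) ∧ IsUnitaryFormPow q f₁ ∧
      IsTensorPowerFormStructure (fun x : F => x ^ q) f f₁ e P ∧
      H = tensorWreathSubgroup k t e P ⊓ (isoG f ⊓ specialLinear ι F)) ∨
    InUnitaryResidualClass H := by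
  have hn := h.three_le
  have : Nonempty ι := Fintype.card_pos_iff.mp (by omega)
  have hq := two_le_of_card_sq h.hF
  have hs : (fun x : F => x ^ q) = σ := (funext h.hq).symm
  obtain ⟨g, hg, U, a1, a2, a3⟩ := h.has.exists_small
  rcases suCase h.hf.toHForm h.hq h.hσ h.hF (by omega) H h.le with (h1 | h1 | ⟨t, k, D, h1, h2⟩ |
    ⟨k, D, h1, h2, h3⟩ | h1 | ⟨r, R, p, e, k, h1, h2, h3, h4, h5, h6, h7, h8⟩ |
    ⟨r, K, h1, h2, h3, h4, h5⟩ | ⟨a, b, e, P, f₁, f₂, h1, h2, h3⟩ |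
    ⟨k, t, e, P, f₁, h1, h2, h3, h4⟩) | h1
  · exact Or.inl (h.has.redM h.max (Or.inl h1))
  · exact Or.inl (h.has.redM h.max (Or.inr h1))
  · exact Or.inr (Or.inl (h.decM h1 h2))
  · exact Or.inr (Or.inr (Or.inl (h.pairM h1 h2 h3)))
  · iterate 4 right
    exact Or.inl (h.suSub h1)
  · iterate 5 right
    obtain ⟨hp, hc, he, h9, h10⟩ := id h5
    have hF := h.hF
    obtain ⟨d, -, rfl⟩ :=
      (Nat.dvd_prime_pow hp).mp (he ▸ hF ▸ dvd_pow_self q two_ne_zero : q ∣ p ^ e)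
    rw [← pow_mul, mul_comm] at hF
    obtain rfl : e = 2 * d := Nat.pow_right_injective hp.two_le (he.symm.trans hF)
    refine Or.inl ⟨r, R, p, d, k, h1, h2, h3, hp, hc, rfl, h6, ?_, h8⟩
    rcases h7 with ⟨b1, b2, -, b3⟩ | ⟨rfl, b1, b2, b3⟩
    · rw [b2] at h5 h10
      obtain ⟨c1, c2, c3, c4⟩ := minimal_mod h5 h1.prime
      refine Or.inl ⟨fun x hx => ?_, b2, b3, by omega, c2, c3, c4⟩
      obtain ⟨c, hc⟩ := h3 hx
      have c5 : (c : F) ^ r = 1 := by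
        have c5 := congrArg Subtype.val (Monoid.pow_exponent_eq_one (⟨x, hx⟩ : R))
        rw [h1.exponent_eq, (Nat.coprime_two_left.mpr b1).gcd_eq_one, mul_one] at c5
        refine h.hf.mult_unique (Mult.pow hc r) ?_
        rw [show x ^ r = 1 from c5]
        exact mult_one_iff.mpr (one_mem _)
      have c6 : c ^ (p ^ d - 1) = 1 := by
        have := h.hf.mult_fixed hc
        rw [h.hq, ← Units.val_pow_eq_pow_val, Units.val_inj] at this
        rw [pow_sub _ (Nat.one_le_pow _ _ hp.pos), this, pow_one, mul_inv_cancel]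
      have := Fact.mk h1.prime
      by_contra c7
      exact h10 d (by omega) (by omega) (orderOf_eq_prime (Units.ext c5 : c ^ r = 1) (by
        rintro rfl; exact c7 (mult_one_iff.mp hc)) ▸ orderOf_dvd_of_pow_eq_one c6)
    · obtain rfl : d = 1 := by omega
      have b4 := h10 1 one_pos (by omega)
      rw [b2, pow_one] at b4
      have := hp.eq_two_or_odd
      exact Or.inr ⟨rfl, pow_one p, by omega, b2, b3⟩
  · iterate 3 right
    exact Or.inl (h.suFld h1 h2 h3 h4 h5)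
  · by_cases h4 : a = 2 ∧ q = 2
    · obtain ⟨rfl, rfl⟩ := h4
      rcases h.of_commD (h2.commD h.hf.toHForm h3 (h.le.trans (isoG_le_sim f))
        (h2.hf₁.commD_two h.hq h.hσ h.hF)) with h4 | h4 | h4 | h4 <;> simp only [h4, true_or, or_true]
    iterate 6 right
    exact Or.inl ⟨a, b, e, P, f₁, f₂, h2.two_le₁, h1, h2.card, by omega, h2.hf₁.unitaryPow h.hq,
      h2.hf₂.unitaryPow h.hq, hs ▸ h2.struct h.hf.toHForm, eq_of_maximal h.max h3 fun h5 =>
        not_mem_tensor_of_small (by omega) a1 a2 a3 h2.two_le₁ h2.two_le₂ e P (h5 hg)⟩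
  · iterate 7 right
    exact Or.inl ⟨k, t, e, P, f₁, h1, h3.two_le_t, h3.card, by omega, h3.hf₁.unitaryPow h.hq,
      hs ▸ h3.struct h.hf.toHForm, eq_of_maximal h.max h4 fun h5 =>
        not_mem_wreath_of_small (by omega) a1 a2 a3 h3.two_le_t (Or.inl h1) e P (h5 hg)⟩
  · iterate 8 right
    exact h1

lemma eq_normalizer (h : SuH σ q f a H) {r : ℕ} {R : Subgroup (GL ι F)}
    (h1 : IsSymplecticTypeGroup r R) (h2 : ActsAbsolutelyIrreducibly (matrixSet R))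
    (hd : (r = 2 ∧ q % 4 = 3) ∨ 5 ≤ Fintype.card ι) (hle : H ≤ subgroupNormalizer R) :
    H = subgroupNormalizer R ⊓ (isoG f ⊓ specialLinear ι F) :=
  eq_of_maximal h.max hle (h.has.not_le_normalizer h1.prime h1.pGroup h2 (hd.imp_left fun h3 =>
    ⟨h3.1, two_ne_zero_iff_odd.mpr (h.hF ▸ (Nat.odd_iff.mpr (by omega)).pow), h.three_le⟩))

lemma ext_two (h : SuH σ q f a H) (h1 : SuExt q f H) {k : ℕ} (hk : Fintype.card ι = 2 ^ k) :
    ∃ (p : ℕ) (R : Subgroup (GL ι F)), p.Prime ∧ q = p ∧ p % 4 = 3 ∧ IsSymplecticTypeGroup 2 R ∧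
      ActsAbsolutelyIrreducibly (matrixSet R) ∧ R ≤ similarityGroup f ∧
      Nat.card R = 2 ^ (2 + 2 * k) ∧ Nat.card (Subgroup.center R) = 4 ∧
      H = subgroupNormalizer R ⊓ (isoG f ⊓ specialLinear ι F) := by
  obtain ⟨r, R, p, d, m, a1, a2, a3, a4, -, -, a5, a6, a7⟩ := h1
  obtain rfl := eq_of_prime_pow a1.prime Nat.prime_two (Nat.pos_of_ne_zero (by
    rintro rfl; have := h.three_le; rw [pow_zero] at hk; omega)) (hk.symm.trans a5)
  obtain rfl : k = m := Nat.pow_right_injective le_rfl (hk.symm.trans a5)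
  rcases a6 with ⟨-, -, -, b1, b2, -⟩ | ⟨-, rfl, b1, b2, b3⟩
  · omega
  · exact ⟨q, R, a4, rfl, b1, a1, a2, a3, b3, b2, h.eq_normalizer a1 a2 (Or.inl ⟨rfl, b1⟩) a7⟩

lemma ext_odd (h : SuH σ q f a H) (h1 : SuExt q f H) {r k : ℕ} (hr : r.Prime) (h2 : r ≠ 2)
    (hk : Fintype.card ι = r ^ k) : ∃ (p d : ℕ) (R : Subgroup (GL ι F)), p.Prime ∧ CharP F p ∧
      q = p ^ d ∧ (0 < d ∧ 2 * d < r ∧ (p % r) ^ (2 * d) % r = 1 ∧
        ∀ e < 2 * d, 0 < e → (p % r) ^ e % r ≠ 1) ∧ IsSymplecticTypeGroup r R ∧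
      ActsAbsolutelyIrreducibly (matrixSet R) ∧ R ≤ isoG f ∧ Nat.card R = r ^ (1 + 2 * k) ∧
      Nat.card (Subgroup.center R) = r ∧ H ≤ subgroupNormalizer R := by
  obtain ⟨r, R, p, d, m, a1, a2, a3, a4, a8, a9, a5, a6, a7⟩ := h1
  obtain rfl := eq_of_prime_pow a1.prime hr (Nat.pos_of_ne_zero (by
    rintro rfl; have := h.three_le; rw [pow_zero] at hk; omega)) (hk.symm.trans a5)
  obtain rfl : k = m := Nat.pow_right_injective hr.two_le (hk.symm.trans a5)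
  rcases a6 with ⟨b1, b2, b3, b4⟩ | ⟨b1, -⟩
  · exact ⟨p, d, R, a4, a8, a9, b4, a1, a2, b1, b3, b2, a7⟩
  · exact absurd b1 h2

end SuH

lemma exists_suH {n : ℕ} (hF : Fintype.card F = q ^ 2) (hn : 4 ≤ n ∨ (3 ≤ n ∧ 3 ≤ q))
    {H : Subgroup (GL (Fin n) F)} (hH : IsMaximalIn (GU n F q ⊓ specialLinear (Fin n) F) H) :
    ∃ σ a, SuH σ q (hermForm n F q) a H := by
  obtain ⟨σ, h1, h2, h3⟩ := exists_sigma hF
  obtain ⟨a, ha⟩ := (hform_hermForm h1 h2 n).tvF_herm h3 (by simp; omega)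
  exact ⟨σ, a, ha, h1, h3, hF, by simpa using hn, hH⟩

end su

end Cfsg.Agent.H18
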