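import Mathlib
import Cfsg.Agent.H14.Types
import Cfsg.Agent.H14.RS2

/-!
Iterated cores of a maximal parabolic subgroup and its conjugate by the missing simple reflection.
-/

set_option autoImplicit false

namespace Cfsg.Agent.H18

open H14 Pointwise

section
variable {G : Type*} [Group G] {M Y : Subgroup G} {g n : G}

theorem mem_icore : g ∈ (Y.subgroupOf M).normalCore.map M.subtype ↔ g ∈ M ∧ ∀ p ∈ M, p * g * p⁻¹ ∈ Y :=
  ⟨by rintro ⟨g, h, rfl⟩; exact ⟨g.2, fun p hp => h ⟨p, hp⟩⟩, fun ⟨a, b⟩ => ⟨⟨g, a⟩, fun p => b p p.2, rfl⟩⟩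

theorem mem_mapc : g ∈ Y.map (MulAut.conj n).toMonoidHom ↔ n⁻¹ * g * n ∈ Y :=
  ⟨by rintro ⟨y, h, rfl⟩; simpa [mul_assoc] using h, fun h => ⟨_, h, by simp [mul_assoc]⟩⟩

theorem icore_map (hn : n⁻¹ = n) : ((Y ⊓ Y.map (MulAut.conj n).toMonoidHom).subgroupOf
    (M.map (MulAut.conj n).toMonoidHom)).normalCore.map (Subgroup.subtype _) = (((Y ⊓ Y.map
      (MulAut.conj n).toMonoidHom).subgroupOf M).normalCore.map M.subtype).map (MulAut.conj n).toMonoidHom := by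
  have h : n * n = 1 := by nth_rw 1 [← hn]; simp
  have h' : ∀ x, n * (n * x) = x := fun x => by rw [← mul_assoc, h, one_mul]
  ext g
  simp only [mem_mapc (Y := Subgroup.map (Subgroup.subtype _) _), mem_icore, mem_mapc, Subgroup.mem_inf, hn]
  exact and_congr_right fun _ => ⟨fun a p hp => by simpa [mul_assoc, h, h', hn, and_comm] using a (n * p * n) (by
    simpa [mul_assoc, h, h']), fun a p hp => by simpa [mul_assoc, h, h', hn, and_comm] using a _ hp⟩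

end

variable {ι Φ : Type} [Fintype ι] [DecidableEq ι] [Finite Φ] {R : RS ι Φ} {K G : Type*} [Field K] [Group G]
  (X : RG R K G) {g m : G} {i j : ι} {J : Set ι} {N : Subgroup G} {w : Equiv.Perm Φ}

theorem rg_drop (f : (ι → ℤ) →ₗ[ℤ] ℤ) {S T : Set Φ} (hpos : ∀ r ∈ S, 0 < f (R.vec r))
    (hcl : ∀ r ∈ S, ∀ s ∈ S, R.comb r s ⊆ S) (hg : g ∈ X.gen S)
    (H : ∀ r ∈ T, ∃ h : (ι → ℤ) →ₗ[ℤ] ℤ, 0 < h (R.vec r) ∧ g ∈ X.gen {k | h (R.vec k) ≤ 0}) : g ∈ X.gen (S \ T) := by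
  suffices ∃ S' ⊆ S \ T, (∀ r ∈ S', ∀ s ∈ S', R.comb r s ⊆ S') ∧ g ∈ X.gen S' from
    let ⟨_, a, _, b⟩ := this; X.gen_mono a b
  induction T, T.toFinite using Set.Finite.induction_on with
  | empty => exact ⟨S, by simp, hcl, hg⟩
  | @insert r T _ _ ih =>
    obtain ⟨S', a1, a2, a3⟩ := ih fun k hk => H k (.inr hk)
    obtain ⟨h, b1, b2⟩ := H r (.inl rfl)
    obtain ⟨a, c1, b, c2, rfl⟩ := X.exists_mul_of_union f (A := S' ∩ {k | h (R.vec k) ≤ 0})
      (B := S' ∩ {k | 0 < h (R.vec k)}) (fun k hk => hpos k (a1 hk).1) a2 (by ext; simp [← and_or_left, le_or_gt]) a3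
    obtain rfl := X.disj h b (X.gen_mono Set.inter_subset_right c2) (Subgroup.mem_sup_left
      ((mul_mem_cancel_left (X.gen_mono Set.inter_subset_right c1)).mp b2))
    refine ⟨S' ∩ {k | h (R.vec k) ≤ 0}, fun k hk => ⟨(a1 hk.1).1, ?_⟩, fun k hk l hl s hs => ⟨a2 k hk.1 l hl.1 hs, ?_⟩, by simpa using c1⟩
    · rintro (rfl | e)
      exacts [b1.not_ge hk.2, (a1 hk.1).2 e]
    · obtain ⟨x, y, d1, d2, d3⟩ := RS.comb_f h hs
      have := hk.2; have := hl.2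
      simp only [Set.mem_setOf] at *; nlinarith

omit [Finite Φ] in
theorem rg_back (hm : X.Rep m w) {h : (ι → ℤ) →ₗ[ℤ] ℤ} {r : Φ} (h1 : 0 < h (R.vec (w r)))
    (h2 : m * g * m⁻¹ ∈ X.gen {k | h (R.vec k) ≤ 0}) :
    ∃ h : (ι → ℤ) →ₗ[ℤ] ℤ, 0 < h (R.vec r) ∧ g ∈ X.gen {k | h (R.vec k) ≤ 0} := by
  obtain ⟨L, hL, -⟩ := hm.mem_Aut
  have := hm.inv.conj_mem_gen (T := {k | h (L (R.vec k)) ≤ 0}) (fun k hk => by simpa [← hL]) h2
  exact ⟨h ∘ₗ L.toLinearMap, by simpa [← hL], by simpa [mul_assoc] using this⟩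

omit [Finite Φ] in
theorem rg_pos (hm : m ∈ X.P J) (h : X.Rep m w) {r : Φ} (h1 : R.pos r) (h2 : r ∉ R.sub J) : R.pos (w r) := by
  obtain ⟨c, hc⟩ := h.conj_x r
  exact X.pos_of_x_mem_B (t := c * 1) (by simp) (X.U_le_B (X.UJ_le_U J (hc 1 ▸
    (Subgroup.mem_normalizer_iff.mp (X.P_le_normalizer J hm) _).mp (X.x_mem_gen (S := {r | R.pos r ∧ r ∉ R.sub J}) ⟨h1, h2⟩ 1))))

omit [Finite Φ] in
theorem n_notMem_P (hj : j ∉ J) : X.n (R.simple j) 1 ∉ X.P J := fun e =>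
  R.not_pos_neg_simple j (by simpa using rg_pos X e (X.rep_n _ one_ne_zero) (R.pos_simple j) (by rwa [RG.simple_mem_sub]))

omit [Finite Φ] in
theorem car_zero (hi : i ∈ J) (hj : j ∉ J) {b : G} (hb : b ∈ X.B)
    (H : X.n (R.simple j) 1 * (X.n (R.simple i) 1 * b) * (X.n (R.simple j) 1)⁻¹ ∈ X.P J) : R.car j i = 0 := by
  have a1 := X.n_mem_N (R.simple i) one_ne_zero
  have a2 := X.n_mem_N (R.simple j) one_ne_zero
  have a3 : ∀ {x b₁ b₂}, b₁ ∈ X.B → b₂ ∈ X.B → b₁ * x * b₂ ∈ X.P J → x ∈ X.P J := fun c d e =>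
    (mul_mem_cancel_left (X.B_le_P J c)).mp ((mul_mem_cancel_right (X.B_le_P J d)).mp e)
  replace H := inv_mem H
  rw [mul_inv_rev, mul_inv_rev, mul_inv_rev, inv_inv, mul_assoc b⁻¹, ← mul_assoc] at H
  rcases X.bn_mul j (mul_mem (inv_mem a1) (inv_mem a2)) (inv_mem hb) with ⟨b₁, c1, b₂, c2, e⟩ | ⟨b₁, c1, b₂, c2, e⟩
  swap
  · exact absurd (inv_mem_iff.mp ((mul_mem_cancel_left (inv_mem (X.n_mem_P hi))).mp (a3 c1 c2 (e ▸ H)))) (n_notMem_P X hj)
  by_contra c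
  have a4 : i ≠ j := by rintro rfl; exact hj hi
  have a5 := (R.pos_simple i).srefl (i := j) (R.simple_injective.ne a4)
  refine (R.pos_neg_iff_not _).mp ?_ a5
  have := rg_pos X (a3 c1 c2 (e ▸ H)) ((X.rep_n _ one_ne_zero).mul ((X.rep_n _ one_ne_zero).inv.mul
    (X.rep_n _ one_ne_zero).inv)) a5 fun d => c (by simpa [R.vec_srefl, R.vec_simple, a4.symm] using d j hj)
  simp only [RS.rP_inv, Equiv.Perm.mul_apply, RS.rP_apply] at this
  rwa [R.refl_simple, R.refl_simple, R.refl_simple, R.srefl_srefl, R.srefl_simple_self, R.srefl_neg] at this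

omit [Finite Φ] in
theorem rg_desc (r : Φ) (hr : 0 < R.vec r i) : ∃ m ∈ X.P {i}ᶜ, ∃ w, X.Rep m w ∧ R.vec (w r) i = R.vec r i ∧
    2 ≤ R.cov (w r) i * R.ap i (R.vec (w r)) := by
  induction h : (R.ht r).toNat using Nat.strong_induction_on generalizing r with | _ n ih
  have a1 := R.pos_of_coord_pos hr
  by_cases e : ∃ j ≠ i, 0 < R.ap j (R.vec r)
  · obtain ⟨j, b1, b2⟩ := e
    have b3 : R.vec (R.srefl j r) i = R.vec r i := by simp [R.vec_srefl, b1.symm]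
    obtain ⟨m, c1, w, c2, c3, c4⟩ := ih _ (by have := a1.ht_pos; rw [R.ht_srefl]; omega) _ (b3 ▸ hr) rfl
    exact ⟨_, mul_mem c1 (X.n_mem_P (j := j) b1), _, c2.mul (X.rep_n _ one_ne_zero), by simpa [b3] using c3, by simpa⟩
  push Not at e
  refine ⟨1, one_mem _, 1, X.rep_one, rfl, ?_⟩
  have := R.pair_self r
  rw [R.pair_def, R.pairv_apply, ← Finset.add_sum_erase _ _ (Finset.mem_univ i)] at this
  have := Finset.sum_nonpos (s := Finset.univ.erase i) (f := fun j => R.cov r j * R.ap j (R.vec r)) fun j hj =>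
    mul_nonpos_of_nonneg_of_nonpos ((R.cov_nonneg_iff r j).mpr (a1 j)) (e j (Finset.ne_of_mem_erase hj))
  simp only [Equiv.Perm.one_apply]; omega

/-- The filtration of the unipotent radical. -/
def Qj (i : ι) (j : ℤ) : Subgroup G := X.gen {r | j ≤ R.vec r i}

theorem le_Qj (hN : ∀ p ∈ X.P {i}ᶜ, ∀ g ∈ N, p * g * p⁻¹ ∈ N) {c : ℤ} (hc : 0 < c) (h : (ι → ℤ) →ₗ[ℤ] ℤ)
    (h1 : N ≤ X.gen {k | h (R.vec k) ≤ 0}) (h2 : ∀ r, R.vec r i = c → 2 ≤ R.cov r i * R.ap i (R.vec r) → 0 < h (R.vec r))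
    (h3 : N ≤ Qj X i c) : N ≤ Qj X i (c + 1) := fun g hg => by
  refine X.gen_mono (fun k hk => Int.add_one_le_iff.mpr (lt_of_le_of_ne hk.1 (Ne.symm hk.2))) (rg_drop X (.proj i)
    (S := {r | c ≤ R.vec r i}) (T := {r | R.vec r i = c})
    (fun r hr => hc.trans_le hr) (fun r hr s hs k hk => ?_) (h3 hg) fun r hr => ?_)
  · have := RS.comb_f_ge (.proj i) hk (hc.le.trans hr) (hc.le.trans hs)
    simp only [Set.mem_setOf, LinearMap.proj_apply] at *; omega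
  obtain ⟨m, a1, w, a2, a3, a4⟩ := rg_desc X r (hc.trans_eq hr.symm)
  exact rg_back X a2 (h2 _ (a3.trans hr) a4) (h1 (hN m a1 g hg))

omit [Finite Φ] in
theorem P_eq_gen (hH : X.H = ⊥) : X.P {i}ᶜ = Qj X i 0 := by
  rw [X.P_eq, hH, bot_sup_eq, Qj]
  congr 1; ext r
  refine ⟨fun h => h.elim (· i) fun h => (h i (by simp)).ge, fun h => (em _).imp_right fun e j hj => ?_⟩
  obtain rfl : j = i := by simpa using hj
  exact le_antisymm ((R.not_pos_iff r).mp e j) h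

omit [Finite Φ] in
theorem conj_Qj (hH : X.H = ⊥) {c : ℤ} (hc : 0 < c) (hm : m ∈ X.P {i}ᶜ) (hg : g ∈ Qj X i c) : m * g * m⁻¹ ∈ Qj X i c :=
  X.conj_mem_gen (S := {r | 0 ≤ R.vec r i}) (T := {r | c ≤ R.vec r i}) (fun r hr s hs => ⟨RS.ne_neg_of_f (.proj i) (add_pos_of_nonneg_of_pos hr (hc.trans_le hs)), fun k hk => by
    have := RS.comb_f_ge (.proj i) hk hr (hc.le.trans hs)
    simp only [Set.mem_setOf, LinearMap.proj_apply] at *; omega⟩) ((P_eq_gen X hH).le hm) hg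

theorem le_Q1 (hH : X.H = ⊥) (hR : R.Conn) (hN : ∀ p ∈ X.P {i}ᶜ, ∀ g ∈ N, p * g * p⁻¹ ∈ N) (h1 : N ≤ X.P {i}ᶜ)
    (h2 : ∀ g ∈ N, X.n (R.simple i) 1 * g * (X.n (R.simple i) 1)⁻¹ ∈ X.P {i}ᶜ) : N ≤ Qj X i 1 := by
  have a1 : N ⊔ X.B ≤ X.P {i}ᶜ := sup_le h1 (X.B_le_P _)
  have a2 := X.eq_P_of_le (M := N ⊔ X.B) le_sup_right (a1.trans (X.P_le_grp _))
  have a3 : N ≤ X.U := by
    by_cases e : {j | X.n (R.simple j) 1 ∈ N ⊔ X.B}.Nonempty
    swap
    · rw [Set.not_nonempty_iff_eq_empty.mp e, RG.P, RG0.B, hH] at a2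
      simpa using le_sup_left.trans a2.le
    obtain ⟨j, b1, l, b2, b3⟩ := hR _ e ⟨i, fun c => n_notMem_P X (by simp) (a1 c)⟩
    obtain ⟨b, c1, g, c2, c3⟩ : X.n (R.simple j) 1 ∈ (X.B : Set G) * (N : Set G) := by
      rw [← Subgroup.coe_mul_of_left_le_normalizer_right _ _ fun b hb => Subgroup.mem_normalizer_iff.mpr fun g =>
        ⟨hN b (X.B_le_P _ hb) g, fun c => by simpa [mul_assoc] using hN _ (inv_mem (X.B_le_P _ hb)) _ c⟩, sup_comm]
      exact b1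
    have c4 : X.n (R.simple j) 1 * b⁻¹ ∈ N := by simpa [← c3] using hN b (X.B_le_P _ c1) g c2
    refine absurd (R.car_eq_zero_comm.mp ?_) b3
    by_cases d : l = i
    · exact d ▸ car_zero X (J := {i}ᶜ) (fun c : j = i => n_notMem_P X (by simp) (c ▸ a1 b1)) (by simp) (inv_mem c1) (h2 _ c4)
    · exact car_zero X b1 b2 (inv_mem c1) (a2.le (Subgroup.mem_sup_left (hN _ (X.n_mem_P d) _ c4)))
  intro g hg
  refine X.gen_mono (fun k hk => ?_) (rg_drop X RS.htv (S := {r | R.pos r}) (T := {r | R.pos r ∧ R.vec r i = 0})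
    (fun r hr => RS.pos.ht_pos hr) (fun r hr s hs k hk => RS.comb_pos hk hr hs) (a3 hg) fun r hr => ?_)
  · have : 0 ≤ R.vec k i := hk.1 i
    have : R.vec k i ≠ 0 := fun e => hk.2 ⟨hk.1, e⟩
    simp only [Set.mem_setOf]; omega
  refine rg_back X (X.rep_n r one_ne_zero) (h := -RS.htv) (by simpa [R.vec_neg, R.ht_def] using hr.1.ht_pos)
    (X.gen_mono (fun k hk => by simpa [R.ht_def] using (RS.pos.ht_pos hk).le) (a3 (hN _ ?_ g hg)))
  rw [P_eq_gen X hH]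
  exact X.n_mem_gen hr.2.ge (by simp [R.vec_neg, hr.2]) 1

theorem iter_core (hH : X.H = ⊥) (hR : R.Conn) (hc : ∀ r, R.cov r = R.vec r)
    (hs : ∀ r, r ≠ R.simple i → R.ap i (R.vec r) ≤ 1) (A : ℕ → Subgroup G) (h0 : A 0 = X.P {i}ᶜ)
    (h1 : ∀ k, A (k + 1) = Qj X i (k + 2)) (k : ℕ) : A (k + 1) = ((A k ⊓ (A k).map (MulAut.conj
      (X.n (R.simple i) 1)).toMonoidHom).subgroupOf (X.P {i}ᶜ)).normalCore.map (Subgroup.subtype _) := by
  have a0 := X.rep_n (R.simple i) one_ne_zero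
  have a1 : ∀ r, R.vec (R.srefl i r) i = R.vec r i - R.ap i (R.vec r) := fun r => by simp [R.vec_srefl]
  have a2 : ∀ {c c' : ℤ}, c' ≤ c → Qj X i c ≤ Qj X i c' := fun h => X.gen_mono fun _ a => le_trans h a
  have a3 : Qj X i (k + 1) ≤ A k := by
    cases k with
    | zero => rw [h0, P_eq_gen X hH]; exact a2 (by simp)
    | succ k => rw [h1]; exact a2 (by simp; omega)
  set N := ((A k ⊓ (A k).map (MulAut.conj (X.n (R.simple i) 1)).toMonoidHom).subgroupOf (X.P {i}ᶜ)).normalCore.map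
    (Subgroup.subtype _)
  have a4 : ∀ p ∈ X.P {i}ᶜ, ∀ g ∈ N, p * g * p⁻¹ ∈ N := fun p hp g hg => mem_icore.mpr ⟨mul_mem (mul_mem hp
    (mem_icore.mp hg).1) (inv_mem hp), fun q hq => by simpa [mul_assoc] using (mem_icore.mp hg).2 _ (mul_mem hq hp)⟩
  have a5 : N ≤ A k ⊓ (A k).map (MulAut.conj (X.n (R.simple i) 1)).toMonoidHom := fun g hg => by
    simpa only [one_mul, inv_one, mul_one] using (mem_icore.mp hg).2 1 (one_mem _)
  have a6 : ∀ c, ∀ g, g ∈ (Qj X i c).map (MulAut.conj (X.n (R.simple i) 1)).toMonoidHom →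
      g ∈ X.gen {r | c ≤ R.vec r i - R.ap i (R.vec r)} := by
    rintro c _ ⟨g, hg, rfl⟩
    exact a0.conj_mem_gen (fun r hr => by simpa [← a1]) hg
  rw [h1]
  refine le_antisymm (fun g hg => mem_icore.mpr ⟨P_eq_gen X hH ▸ a2 (by omega) hg, fun p hp => ?_⟩) ?_
  · have b1 := conj_Qj X hH (by omega) hp hg
    refine ⟨a3 (a2 (by omega) b1), mem_mapc.mpr (a3 ?_)⟩
    simpa only [inv_inv, Qj] using a0.inv.conj_mem_gen (T := {r | (k + 1 : ℤ) ≤ R.vec r i}) (fun r hr => by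
      have := hs r (by rintro rfl; simp [R.vec_simple] at hr; omega)
      simp only [Set.mem_setOf] at hr; simp [a1]; omega) b1
  cases k with
  | zero =>
    rw [h0] at a5
    refine (le_Qj X a4 one_pos (R.ap i - .proj i) (fun g hg => X.gen_mono (fun r hr => by simpa using hr)
      (a6 0 g (by rw [← P_eq_gen X hH]; exact (a5 hg).2))) (fun r b c => by simp [hc, b] at c ⊢; omega)
      (le_Q1 X hH hR a4 (a5.trans inf_le_left) fun g hg => ?_)).trans (a2 (by simp))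
    have := X.n_sq_mem_H (R.simple i)
    rw [hH, Subgroup.mem_bot, ← eq_inv_iff_mul_eq_one] at this
    simpa [← this] using mem_mapc.mp (a5 hg).2
  | succ k =>
    rw [h1] at a5
    refine (le_Qj X a4 (c := k + 2) (by omega) ((k + 3 : ℤ) • R.ap i - .proj i) (fun g hg => X.gen_mono (fun r hr => ?_)
      (a6 _ g (a5 hg).2)) (fun r b c => by
        simp [hc, b] at c ⊢
        have : 1 ≤ R.ap i (R.vec r) := by by_contra; nlinarith
        nlinarith) (a5.trans inf_le_left)).trans (a2 (by simp; omega))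
    have := hs r (by rintro rfl; simp [R.vec_simple] at hr; omega)
    simp only [Set.mem_setOf] at hr; simp
    nlinarith

theorem exists_iter [Finite G] (htop : X.grp = ⊤) [IsSimpleGroup G] (hK : ∀ t : K, t ≠ 0 → t = 1) (hR : R.Conn)
    (hl : ∀ a b, R.car a b = R.car b a) (h6 : ∀ r, R.cov r i ≤ 6) (h6' : ∃ r, R.cov r i = 6) :
    ∃ (M₁ M₂ : Subgroup G) (g : G) (A B : ℕ → Subgroup G),
      IsCoatom M₁ ∧ M₂ = M₁.map (MulAut.conj g).toMonoidHom ∧ M₁ ≠ M₂ ∧ M₁.normalCore = ⊥ ∧ A 0 = M₁ ∧ B 0 = M₂ ∧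
      (∀ i, A (i + 1) = ((A i ⊓ B i).subgroupOf M₁).normalCore.map M₁.subtype) ∧
      (∀ i, B (i + 1) = ((A i ⊓ B i).subgroupOf M₂).normalCore.map M₂.subtype) ∧ A 6 = ⊥ ∧ A 5 ≠ ⊥ := by
  have hH : X.H = ⊥ := eq_bot_iff.mpr ((Subgroup.closure_le _).mpr (by rintro _ ⟨r, t, a, rfl⟩; simp [hK t a]))
  replace hl : ∀ j, R.len (R.simple j) = R.len (R.simple i) := fun j => by_contra fun e => by
    obtain ⟨a, b1, b, b2, b3⟩ := hR {j | R.len (R.simple j) = R.len (R.simple i)} ⟨i, rfl⟩ ⟨j, e⟩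
    exact b2 ((mul_right_cancel₀ b3 ((R.car_symm a b).trans (by rw [hl b]))).symm.trans b1)
  have a1 : ∀ r, R.len r = R.len (R.simple i) := R.root_induction hl (by simp)
  have hc : ∀ r, R.cov r = R.vec r := fun r => funext fun j =>
    mul_right_cancel₀ (R.len_pos r).ne' (by rw [R.cov_len, hl, a1 r])
  have hs : ∀ r, r ≠ R.simple i → R.ap i (R.vec r) ≤ 1 := fun r hr => by
    by_cases e : r = R.neg (R.simple i)
    · simp [e, R.vec_neg, R.vec_simple]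
    have b1 := R.pair_mul_pair_le hr e
    have b2 := R.pair_len_symm (R.simple i) r
    rw [a1 r, mul_left_inj' (R.len_pos _).ne'] at b2
    rw [← b2, R.pair_simple] at b1
    nlinarith
  have a2 := n_notMem_P X (J := {i}ᶜ) (j := i) (by simp)
  have a3 : X.P {i}ᶜ ≠ ⊤ := fun e => a2 (e.ge trivial)
  have a4 := X.n_sq_mem_H (R.simple i)
  rw [hH, Subgroup.mem_bot, ← inv_eq_iff_mul_eq_one] at a4
  let A : ℕ → Subgroup G := fun k => Nat.casesOn k (X.P {i}ᶜ) fun k => Qj X i (k + 2)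
  have a5 := iter_core X hH hR hc hs A rfl fun _ => rfl
  refine ⟨X.P {i}ᶜ, _, X.n (R.simple i) 1, A, fun k => (A k).map (MulAut.conj (X.n (R.simple i) 1)).toMonoidHom,
    ⟨a3, fun M hM => ?_⟩, rfl, fun e => a2 ?_, ((X.P {i}ᶜ).normalCore_normal.eq_bot_or_eq_top).resolve_right
      fun e => a3 (top_le_iff.mp (e.ge.trans (Subgroup.normalCore_le _))), rfl, rfl, a5,
    fun k => by rw [icore_map a4, ← a5], ?_, fun e => ?_⟩
  · have b1 := X.eq_P_of_le ((X.B_le_P _).trans hM.le) (htop ▸ le_top)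
    by_cases e : X.n (R.simple i) 1 ∈ M
    · rw [b1, X.P_eq, eq_top_iff, ← htop]
      refine le_sup_of_le_right (X.gen_mono fun r _ => .inr fun j hj => absurd ?_ hj)
      by_cases d : j = i
      exacts [d ▸ e, hM.le (X.n_mem_P d)]
    · exact absurd (b1.le.trans (X.P_le (X.B_le_P _) fun j hj => X.n_mem_P (by rintro rfl; exact e hj))) hM.not_ge
  · refine X.mem_of_conj_le (X.B_le_P _) (X.P_le_grp _) (X.n_mem_grp _ _) fun b hb => e.ge ⟨b, X.B_le_P _ hb, rfl⟩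
  · change X.gen _ = ⊥
    rw [← X.gen_empty]; congr 1
    exact Set.eq_empty_of_forall_notMem fun r hr => by have := h6 r; simp [hc] at hr this; omega
  · obtain ⟨r, hr⟩ := h6'
    exact one_ne_zero (X.x_eq_one_iff.mp (e.le (X.x_mem_gen (r := r) (by simp [← hc, hr]) 1)))

end Cfsg.Agent.H18
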