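import Mathlib
import Cfsg.Agent.GW.AltAut

/-!
Stabilizers of uniform partitions in symmetric and alternating groups.
-/

set_option autoImplicit false

namespace Cfsg.Agent.H18

open Equiv Equiv.Perm Subgroup GW

variable {Ω β γ : Type*} {f : Ω → β}

/-- permutations preserving the fibres of `f` -/
def PS (f : Ω → β) : Subgroup (Perm Ω) where
  carrier := {g | ∀ x y, f x = f y ↔ f (g x) = f (g y)}
  one_mem' _ _ := Iff.rfl
  mul_mem' ha hb x y := (hb x y).trans (ha _ _)
  inv_mem' {g} hg x y := by simpa using (hg (g⁻¹ x) (g⁻¹ y)).symm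

theorem closure_PS (f : Ω → β) :
    closure {g : Perm Ω | ∀ x y, f x = f y ↔ f (g x) = f (g y)} = PS f := closure_eq (PS f)

theorem mem_PS_of {g : Perm Ω} (σ : Perm β) (h : ∀ x, f (g x) = σ (f x)) : g ∈ PS f := fun x y => by
  rw [h, h, σ.apply_eq_iff_eq]

theorem exists_equiv_prod [Finite Ω] [Finite γ] (hf : ∀ i, Nat.card {x // f x = i} = Nat.card γ) :
    ∃ e : Ω ≃ β × γ, ∀ x, (e x).1 = f x :=
  ⟨(sigmaFiberEquiv f).symm.trans ((sigmaCongrRight fun i => (Finite.card_eq.mp (hf i)).some).trans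
    (sigmaEquivProd β γ)), fun _ => rfl⟩

theorem exists_cross {K : Subgroup (Perm Ω)} {g : Perm Ω} (h1 : g ∈ K) (h2 : g ∉ PS f) :
    ∃ g ∈ K, ∃ x y, f x = f y ∧ f (g x) ≠ f (g y) := by
  obtain ⟨x, y, h⟩ : ∃ x y, ¬ (f x = f y ↔ f (g x) = f (g y)) := by
    by_contra! h; exact h2 h
  by_cases h3 : f x = f y
  · exact ⟨g, h1, x, y, h3, by tauto⟩
  · exact ⟨g⁻¹, inv_mem h1, g x, g y, by tauto, by simpa⟩

variable [DecidableEq Ω] [DecidableEq β] {p p' q : Ω} {K : Subgroup (Perm Ω)}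

theorem swap_mem_PS (h : f p = f q) : swap p q ∈ PS f := mem_PS_of 1 fun x => by
  rw [swap_apply_def]; split_ifs <;> simp [*]

theorem exists_move (e : Ω ≃ β × γ) (he : ∀ x, (e x).1 = f x) {i : β} {k : Ω} (h1 : f q ≠ i)
    (h2 : f k ≠ i) : ∃ w ∈ PS f, (∀ x, f x = i → w x = x) ∧ w q = k := by
  let w := e.symm.permCongr (prodCongr (swap (f q) (f k)) (Equiv.refl γ))
  have h3 : ∀ x, f (w x) = swap (f q) (f k) (f x) := fun x => by simp [w, ← he]
  refine ⟨swap (w q) k * w, mul_mem (swap_mem_PS (by simp [h3])) (mem_PS_of _ h3), fun x hx => ?_,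
    by simp⟩
  have h4 : w x = x := by
    simp [w, symm_apply_eq, Prod.ext_iff, he, hx, swap_apply_of_ne_of_ne h1.symm h2.symm]
  rw [Perm.mul_apply, h4, swap_apply_of_ne_of_ne]
  · rintro rfl; exact h2 (by simpa [h3] using hx)
  · rintro rfl; exact h2 hx

theorem swap_notMem_PS (h1 : f p = f p') (h2 : p ≠ p') (h3 : f q ≠ f p) : swap p q ∉ PS f := fun h => by
  have := (h p p').mp h1
  rw [swap_apply_left, swap_apply_of_ne_of_ne h2.symm (by rintro rfl; exact h3 h1.symm)] at this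
  exact h3 (this.trans h1.symm)

theorem isCoatom_PS [Finite Ω] [Nontrivial β] [Nontrivial γ] (e : Ω ≃ β × γ)
    (he : ∀ x, (e x).1 = f x) : IsCoatom (PS f) := by
  obtain ⟨i, j, h1⟩ := exists_pair_ne β
  obtain ⟨s, t, h2⟩ := exists_pair_ne γ
  refine ⟨fun h => swap_notMem_PS (p := e.symm (i, s)) (p' := e.symm (i, t)) (q := e.symm (j, s))
    (by simp [← he]) (by simpa) (by simpa [← he] using h1.symm) (h.ge trivial), fun K hK => ?_⟩
  obtain ⟨g, h3, h4⟩ := SetLike.exists_of_lt hK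
  obtain ⟨g, h3, x, y, h4, h5⟩ := exists_cross h3 h4
  have h6 : ∀ k, swap (g x) k ∈ K := fun k => by
    by_cases h : f k = f (g x)
    · exact hK.le (swap_mem_PS h.symm)
    obtain ⟨w, a, b, rfl⟩ := exists_move e he h5.symm h
    rw [← b _ rfl, swap_apply_apply, swap_apply_apply]
    exact mul_mem (mul_mem (hK.le a) (mul_mem (mul_mem h3 (hK.le (swap_mem_PS h4))) (inv_mem h3)))
      (inv_mem (hK.le a))
  rw [eq_top_iff, ← closure_isSwap, closure_le]
  rintro _ ⟨u, v, -, rfl⟩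
  exact SubmonoidClass.swap_mem_trans K (swap_comm u _ ▸ h6 u) (h6 v)

variable [Fintype Ω]

theorem c3_rot {a b c : Ω} (ab : a ≠ b) (bc : b ≠ c) (ac : a ≠ c) : c3 a b c = c3 b c a := by
  ext x; simp only [c3, Perm.mul_apply, swap_apply_def]; grind

theorem swap_mul_swap_mem {a b c d : Ω} (h1 : a ≠ b) (h2 : c ≠ d) :
    swap a b * swap c d ∈ alternatingGroup Ω := by simp [mem_alternatingGroup, h1, h2]

omit [Fintype Ω] in
theorem conj_swap_mul {a b c d : Ω} {g : Perm Ω} (h1 : swap a b * swap c d ∈ K) (h2 : g ∈ K) :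
    swap (g a) (g b) * swap (g c) (g d) ∈ K := by
  simpa [swap_apply_apply, mul_assoc] using mul_mem (mul_mem h2 h1) (inv_mem h2)

omit [Fintype Ω] in
theorem three_of_conj {q' u v w w' : Ω} (h1 : swap p q * swap u v ∈ K) (h2 : swap q q' * swap w w' ∈ K)
    (h3 : [p, q, q', u, v].Nodup) (h4 : [p, q, q', w, w'].Nodup)
    (h5 : u = w ∧ v = w' ∨ u ≠ w ∧ u ≠ w' ∧ v ≠ w ∧ v ≠ w') : swap p q * swap p q' ∈ K := by
  have := conj_swap_mul h1 h2
  rw [show (swap q q' * swap w w') p = p by simp only [Perm.mul_apply, swap_apply_def]; grind,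
    show (swap q q' * swap w w') q = q' by simp only [Perm.mul_apply, swap_apply_def]; grind,
    show swap ((swap q q' * swap w w') u) ((swap q q' * swap w w') v) = swap u v by
      simp only [Perm.mul_apply, swap_apply_def]; grind [swap_comm]] at this
  convert mul_mem h1 this using 1
  ext t; simp only [Perm.mul_apply, swap_apply_def]; grind

omit [Fintype Ω] in
theorem three_of_conj' {q' v v' : Ω} (h1 : swap p q * swap p' v ∈ K) (h2 : swap q v * swap q' v' ∈ K)
    (h3 : swap p p' * swap q q' ∈ K) (h4 : [p, p', q, q', v, v'].Nodup) : swap v q * swap v q' ∈ K := by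
  have := conj_swap_mul h1 h2
  rw [show (swap q v * swap q' v') p = p by simp only [Perm.mul_apply, swap_apply_def]; grind,
    show (swap q v * swap q' v') q = v by simp only [Perm.mul_apply, swap_apply_def]; grind,
    show (swap q v * swap q' v') p' = p' by simp only [Perm.mul_apply, swap_apply_def]; grind,
    show (swap q v * swap q' v') v = q by simp only [Perm.mul_apply, swap_apply_def]; grind] at this
  have h5 : swap p q * swap p' v * (swap p v * swap p' q) = swap p p' * swap q v := by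
    ext t; simp only [Perm.mul_apply, swap_apply_def]; grind
  convert mul_mem (inv_mem h3) (h5 ▸ mul_mem h1 this) using 1
  rw [mul_inv_rev, swap_inv, swap_inv, mul_assoc, swap_mul_self_mul]
  ext t; simp only [Perm.mul_apply, swap_apply_def]; grind

variable (e : Ω ≃ β × γ) (he : ∀ x, (e x).1 = f x) (hK : PS f ⊓ alternatingGroup Ω ≤ K)
include hK

theorem swap_mul_swap_mem' {a b c d : Ω} (h1 : a ≠ b) (h2 : c ≠ d) (h3 : f a = f b) (h4 : f c = f d) :
    swap a b * swap c d ∈ K :=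
  hK ⟨mul_mem (swap_mem_PS h3) (swap_mem_PS h4), swap_mul_swap_mem h1 h2⟩

include he

theorem alt_le_of_c3_mem (h1 : f p = f p') (h2 : p ≠ p') (h3 : f q ≠ f p) (h4 : c3 p p' q ∈ K)
    (H : ∀ k, f k ≠ f p → ∃ u v, u ≠ v ∧ f u = f v ∧ f u ≠ f p ∧ u ≠ k ∧ v ≠ k) :
    alternatingGroup Ω ≤ K := alt_le_of_c3 h2 fun k a b => by
  by_cases h : f k = f p
  · exact swap_mul_swap_mem' hK h2 b h1 (h1.symm.trans h.symm)
  obtain ⟨w, c1, c2, c3⟩ : ∃ w ∈ K, (∀ x, f x = f p → w x = x) ∧ w q = k := by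
    obtain ⟨w, c1, c2, rfl⟩ := exists_move e he h3 h
    rcases Int.units_eq_one_or (sign w) with h5 | h5
    · exact ⟨w, hK ⟨c1, h5⟩, c2, rfl⟩
    obtain ⟨u, v, d1, d2, d3, d4, d5⟩ := H _ h
    exact ⟨swap u v * w, hK ⟨mul_mem (swap_mem_PS d2) c1, by simp [mem_alternatingGroup, h5, d1]⟩,
      fun x hx => by rw [Perm.mul_apply, c2 x hx, swap_apply_of_ne_of_ne] <;> grind,
      swap_apply_of_ne_of_ne d4.symm d5.symm⟩
  simpa only [c2 p rfl, c2 p' h1.symm, c3, GW.c3] using conj_swap_mul h4 c1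

theorem alt_le_of_three (h3 : ∀ s t : γ, ∃ r, r ≠ s ∧ r ≠ t) {g : Perm Ω} (h1 : g ∈ K)
    (h2 : g ∉ PS f) : alternatingGroup Ω ≤ K := by
  obtain ⟨g, h1, x, y, h4, h5⟩ := exists_cross h1 h2
  have key : ∀ x y, ∃ z, f z = f x ∧ z ≠ x ∧ z ≠ y := fun x y => by
    obtain ⟨r, a, b⟩ := h3 (e x).2 (e y).2
    exact ⟨e.symm (f x, r), by simp [← he], fun h => a (by simpa using congrArg (fun t => (e t).2) h),
      fun h => b (by simpa using congrArg (fun t => (e t).2) h)⟩
  have fin : ∀ p p' q, f p = f p' → p ≠ p' → f q ≠ f p → c3 p p' q ∈ K → alternatingGroup Ω ≤ K :=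
    fun p p' q a b c d => alt_le_of_c3_mem e he hK a b c d fun k hk => by
      obtain ⟨u, a1, a2, -⟩ := key k k
      obtain ⟨v, a3, a4, a5⟩ := key k u
      exact ⟨u, v, a5.symm, by rw [a1, a3], by rwa [a1], a2, a4⟩
  obtain ⟨z, a1, a2, a3⟩ := key x y
  have a4 : x ≠ y := by rintro rfl; exact h5 rfl
  have a5 : c3 (g x) (g y) (g z) ∈ K :=
    conj_swap_mul (swap_mul_swap_mem' hK a4 a3.symm h4 (h4.symm.trans a1.symm)) h1
  have a6 := g.injective.ne a2
  have a7 := g.injective.ne a3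
  have a8 := g.injective.ne a4
  generalize g x = p, g y = q, g z = r at *
  by_cases b1 : f r = f p
  · exact fin r p q b1 a6 (by grind) (by rwa [c3_rot a6 a8 a7])
  by_cases b2 : f r = f q
  · exact fin q r p b2.symm a7.symm h5 (by rwa [← c3_rot a8 a7.symm a6.symm])
  obtain ⟨r', b3, b4, -⟩ := key r r
  obtain ⟨r'', b5, b6, b7⟩ := key r r'
  have b8 := conj_swap_mul a5 (swap_mul_swap_mem' hK b4.symm b7.symm b3.symm (b3.trans b5.symm))
  refine fin r' r q b3 b4 (by grind) ?_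
  convert mul_mem (inv_mem a5) b8 using 1
  ext t; simp only [c3, mul_inv_rev, swap_inv, Perm.mul_apply, swap_apply_def]; grind

theorem alt_le_of_two [Fintype β] (h2 : Nat.card γ = 2) (h4 : Fintype.card β ≠ 4) {g : Perm Ω}
    (h1 : g ∈ K) (hA : K ≤ alternatingGroup Ω) (h3 : g ∉ PS f) : alternatingGroup Ω ≤ K := by
  obtain ⟨P, a1, a2, a3⟩ : ∃ P : Ω → Ω, (∀ x, f (P x) = f x) ∧ (∀ x, P x ≠ x) ∧
      ∀ x y, f y = f x → y = x ∨ y = P x := by
    choose Q b1 b2 using fun s : γ => (Nat.card_eq_two_iff' s).mp h2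
    refine ⟨fun x => e.symm (f x, Q (e x).2), by simp [← he], fun x h => b1 (e x).2 (by
      simpa using congrArg (fun t => (e t).2) h), fun x y h => or_iff_not_imp_left.mpr fun h' => ?_⟩
    rw [eq_symm_apply, Prod.ext_iff, he]
    exact ⟨h, b2 _ _ fun h'' => h' (e.injective (Prod.ext (by rw [he, he, h]) h''))⟩
  have a4 : ∀ x y, f x ≠ f y → swap x y * swap (P x) (P y) ∈ PS f ⊓ alternatingGroup Ω := fun x y h =>
    ⟨mem_PS_of (swap (f x) (f y)) fun t => by
      simp only [Perm.mul_apply, swap_apply_def]; grind, swap_mul_swap_mem (by grind) (by grind)⟩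
  have a5 : ∀ x y, swap x (P x) * swap y (P y) ∈ PS f ⊓ alternatingGroup Ω := fun x y =>
    swap_mul_swap_mem' le_rfl (a2 x).symm (a2 y).symm (a1 x).symm (a1 y).symm
  have a6 : ∀ s : Finset β, s.card < Fintype.card β → ∃ x, f x ∉ s := fun s hs => by
    obtain ⟨i, -, hi⟩ := Finset.exists_mem_notMem_of_card_lt_card (t := Finset.univ) hs
    obtain ⟨c⟩ : Nonempty γ := (Nat.card_pos_iff.mp (by omega)).1
    exact ⟨e.symm (i, c), by simpa [← he]⟩
  obtain ⟨g, h1, x, y, h5, h6⟩ := exists_cross h1 h3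
  rcases le_or_gt (Fintype.card β) 2 with h7 | h7
  · have b0 := Fintype.one_lt_card_iff_nontrivial.mpr ⟨_, _, h6⟩
    have b1 : Nat.card Ω = 4 := by
      rw [Nat.card_congr e, Nat.card_prod, h2, Nat.card_eq_fintype_card]; omega
    have b2 : 4 ≤ Nat.card ↥(PS f ⊓ alternatingGroup Ω) :=
      b1 ▸ Nat.card_le_card_of_surjective (fun v => v.1 x) fun t => by
        by_cases c1 : f x = f t
        · obtain ⟨z, hz⟩ := a6 {f x} (by simpa)
          obtain rfl | rfl := a3 x t c1.symm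
          · exact ⟨1, rfl⟩
          · exact ⟨⟨_, a5 x z⟩, by simp only [Perm.mul_apply, swap_apply_def]; grind⟩
        · exact ⟨⟨_, a4 x t c1⟩, by simp only [Perm.mul_apply, swap_apply_def]; grind⟩
    have b3 := card_dvd_of_le hK
    have b4 := card_dvd_of_le hA
    have b5 : Nat.card (alternatingGroup Ω) = 12 := by
      have : Nontrivial Ω := Finite.one_lt_card_iff_nontrivial.mp (by omega)
      rw [nat_card_alternatingGroup, b1]; rfl
    have b6 : Nat.card ↥(PS f ⊓ alternatingGroup Ω) ≠ Nat.card K := fun h =>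
      h6 ((((eq_of_le_of_card_ge hK h.ge).ge h1).1 x y).mp h5)
    refine (eq_of_le_of_card_ge hA ?_).ge
    rw [b5] at b4 ⊢
    generalize Nat.card K = k, Nat.card ↥(PS f ⊓ alternatingGroup Ω) = l at *
    have := Nat.le_of_dvd (by simp) b4
    have := Nat.le_of_dvd (Nat.pos_of_dvd_of_pos b4 (by simp)) b3
    interval_cases k <;> interval_cases l <;> simp_all
  have a7 : ∀ i j, ∃ z, f z ≠ i ∧ f z ≠ j := fun i j => by
    simpa using a6 {i, j} (Finset.card_le_two.trans_lt h7)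
  have fin : ∀ p q, f q ≠ f p → swap q p * swap q (P p) ∈ K → alternatingGroup Ω ≤ K :=
    fun p q a b => alt_le_of_c3_mem e he hK (a1 p) (a2 p) (q := q) (by rwa [a1])
      (by rwa [← c3_rot, ← c3_rot, c3, swap_comm] <;> grind) fun k hk => by
      obtain ⟨u, c1, c2⟩ := a7 (f p) (f k)
      exact ⟨u, P u, (a2 u).symm, (a1 u).symm, by rwa [a1], by grind, by grind⟩
  have main : ∀ p q u v, f p ≠ f q → swap p q * swap u v ∈ K → u ≠ v → u ≠ p → v ≠ p → u ≠ q → v ≠ q →
      u ≠ P q → v ≠ P q → alternatingGroup Ω ≤ K := by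
    intro p q u v c1 c2 c3 c4 c5 c6 c7 c8 c9
    clear h3 a7 h6 h5
    have d0 : [p, q, P q, u, v].Nodup := by clear fin a4 a5; grind
    by_cases d1 : f u = f v
    · exact fin q p c1 (three_of_conj c2 (hK (a5 q u)) d0 (by clear fin a4 a5; grind)
        (by clear fin a4 a5; grind))
    by_cases d2 : 4 < Fintype.card β
    · obtain ⟨w, hw⟩ := a6 {f p, f q, f u, f v} (Finset.card_le_four.trans_lt d2)
      exact fin q p c1 (three_of_conj c2 (hK (a5 q w)) d0 (by clear fin a4 a5; grind)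
        (by clear fin a4 a5; grind))
    wlog d3 : u = P p generalizing u v
    · refine this v u (by rwa [swap_comm v]) c3.symm c5 c4 c7 c6 c9 c8 (by clear fin a4 a5 this; grind)
        (Ne.symm d1) ?_
      by_contra d4
      clear fin a4 a5 this
      have := Finset.card_le_univ {f p, f q, f u, f v}
      rw [Finset.card_eq_four.mpr ⟨_, _, _, _, c1, by grind, by grind, by grind, by grind, d1, rfl⟩] at this
      omega
    subst d3
    have d4 : f q ≠ f v := by clear fin a4 a5; grind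
    exact fin q v d4.symm (three_of_conj' c2 (hK (a4 q v d4)) (hK (a5 p q)) (by clear fin a4 a5; grind))
  obtain ⟨z, b1, b2⟩ := a7 (f x) (f (g⁻¹ (P (g x))))
  have b3 := conj_swap_mul (swap_mul_swap_mem' hK (fun h => h6 (h ▸ rfl) : x ≠ y) (a2 z).symm h5 (a1 z).symm) h1
  have b4 : ∀ t, f t = f z → g t ≠ g x ∧ g t ≠ g y ∧ g t ≠ P (g x) := fun t ht =>
    ⟨g.injective.ne fun h => b1 (by rw [← ht, h]), g.injective.ne fun h => b1 (by rw [← ht, h, h5]), fun h => b2 (by simp [← h, ht])⟩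
  obtain ⟨c1, c2, c3⟩ := b4 z rfl
  obtain ⟨c4, c5, c6⟩ := b4 _ (a1 z)
  exact main (g y) (g x) _ _ (Ne.symm h6) (by rwa [swap_comm]) (g.injective.ne (a2 z).symm) c2 c5 c1 c4 c3 c6

omit hK in
theorem isCoatom_PS_alt [Fintype β] [Fintype γ] [Nontrivial β] [Nontrivial γ] (h8 : Fintype.card Ω ≠ 8) :
    IsCoatom ((PS f ⊓ alternatingGroup Ω).subgroupOf (alternatingGroup Ω)) := by
  obtain ⟨i, j, h1⟩ := exists_pair_ne β
  obtain ⟨s, t, h2⟩ := exists_pair_ne γ
  refine ⟨fun h => ?_, fun K hK => ?_⟩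
  · have h3 : f (e.symm (i, s)) = f (e.symm (i, t)) := by simp [← he]
    exact swap_notMem_PS (q := e.symm (j, s)) h3.symm (by simpa using h2.symm) (by simpa [← he] using h1.symm)
      (((PS f).mul_mem_cancel_left (swap_mem_PS h3)).mp (subgroupOf_eq_top.mp h (swap_mul_swap_mem
        (by simpa) (by simp [h2.symm]))).1)
  obtain ⟨g, h3, h4⟩ := SetLike.exists_of_lt hK
  have h5 : PS f ⊓ alternatingGroup Ω ≤ K.map (Subgroup.subtype _) := fun x hx =>
    ⟨⟨x, hx.2⟩, hK.le hx, rfl⟩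
  have h6 : alternatingGroup Ω ≤ K.map (Subgroup.subtype _) := by
    rcases eq_or_lt_of_le (show 2 ≤ Fintype.card γ from Fintype.one_lt_card) with h | h
    · refine alt_le_of_two e he h5 (Nat.card_eq_fintype_card.trans h.symm) (fun h' => h8 ?_) ⟨g, h3, rfl⟩
        (map_subtype_le K) fun h => h4 ⟨h, g.2⟩
      rw [Fintype.card_congr e, Fintype.card_prod, h', ← h]
    · classical
      refine alt_le_of_three e he h5 (fun s t => ?_) ⟨g, h3, rfl⟩ fun h => h4 ⟨h, g.2⟩
      simpa using Finset.exists_mem_notMem_of_card_lt_card (s := {s, t}) (t := Finset.univ)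
        (Finset.card_le_two.trans_lt h)
  exact top_le_iff.mp fun x _ => by
    obtain ⟨y, a, b⟩ := h6 x.2
    exact Subtype.ext b ▸ a

end Cfsg.Agent.H18
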