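import Cfsg.Agent.H18.TvF

/-! Orthogonal frames. -/

set_option autoImplicit false

namespace Cfsg.Agent.H18

open Cfsg.Geo
open scoped MatrixGroups Matrix Kronecker commutatorElement

variable {ι : Type} [Fintype ι] [DecidableEq ι] {F : Type*} [Field F]
  {σ : F →+* F} {ε : F} {f : (ι → F) → (ι → F) → F}

lemma mem_stab_of_le {t m : ℕ} {D : Fin t → Submodule F (ι → F)} (hD : IsMDecomposition m D)
    {g : GL ι F} (h : ∀ i, ∃ j, ∀ v ∈ D i, (g : Matrix ι ι F) *ᵥ v ∈ D j) :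
    g ∈ decompositionStabilizer D := by
  choose π hπ using h
  have h1 : ∀ i, (D i).map (Matrix.toLin' (g : Matrix ι ι F)) = D (π i) := fun i =>
    Submodule.eq_of_le_of_finrank_eq (by rintro _ ⟨v, hv, rfl⟩; exact hπ i v hv)
      (by rw [finrank_map_gl, hD.finrank_eq, hD.finrank_eq])
  refine ⟨Equiv.ofBijective π (Finite.injective_iff_bijective.mp fun i j hij => ?_), h1⟩
  by_contra h2
  obtain ⟨v, hv, h0⟩ := exists_ne_zero_of_decomp hD i
  have h3 : D i = D j := Submodule.map_injective_of_injective (toLin'_injective g)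
    (by rw [h1, h1, hij])
  exact h0 (Submodule.disjoint_def.mp (hD.indep.pairwiseDisjoint h2) v hv (h3 ▸ hv))

section orth
variable {κ : Type} [Fintype κ] {v : κ → ι → F}

omit [DecidableEq ι] in
lemma HForm.exists_basis_of_orth (hf : HForm σ ε f) (h0 : ∀ i, f (v i) (v i) ≠ 0)
    (h1 : ∀ i j, i ≠ j → f (v i) (v j) = 0) (hc : Fintype.card κ = Fintype.card ι) :
    ∃ b : Module.Basis κ F (ι → F), ∀ i, b i = v i := by
  classical
  have h2 : LinearIndependent F v := Fintype.linearIndependent_iff.mpr fun c hc i => by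
    have := congrArg (f · (v i)) hc
    simp only [hf.sum_left, hf.smul_left, hf.zero_left] at this
    rw [Finset.sum_eq_single i (fun j _ hj => by rw [h1 j i hj, mul_zero]) (by simp)] at this
    exact (mul_eq_zero.mp this).resolve_right (h0 i)
  exact ⟨Module.Basis.mk h2 (h2.span_eq_top_of_card_eq_finrank' (by simpa using hc)).ge, by simp⟩

lemma HForm.exists_frame_of_orth (hf : HForm σ ε f) (h0 : ∀ i, f (v i) (v i) ≠ 0)
    (h1 : ∀ i j, i ≠ j → f (v i) (v j) = 0) (hc : Fintype.card κ = Fintype.card ι)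
    (hn : 2 ≤ Fintype.card ι) : ∃ D : Fin (Fintype.card ι) → Submodule F (ι → F),
      IsNondegenerateMDecomposition f 1 D ∧ (∀ i, ∃ k, D i = Submodule.span F {v k}) ∧
      ∀ g : GL ι F, (∀ i, ∃ j, (g : Matrix ι ι F) *ᵥ v i ∈ Submodule.span F {v j}) →
        g ∈ decompositionStabilizer D := by
  obtain ⟨b, hb⟩ := hf.exists_basis_of_orth h0 h1 hc
  let e := Fintype.equivFinOfCardEq hc
  have h2 : IsMDecomposition 1 fun i => Submodule.span F {v (e.symm i)} := ⟨hn, one_pos, fun i =>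
    finrank_span_singleton fun h => h0 _ (by rw [h, hf.zero_left]), by
      simpa [hb] using (b.reindex e).linearIndependent.iSupIndep_span_singleton, by
      rw [← Submodule.span_range_eq_iSup, ← (b.reindex e).span_eq]; congr 2; funext i; simp [hb]⟩
  refine ⟨_, ⟨h2, fun i => hf.nondegOn_iff.mpr (eq_bot_iff.mpr fun x hx => ?_),
    fun i j hij x hx y hy => ?_⟩, fun i => ⟨_, rfl⟩, fun g hg => mem_stab_of_le h2 fun i => ?_⟩
  · obtain ⟨c, rfl⟩ := Submodule.mem_span_singleton.mp hx.1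
    have := hx.2 _ (Submodule.mem_span_singleton_self _)
    rw [hf.smul_left] at this
    simp [(mul_eq_zero.mp this).resolve_right (h0 _)]
  · obtain ⟨c, rfl⟩ := Submodule.mem_span_singleton.mp hx
    obtain ⟨d, rfl⟩ := Submodule.mem_span_singleton.mp hy
    rw [hf.smul_left, hf.smul_right, h1 _ _ (e.symm.injective.ne hij), mul_zero, mul_zero]
  · obtain ⟨j, hj⟩ := hg (e.symm i)
    refine ⟨e j, fun x hx => ?_⟩
    obtain ⟨c, rfl⟩ := Submodule.mem_span_singleton.mp hx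
    rw [Matrix.mulVec_smul, e.symm_apply_apply]
    exact Submodule.smul_mem _ _ hj

/-- a normalised commutative subalgebra closed under adjoints -/
def CommD (σ : F →+* F) (f : (ι → F) → (ι → F) → F) (H : Subgroup (GL ι F)) : Prop :=
  ∃ C : Subalgebra F (Matrix ι ι F), (∀ x ∈ C, ∀ y ∈ C, x * y = y * x) ∧
    (∀ g ∈ H, ∀ x ∈ C, cj g x ∈ C) ∧ (∀ x ∈ C, adj σ f x ∈ C) ∧ C ≠ ⊥

lemma HForm.commD_of_orth (hf : HForm σ ε f) (h0 : ∀ i, f (v i) (v i) ≠ 0)
    (h1 : ∀ i j, i ≠ j → f (v i) (v j) = 0) (hc : Fintype.card κ = Fintype.card ι)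
    (hn : 2 ≤ Fintype.card ι) {H : Subgroup (GL ι F)}
    (hH : ∀ g ∈ H, ∀ i, ∃ j, (g : Matrix ι ι F) *ᵥ v i ∈ Submodule.span F {v j}) : CommD σ f H := by
  classical
  obtain ⟨b, hb⟩ := hf.exists_basis_of_orth h0 h1 hc
  let C : Subalgebra F (Matrix ι ι F) :=
    { carrier := {X | ∀ i, ∃ c : F, X *ᵥ v i = c • v i}
      mul_mem' := fun {X Y} hX hY i => by
        obtain ⟨c, hc⟩ := hX i
        obtain ⟨d, hd⟩ := hY i
        exact ⟨d * c, by rw [← Matrix.mulVec_mulVec, hd, Matrix.mulVec_smul, hc, smul_smul]⟩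
      add_mem' := fun {X Y} hX hY i => by
        obtain ⟨c, hc⟩ := hX i
        obtain ⟨d, hd⟩ := hY i
        exact ⟨c + d, by rw [Matrix.add_mulVec, hc, hd, add_smul]⟩
      algebraMap_mem' := fun c i => ⟨c, by
        rw [Algebra.algebraMap_eq_smul_one, Matrix.smul_mulVec, Matrix.one_mulVec]⟩ }
  refine ⟨C, fun X hX Y hY => Matrix.toLin'.injective (b.ext fun i => ?_), fun g hg X hX i => ?_,
    fun X hX i => ?_, fun h => ?_⟩
  · obtain ⟨c, hc⟩ := hX i
    obtain ⟨d, hd⟩ := hY i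
    simp only [Matrix.toLin'_apply, hb, ← Matrix.mulVec_mulVec, hc, hd, Matrix.mulVec_smul,
      smul_smul, mul_comm]
  · obtain ⟨j, hj⟩ := hH _ (H.inv_mem hg) i
    obtain ⟨c, hc⟩ := Submodule.mem_span_singleton.mp hj
    obtain ⟨d, hd⟩ := hX j
    refine ⟨d, ?_⟩
    rw [← mulVec_inv_mulVec g (v i), cj_mulVec, ← hc, Matrix.mulVec_smul, hd, smul_comm,
      Matrix.mulVec_smul]
  · choose c hc using hX
    refine ⟨σ (c i), hf.eq_of_right fun x => ?_⟩
    rw [← hf.adj_spec, hf.smul_right, hf.invol, ← b.sum_repr x, Matrix.mulVec_sum, hf.sum_left,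
      hf.sum_left, Finset.mul_sum]
    refine Finset.sum_congr rfl fun j _ => ?_
    rw [Matrix.mulVec_smul, hb, hc, hf.smul_left, hf.smul_left, hf.smul_left]
    by_cases hij : j = i
    · subst hij; ring
    · simp [h1 j i hij]
  · obtain ⟨i, j, hij⟩ := Fintype.exists_pair_of_one_lt_card (α := κ) (by omega)
    have h2 : ∀ k, LinearMap.toMatrix' (b.constr F fun k => if k = i then b k else 0) *ᵥ v k =
        if k = i then v k else 0 := fun k => by
      rw [LinearMap.toMatrix'_mulVec, ← hb, Module.Basis.constr_basis]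
    obtain ⟨c, hc⟩ := Algebra.mem_bot.mp (h.le (fun k => by
      rw [h2]; split_ifs; exacts [⟨1, by simp⟩, ⟨0, by simp⟩] :
        LinearMap.toMatrix' (b.constr F fun k => if k = i then b k else 0) ∈ C))
    have h3 := h2 i
    have h4 := h2 j
    rw [← hc, Algebra.algebraMap_eq_smul_one, Matrix.smul_mulVec, Matrix.one_mulVec] at h3 h4
    rw [if_neg hij.symm, smul_eq_zero] at h4
    rcases h4 with rfl | h4
    · rw [if_pos rfl, zero_smul] at h3
      exact h0 i (by rw [← h3, hf.zero_left])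
    · exact h0 j (by rw [h4, hf.zero_left])

end orth

lemma KronD.commD {a b : ℕ} {e : ι ≃ Fin a × Fin b} {P : GL ι F} {ε₁ ε₂ : F} {f₁ : _} {f₂ : _}
    (hf : HForm σ ε f) (h : KronD σ f e P ε₁ f₁ ε₂ f₂) {H : Subgroup (GL ι F)}
    (hH : H ≤ tensorProductSubgroup a b e P) (hs : H ≤ similarityGroup f)
    (h1 : CommD σ f₁ (similarityGroup f₁)) : CommD σ f H := by
  obtain ⟨C, h1, h2, h3, h4⟩ := h1
  have : Nonempty (Fin a) := ⟨⟨0, by have := h.two_le₁; omega⟩⟩
  have : Nonempty (Fin b) := ⟨⟨0, by have := h.two_le₂; omega⟩⟩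
  have : Nonempty ι := e.nonempty
  refine ⟨C.map ((trans e P).toAlgHom.comp (kronLeft _ _ F)), ?_, ?_, ?_, fun h5 => h4 ?_⟩
  · rintro _ ⟨x, hx, rfl⟩ _ ⟨y, hy, rfl⟩
    exact (map_mul _ _ _).symm.trans ((congrArg _ (h1 x hx y hy)).trans (map_mul _ _ _))
  · rintro g hg _ ⟨x, hx, rfl⟩
    obtain ⟨y, hy, z, -, h5⟩ := h.sim hf (hH hg) (hs hg)
    exact ⟨_, h2 y hy x hx, ((cj_kron h5 _ _).trans (by rw [map_one]; rfl)).symm⟩
  · rintro _ ⟨x, hx, rfl⟩
    exact ⟨_, h3 x hx, (h.adj₁ x).symm⟩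
  · refine Subalgebra.map_injective (algHom_matrix_injective
      ((trans e P).toAlgHom.comp (kronLeft _ _ F))) ?_
    rw [h5, Algebra.map_bot]

omit [DecidableEq ι] in
lemma HForm.exists_onb [Finite F] (hf : HForm σ 1 f) (hσ : σ ≠ RingHom.id F)
    {W : Submodule F (ι → F)} (hW : IsNondegenerateOn f W) {m : ℕ} (hm : Module.finrank F W = m) :
    ∃ b : Module.Basis (Fin m) F W, ∀ i j, f (b i) (b j) = if i = j then 1 else 0 := by
  subst hm
  obtain ⟨b, hb⟩ := H13.exists_orthonormal_basis_herm hσ hf.invol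
    (hf.toSesq.toMap.domRestrict₁₂ W W) (fun x y => ((hf.herm x y).trans (one_mul _)).symm)
    fun x hx => Subtype.ext (by
      by_contra h
      obtain ⟨y, hy, h1⟩ := (hW x x.2 h).1
      exact h1 (hx ⟨y, hy⟩))
  exact ⟨b, fun i j => (hb j i).trans (by simp [eq_comm])⟩

end Cfsg.Agent.H18
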