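import Cfsg.Agent.H18.SuMax
import Cfsg.Agent.H18.SpStd

/-! Parity lemmas and small orthogonal spaces. -/

set_option autoImplicit false

namespace Cfsg.Agent.H18

open Cfsg.Geo
open scoped MatrixGroups Matrix Kronecker commutatorElement

variable {ι : Type} [Fintype ι] [DecidableEq ι] {F : Type*} [Field F]
  {ε : F} {f : (ι → F) → (ι → F) → F}

omit [DecidableEq ι] in
lemma HForm.even_of_nondegOn (hf : HForm (RingHom.id F) ε f) {W : Submodule F (ι → F)}
    (ha : ∀ v ∈ W, f v v = 0) (hW : IsNondegenerateOn f W) : Even (Module.finrank F W) := by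
  obtain ⟨m, b, -⟩ := H13.exists_symplectic_basis (hf.toSesq.toMap.domRestrict₁₂ W W)
    (fun x => ha x x.2) fun x hx => Subtype.ext (by
      by_contra h
      obtain ⟨y, hy, h1⟩ := (hW x x.2 h).1
      exact h1 (hx ⟨y, hy⟩))
  exact ⟨m, by simpa using Module.finrank_eq_card_basis b⟩

lemma HForm.two_mul_dvd [Finite F] [Nonempty ι] (hf : HForm (RingHom.id F) ε f) {r : ℕ}
    {K : Subalgebra F (Matrix ι ι F)} (hK : IsFieldSubalgebra r K) (hs : IsSelfAdjointFor f K)
    (ha : ∀ k ∈ K, ∀ v, f (k *ᵥ v) v = 0) : 2 * r ∣ Fintype.card ι := by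
  let _ : Field K := (isField_of_inv K hK.comm hK.inv).toField
  have : IsScalarTower F K (ι → F) := ⟨fun c k v => Matrix.smul_mulVec c (k : Matrix ι ι F) v⟩
  have hb := traceForm_nondegenerate F K
  have h1 : ∀ u v : ι → F, ∃ x : K, ∀ k : K, Algebra.trace F K (x * k) = f (k • u) v := fun u v =>
    ⟨((Algebra.traceForm F K).toDual hb).symm
      { toFun := fun k => f (k • u) v
        map_add' := fun a b => by rw [add_smul, hf.add_left]
        map_smul' := fun c a => by rw [smul_assoc, hf.smul_left]; rfl },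
      fun k => LinearMap.BilinForm.apply_toDual_symm_apply (hB := hb) _ k⟩
  choose B hB using h1
  have h2 : ∀ x y : K, (∀ k, Algebra.trace F K (x * k) = Algebra.trace F K (y * k)) → x = y :=
    fun x y h => sub_eq_zero.mp (hb.1 _ fun k => by
      rw [Algebra.traceForm_apply, sub_mul, map_sub, h, sub_self])
  obtain ⟨m, b, -⟩ := H13.exists_symplectic_basis (LinearMap.mk₂ K B
    (fun x y v => h2 _ _ fun k => by rw [add_mul, map_add, hB, hB, hB, smul_add, hf.add_left])
    (fun c x v => h2 _ _ fun k => by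
      rw [smul_eq_mul, mul_comm c, mul_assoc, hB, hB, smul_smul, mul_comm])
    (fun x y v => h2 _ _ fun k => by rw [add_mul, map_add, hB, hB, hB, hf.add_right])
    fun c x v => h2 _ _ fun k => by
      rw [smul_eq_mul, mul_comm c, mul_assoc, hB, hB, mul_smul]
      exact (hs c c.2 _ _).symm)
    (fun x => h2 _ _ fun k => by rw [zero_mul, map_zero]; exact (hB _ _ _).trans (ha k k.2 x))
    fun x hx => hf.nondeg' x fun y => by
      have := hB x y 1
      rwa [show B x y = 0 from hx y, zero_mul, map_zero, one_smul, eq_comm] at this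
  have h := Module.finrank_mul_finrank F K (ι → F)
  rw [hK.finrank_eq, Module.finrank_fintype_fun_eq_card, Module.finrank_eq_card_basis b] at h
  exact ⟨m, by rw [← h]; simp; ring⟩

omit [DecidableEq ι] in
lemma HForm.exists_orth_basis (hf : HForm (RingHom.id F) 1 f) (h2 : (2 : F) ≠ 0)
    {W : Submodule F (ι → F)} (hW : IsNondegenerateOn f W) {m : ℕ} (hm : Module.finrank F W = m) :
    ∃ b : Module.Basis (Fin m) F W, (∀ i j, i ≠ j → f (b i) (b j) = 0) ∧ ∀ i, f (b i) (b i) ≠ 0 := by
  subst hm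
  have := invertibleOfNonzero h2
  obtain ⟨b, hb⟩ := LinearMap.BilinForm.exists_orthogonal_basis
    (B := hf.toSesq.toMap.domRestrict₁₂ W W) ⟨fun x y => hf.symm _ _⟩
  refine ⟨b, fun i j h => hb h.symm, fun i h => ?_⟩
  obtain ⟨x, hx, h1⟩ := (hW _ (b i).2 (by simpa using b.ne_zero i)).1
  apply h1
  have h3 := congrArg Subtype.val (b.sum_repr ⟨x, hx⟩)
  rw [Submodule.coe_sum] at h3
  rw [show x = _ from h3.symm, hf.sum_left]
  refine Finset.sum_eq_zero fun j _ => ?_
  rw [Submodule.coe_smul, hf.smul_left]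
  by_cases hij : j = i
  · rw [hij, h, mul_zero]
  · rw [show f (b j) (b i) = 0 from hb (Ne.symm hij), mul_zero]

lemma three_eq_zero [Fintype F] (h : Fintype.card F = 3) : (3 : F) = 0 := by
  simpa [h] using FiniteField.cast_card_eq_zero F

omit [DecidableEq ι] in
lemma HForm.frame3 [Fintype F] (hf : HForm (RingHom.id F) 1 f) (h : Fintype.card F = 3)
    {W : Submodule F (ι → F)} (hW : IsNondegenerateOn f W) (hm : Module.finrank F W = 3) :
    ∃ (c : F) (v : Fin 3 → ι → F), c ≠ 0 ∧ (∀ i, v i ∈ W) ∧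
      (∀ i j, f (v i) (v j) = if i = j then c else 0) ∧ ∀ (x : Fin 3 → ι → F) (d : F), d ≠ 0 →
        (∀ i, x i ∈ W) → (∀ i j, f (x i) (x j) = if i = j then d else 0) →
          ∀ i, ∃ j, x i ∈ Submodule.span F {v j} := by
  have h3 := three_eq_zero h
  have h2 : (2 : F) ≠ 0 := fun h2 => one_ne_zero (by linear_combination h3 - h2 : (1 : F) = 0)
  have hs : ∀ x : F, x ≠ 0 → x ^ 2 = 1 := fun x => pow_pred_card (q := 2) h
  obtain ⟨b, b1, b2⟩ := hf.exists_orth_basis h2 hW hm
  obtain ⟨c, v, h0, h1, h4, h5⟩ : ∃ (c : F) (v : Fin 3 → ι → F), c ≠ 0 ∧ (∀ i, v i ∈ W) ∧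
      (∀ i j, f (v i) (v j) = if i = j then c else 0) ∧
      ∀ i, (b i : ι → F) ∈ Submodule.span F (Set.range v) := by
    have key : ∀ i j k, i ≠ j → i ≠ k → j ≠ k → (∀ l, l = i ∨ l = j ∨ l = k) →
        f (b i) (b i) = f (b j) (b j) → ∃ (c : F) (v : Fin 3 → ι → F), c ≠ 0 ∧ (∀ i, v i ∈ W) ∧
        (∀ i j, f (v i) (v j) = if i = j then c else 0) ∧
        ∀ i, (b i : ι → F) ∈ Submodule.span F (Set.range v) := by
      intro i j k hij hik hjk hl h4
      have e1 := b1 i j hij
      have e2 := b1 i k hik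
      have e3 := b1 j k hjk
      have e4 := b1 j i hij.symm
      have e5 := b1 k i hik.symm
      have e6 := b1 k j hjk.symm
      rcases sq_eq_sq_iff_eq_or_eq_neg.mp ((hs _ (b2 k)).trans (hs _ (b2 i)).symm) with h5 | h5
      · refine ⟨_, ![b i, b j, b k], b2 i, fun l => by fin_cases l <;> simp, fun l l' => by
          fin_cases l <;> fin_cases l' <;> simp [*], fun l => Submodule.subset_span ?_⟩
        rcases hl l with rfl | rfl | rfl <;> simp
      · refine ⟨_, ![b i + b j, b i - b j, b k], b2 k, fun l => by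
          fin_cases l <;> simp [add_mem, sub_mem], fun l l' => by
          fin_cases l <;> fin_cases l' <;> simp [hf.add_left, hf.add_right, hf.sub_left,
            hf.sub_right, *] <;> linear_combination f (b j) (b j) * h3, fun l => ?_⟩
        have a0 := Submodule.subset_span (R := F) (Set.mem_range_self
          (f := ![(b i : ι → F) + b j, b i - b j, b k]) 0)
        have a1 := Submodule.subset_span (R := F) (Set.mem_range_self
          (f := ![(b i : ι → F) + b j, b i - b j, b k]) 1)
        rcases hl l with rfl | rfl | rfl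
        · rw [← Submodule.smul_mem_iff _ h2]
          convert add_mem a0 a1 using 1
          simp [two_smul]
        · rw [← Submodule.smul_mem_iff _ h2]
          convert sub_mem a0 a1 using 1
          simp [two_smul]
        · exact Submodule.subset_span ⟨2, rfl⟩
    by_cases h4 : f (b 0) (b 0) = f (b 1) (b 1)
    · exact key 0 1 2 (by simp) (by simp) (by simp) (by decide) h4
    by_cases h5 : f (b 0) (b 0) = f (b 2) (b 2)
    · exact key 0 2 1 (by simp) (by simp) (by simp) (by decide) h5
    · exact key 1 2 0 (by simp) (by simp) (by simp) (by decide) (by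
        rw [(sq_eq_sq_iff_eq_or_eq_neg.mp ((hs _ (b2 1)).trans (hs _ (b2 0)).symm)).resolve_left
          (Ne.symm h4), (sq_eq_sq_iff_eq_or_eq_neg.mp ((hs _ (b2 2)).trans
            (hs _ (b2 0)).symm)).resolve_left (Ne.symm h5)])
  refine ⟨c, v, h0, h1, h4, fun x d hd hx h6 i => ?_⟩
  have h7 : ∀ i, ∃ a : Fin 3 → F, ∑ k, a k • v k = x i := fun i => by
    rw [← Submodule.mem_span_range_iff_exists_fun]
    have h8 := congrArg Subtype.val (b.sum_repr ⟨_, hx i⟩)
    rw [Submodule.coe_sum] at h8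
    rw [show x i = _ from h8.symm]
    exact sum_mem fun k _ => Submodule.smul_mem _ _ (h5 k)
  choose A hA using h7
  have h8 : c • (Matrix.of A * (Matrix.of A)ᵀ) = d • (1 : Matrix (Fin 3) (Fin 3) F) := by
    ext k l
    have := h6 k l
    rw [← hA, ← hA] at this
    simp only [Fin.sum_univ_three, hf.add_left, hf.add_right, hf.smul_left, hf.smul_right, h4] at this
    simp [Matrix.mul_apply, Fin.sum_univ_three, Matrix.one_apply] at this ⊢
    linear_combination this
  have h9 := congrArg Matrix.det h8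
  simp only [Matrix.det_smul, Matrix.det_mul, Matrix.det_transpose, Fintype.card_fin,
    Matrix.det_one] at h9
  have h10 := hs (Matrix.of A).det fun h => hd (by rw [h] at h9; simpa using h9.symm)
  obtain rfl : c = d := by
    linear_combination h9 - c ^ 3 * h10 - c * hs c h0 + d * hs d hd
  have h11 : A i 0 ^ 2 + A i 1 ^ 2 + A i 2 ^ 2 = 1 := mul_left_cancel₀ h0 (by
    have := congrFun (congrFun h8 i) i
    simp [Matrix.mul_apply, Fin.sum_univ_three] at this
    linear_combination this)
  rw [← hA, Fin.sum_univ_three]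
  have m1 := fun (a : F) j => Submodule.smul_mem _ a (Submodule.mem_span_singleton_self (R := F) (v j))
  by_cases a0 : A i 0 = 0 <;> by_cases a1 : A i 1 = 0 <;> by_cases a2 : A i 2 = 0
  · simp [*] at h11
  · exact ⟨2, by simp [a0, a1, m1]⟩
  · exact ⟨1, by simp [a0, a2, m1]⟩
  · simp [*] at h11
  · exact ⟨0, by simp [a1, a2, m1]⟩
  · simp [*] at h11
  · simp [*] at h11
  · exact absurd (by linear_combination h11 - hs _ a0 - hs _ a1 - hs _ a2) h2

lemma HForm.nondegOn_top {σ : F →+* F} (hf : HForm σ ε f) : IsNondegenerateOn f ⊤ :=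
  hf.nondegOn_iff.mpr (eq_bot_iff.mpr fun x hx => hf.nondeg' x fun y => hx.2 y trivial)

lemma HForm.commD_three [Fintype F] {f : (Fin 3 → F) → (Fin 3 → F) → F}
    (hf : HForm (RingHom.id F) 1 f) (h : Fintype.card F = 3) :
    CommD (RingHom.id F) f (similarityGroup f) := by
  obtain ⟨c, v, h0, -, h1, h2⟩ := hf.frame3 h hf.nondegOn_top (by simp)
  refine hf.commD_of_orth (v := v) (by simp [h1, h0]) (fun i j h => by simp [h1, h]) rfl
    (by simp) fun g hg => ?_
  obtain ⟨d, hd⟩ := hg
  exact h2 (fun i => g.val *ᵥ v i) (d * c) (mul_ne_zero d.ne_zero h0) (fun _ => trivial)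
    fun i j => by rw [hd, h1]; simp

lemma inO_of_two [Fintype F] (hf : IsSymplecticForm f) (h : Fintype.card F = 2) {t : ℕ}
    {D : Fin t → Submodule F (ι → F)} (hD : IsNondegenerateMDecomposition f 2 D) :
    InO f (decompositionStabilizer D ⊓ isoG f) := by
  have h2 := two_eq_zero_of_card_two h
  have hf' := (hform_of_symplectic hf).one_of_two h2
  let b := decompBasis hD.decomp
  have h1 : ∀ i, ∀ v ∈ D i, ∃ c d : F, v = c • (b i 0 : ι → F) + d • (b i 1 : ι → F) :=
    fun i v hv => by
      have := congrArg Subtype.val ((b i).sum_repr ⟨v, hv⟩)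
      rw [Fin.sum_univ_two] at this
      exact ⟨_, _, this.symm⟩
  have h3 : ∀ i, f (b i 0) (b i 1) = 1 := fun i => by
    obtain ⟨x, hx, h3⟩ := (hD.nondegenerate i _ (b i 0).2 (by simpa using (b i).ne_zero 0)).2
    obtain ⟨c, d, rfl⟩ := h1 i x hx
    refine (eq_zero_or_one_of_card_two h _).resolve_left fun h4 => h3 ?_
    simp [hf'.add_right, hf'.smul_right, h4, hf.alternating]
  have h4 : ∀ i j, ∀ v ∈ D i, j ≠ i → ∀ k, f v (b j k) = 0 := fun i j v hv hij k =>
    hD.orthogonal i j hij.symm v hv _ (b j k).2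
  let Q : (ι → F) → F := fun v =>
    ∑ i, (f v (b i 0) ^ 2 + f v (b i 0) * f v (b i 1) + f v (b i 1) ^ 2)
  have h5 : QuadraticMap.polar Q = f := by
    funext u v
    have h5 : QuadraticMap.polar Q u v =
        ∑ i, (f u (b i 0) * f v (b i 1) + f u (b i 1) * f v (b i 0)) := by
      simp only [QuadraticMap.polar, Q, ← Finset.sum_sub_distrib, hf'.add_left]
      exact Finset.sum_congr rfl fun i _ => by
        linear_combination (f u (b i 0) * f v (b i 0) + f u (b i 1) * f v (b i 1)) * h2
    rw [h5]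
    refine Submodule.iSup_induction D (hD.decomp.iSup_eq_top.ge (Submodule.mem_top (x := u)))
      (motive := fun u => ∑ i, (f u (b i 0) * f v (b i 1) + f u (b i 1) * f v (b i 0)) = f u v)
      (fun i u hu => ?_) (by simp [hf'.zero_left]) fun x y hx hy => ?_
    · rw [Finset.sum_eq_single i (fun j _ hj => by simp [h4 i j u hu hj]) (by simp)]
      obtain ⟨c, d, rfl⟩ := h1 i u hu
      simp only [hf'.add_left, hf'.smul_left, hf.alternating, h3, hf'.symm (b i 1) (b i 0),
        hf'.symm _ v]
      ring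
    · simp only [hf'.add_left, ← hx, ← hy, ← Finset.sum_add_distrib]
      exact Finset.sum_congr rfl fun i _ => by ring
  have h6 : IsNondegenerateQuadraticForm Q := ⟨fun c v => by
    simp only [Q, hf'.smul_left, Finset.mul_sum]
    exact Finset.sum_congr rfl fun i _ => by ring, h5.symm ▸ hf.bilinear, h5.symm ▸ hf.nondegenerate⟩
  have h7 : ∀ i, ∀ v ∈ D i, v ≠ 0 → Q v = 1 := fun i v hv h0 => by
    simp only [Q]
    rw [Finset.sum_eq_single i (fun j _ hj => by simp [h4 i j v hv hj]) (by simp)]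
    obtain ⟨c, d, rfl⟩ := h1 i v hv
    simp only [hf'.add_left, hf'.smul_left, hf.alternating, h3, hf'.symm (b i 1) (b i 0)]
    rcases eq_zero_or_one_of_card_two h c with rfl | rfl <;>
      rcases eq_zero_or_one_of_card_two h d with rfl | rfl <;> simp at h0 ⊢
    linear_combination h2
  refine ⟨Q, h6, h5, fun g hg => mem_isometryGroup_of_span h6 (h5.symm ▸ hg.2)
    (S := ⋃ i, D i) (by rw [Submodule.span_iUnion]; simpa using hD.decomp.iSup_eq_top) ?_⟩
  rintro s ⟨_, ⟨i, rfl⟩, hs⟩
  by_cases h0 : s = 0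
  · rw [h0, Matrix.mulVec_zero]
  · obtain ⟨k, hk⟩ := exists_mem_of_stab hg.1 hs
    rw [h7 i s hs h0, h7 k _ hk ((mulVec_eq_zero_iff g s).not.mpr h0)]

end Cfsg.Agent.H18
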