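import Cfsg.Agent.H18.SuCase

/-! Transvections of symplectic and unitary groups inside the geometric subgroups. -/

set_option autoImplicit false

namespace Cfsg.Agent.H18

open Cfsg.Geo
open scoped MatrixGroups Matrix Kronecker commutatorElement

variable {ι : Type} [Fintype ι] [DecidableEq ι] {F : Type*} [Field F]

section sqz

/-- vectors with coordinates in the subfield -/
def InL (F₀ : Subfield F) (P : GL ι F) (v : ι → F) : Prop :=
  ∀ i, (((P⁻¹ : GL ι F) : Matrix ι ι F) *ᵥ v) i ∈ F₀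

variable {F₀ : Subfield F} {P g : GL ι F}

lemma InL.sub {u v : ι → F} (hu : InL F₀ P u) (hv : InL F₀ P v) : InL F₀ P (u - v) := fun i => by
  rw [Matrix.mulVec_sub]; exact sub_mem (hu i) (hv i)

lemma InL.smul {c : F} {v : ι → F} (hc : c ∈ F₀) (hv : InL F₀ P v) : InL F₀ P (c • v) := fun i => by
  rw [Matrix.mulVec_smul]; exact mul_mem hc (hv i)

lemma InL.mem_of_smul {c : F} {v : ι → F} (hv : InL F₀ P v) (h0 : v ≠ 0) (h : InL F₀ P (c • v)) :
    c ∈ F₀ := by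
  obtain ⟨i, hi⟩ := Function.ne_iff.mp ((mulVec_eq_zero_iff P⁻¹ v).not.mpr h0)
  have := F₀.mul_mem (h i) (F₀.inv_mem (hv i))
  rwa [Matrix.mulVec_smul, Pi.smul_apply, smul_eq_mul, mul_inv_cancel_right₀ hi] at this

lemma inL_col (i : ι) : InL F₀ P ((P : Matrix ι ι F) *ᵥ Pi.single i 1) := fun j => by
  rw [inv_mulVec_mulVec]
  by_cases h : j = i
  · subst h; simp
  · simp [h]

lemma eq_top_of_inL {u : ι → F} (h0 : u ≠ 0) (h : ∀ c : F, InL F₀ P (c • u)) : F₀ = ⊤ :=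
  eq_top_iff.mpr fun c _ => InL.mem_of_smul (by simpa using h 1) h0 (h c)

lemma InL.sqz [Finite F] (hg : ((g : Matrix ι ι F) - 1) * ((g : Matrix ι ι F) - 1) = 0)
    (h : g ∈ subfieldSubgroup F₀ P) {v : ι → F} (hv : InL F₀ P v) :
    InL F₀ P ((g : Matrix ι ι F) *ᵥ v - v) := by
  intro i
  have : Nonempty ι := ⟨i⟩
  obtain ⟨ζ, h0, h1⟩ := mem_subfieldSubgroup_iff.mp h
  set M := cj P⁻¹ (g : Matrix ι ι F) with hM
  have h2 : (ζ • M - ζ • 1) * (ζ • M - ζ • 1) = 0 := by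
    rw [← smul_sub, Matrix.smul_mul, Matrix.mul_smul, hM, ← map_one (cj P⁻¹), ← map_sub, ← map_mul,
      hg, map_zero, smul_zero, smul_zero]
  have h3 : (ζ • M).map (frobOf F₀) = ζ • M := by
    ext a b; exact (frobOf_eq_iff _ _).mpr (h1 a b)
  have h4 : (ζ • M - frobOf F₀ ζ • 1) * (ζ • M - frobOf F₀ ζ • 1) = 0 := by
    have := congrArg (frobOf F₀).mapMatrix h2
    rw [map_mul, map_sub, map_zero, RingHom.mapMatrix_apply, h3, RingHom.mapMatrix_apply] at this
    rwa [Matrix.map_smul' _ _ _ (map_mul _), Matrix.map_one _ (map_zero _) (map_one _)] at this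
  have h5 : ζ ∈ F₀ := by
    rw [← frobOf_eq_iff]
    have h6 : IsNilpotent ((ζ • M - ζ • 1) - (ζ • M - frobOf F₀ ζ • 1)) :=
      Commute.isNilpotent_sub (by
        simp only [Commute, SemiconjBy, mul_sub, sub_mul, Matrix.mul_smul, Matrix.smul_mul, mul_one,
          one_mul, smul_sub, smul_smul, mul_comm ζ]
        abel) ⟨2, by rw [sq, h2]⟩ ⟨2, by rw [sq, h4]⟩
    rw [sub_sub_sub_cancel_left, ← sub_smul] at h6
    obtain ⟨k, hk⟩ := h6
    have := congrFun (congrFun hk i) i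
    rw [smul_pow, one_pow] at this
    exact sub_eq_zero.mp (pow_eq_zero_iff'.mp (by simpa using this)).1
  rw [Matrix.mulVec_sub, ← cj_mulVec, Pi.sub_apply]
  refine sub_mem (sum_mem fun j _ => mul_mem ?_ (hv j)) (hv i)
  have := F₀.mul_mem (F₀.inv_mem h5) (h1 i j)
  rwa [inv_mul_cancel_left₀ h0] at this

/-- elements whose commutators with `R` are scalars of order dividing `r` -/
def Z2 (r : ℕ) (R : Subgroup (GL ι F)) : Subgroup (GL ι F) where
  carrier := {x | x ∈ R ∧ ∀ z ∈ R, ∃ c : Fˣ, c ^ r = 1 ∧ z * x = sc ι c * (x * z)}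
  mul_mem' {x y} hx hy := ⟨R.mul_mem hx.1 hy.1, fun z hz => by
    obtain ⟨c, h1, h2⟩ := hx.2 z hz
    obtain ⟨d, h3, h4⟩ := hy.2 z hz
    exact ⟨c * d, by rw [mul_pow, h1, h3, one_mul], by
      rw [← mul_assoc, h2, mul_assoc, mul_assoc, h4, map_mul, ← mul_assoc x, ← sc_comm]
      simp only [mul_assoc]⟩⟩
  one_mem' := ⟨R.one_mem, fun z _ => ⟨1, one_pow _, by simp⟩⟩
  inv_mem' {x} hx := ⟨R.inv_mem hx.1, fun z hz => by
    obtain ⟨c, h1, h2⟩ := hx.2 z hz
    refine ⟨c⁻¹, by rw [inv_pow, h1, inv_one], ?_⟩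
    rw [map_inv, eq_inv_mul_iff_mul_eq, eq_inv_mul_iff_mul_eq, ← mul_assoc, ← sc_comm, ← mul_assoc,
      mul_assoc (sc ι c), ← h2, mul_inv_cancel_right]⟩

variable {r : ℕ} {R : Subgroup (GL ι F)}

lemma conj_mem_Z2 (hg : g ∈ subgroupNormalizer R) {x : GL ι F} (hx : x ∈ Z2 r R) :
    g * x * g⁻¹ ∈ Z2 r R := by
  refine ⟨(Subgroup.mem_normalizer_iff.mp hg x).mp hx.1, fun z hz => ?_⟩
  obtain ⟨c, h1, h2⟩ := hx.2 (g⁻¹ * z * g) (by
    rw [Subgroup.mem_normalizer_iff.mp hg]; simpa [mul_assoc] using hz)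
  refine ⟨c, h1, ?_⟩
  calc z * (g * x * g⁻¹) = g * (g⁻¹ * z * g * x) * g⁻¹ := by group
    _ = _ := by rw [h2, ← mul_assoc g, ← sc_comm]; group

lemma scalar_of_absIrr (h : ActsAbsolutelyIrreducibly (matrixSet R)) {y : GL ι F}
    (hy : ∀ z ∈ R, z * y = y * z) : ∃ c : F, (y : Matrix ι ι F) = c • 1 :=
  h.2 _ (by rintro _ ⟨z, hz, rfl⟩; exact congrArg Units.val (hy z hz).symm)

lemma exists_mem_Z2 [Finite F] (hn : 2 ≤ Fintype.card ι) (hr : r.Prime) (hR : IsPGroup r R)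
    (h : ActsAbsolutelyIrreducibly (matrixSet R)) : ∃ x ∈ Z2 r R, x ∉ scalars ι F := by
  have : Nonempty ι := Fintype.card_pos_iff.mp (by omega)
  have := Fact.mk hr
  have h1 : ∀ x : R, x ∈ Subgroup.center R ↔ (x : GL ι F) ∈ scalars ι F := fun x =>
    ⟨fun hx => by
      obtain ⟨c, hc⟩ := scalar_of_absIrr h (y := x) fun z hz =>
        congrArg Subtype.val (Subgroup.mem_center_iff.mp hx ⟨z, hz⟩)
      exact mem_scalars_of_eq_smul hc,
    fun hx => Subgroup.mem_center_iff.mpr fun z => Subtype.ext (scalars_comm hx _).symm⟩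
  have h2 : Nontrivial (R ⧸ Subgroup.center R) := by
    rw [QuotientGroup.nontrivial_iff]
    intro h2
    exact scalars_not_irr hn ((irr_of_absIrr h).mono fun x hx => (h1 ⟨x, hx⟩).mp (h2.ge trivial))
  have h3 := (hR.to_quotient (Subgroup.center R)).center_nontrivial
  obtain ⟨k, hk⟩ := ((hR.to_quotient (Subgroup.center R)).to_subgroup
    (Subgroup.center _)).nontrivial_iff_card.mp h3
  obtain ⟨⟨y, hy⟩, h4⟩ := exists_prime_orderOf_dvd_card' (G := Subgroup.center (R ⧸ Subgroup.center R))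
    r (hk.2 ▸ dvd_pow_self r hk.1.ne')
  obtain ⟨x, rfl⟩ := QuotientGroup.mk_surjective y
  have h5 : (x : GL ι F) ^ r ∈ scalars ι F := by
    refine (h1 (x ^ r)).mp ((QuotientGroup.eq_one_iff _).mp ?_)
    have := congrArg Subtype.val (pow_orderOf_eq_one (⟨_, hy⟩ : Subgroup.center _))
    rwa [h4] at this
  refine ⟨x, ⟨x.2, fun z hz => ?_⟩, fun hx => hr.one_lt.ne' ?_⟩
  · obtain ⟨c, hc⟩ := mem_scalars_sc.mp ((h1 (⟨z, hz⟩ * x * (x * ⟨z, hz⟩)⁻¹)).mp
      ((QuotientGroup.eq_one_iff _).mp (by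
        rw [QuotientGroup.mk_mul, QuotientGroup.mk_inv, mul_inv_eq_one, QuotientGroup.mk_mul,
          QuotientGroup.mk_mul]
        exact Subgroup.mem_center_iff.mp hy _)))
    have h6 : z * x = sc ι c * (x * z) := by rw [hc]; simp [mul_assoc]
    refine ⟨c, sc_injective (ι := ι) ?_, h6⟩
    have h7 : z * x * z⁻¹ = sc ι c * x := by rw [h6]; group
    have h8 := congrArg (· ^ r) h7
    simp only [conj_pow, (sc_commute c _).mul_pow, conj_scalar h5] at h8
    rw [map_pow, map_one]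
    exact mul_right_cancel (h8.symm.trans (one_mul _).symm)
  · rw [← h4, orderOf_eq_one_iff]
    exact Subtype.ext ((QuotientGroup.eq_one_iff _).mpr ((h1 x).mpr hx))

lemma eq_of_sqz {A B : Matrix ι ι F} (h2 : (2 : F) ≠ 0) (hA : A * A = 0)
    (h : (1 + A) * (1 - B) = (1 + B) * (1 - A)) : A = B := by
  have h0 : ∀ X : Matrix ι ι F, X + X = 0 → X = 0 := fun X hX =>
    (smul_eq_zero.mp ((two_smul F X).trans hX)).resolve_left h2
  have e1 : (A - B) + (A - B) = A * B - B * A := by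
    linear_combination (norm := noncomm_ring) h
  have e2 : A * B * A = A * B + A * B := by
    have := congrArg (A * ·) e1
    simp only [mul_add, mul_sub, ← mul_assoc, hA, zero_mul] at this
    linear_combination (norm := noncomm_ring) this
  have e3 : A * B * A = -(B * A + B * A) := by
    have := congrArg (· * A) e1
    simp only [add_mul, sub_mul, mul_assoc, hA, mul_zero] at this
    linear_combination (norm := noncomm_ring) -this
  have e4 : A * B * A = 0 := h0 _ (by rw [← add_mul, ← e2, mul_assoc, hA, mul_zero])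
  rw [e4] at e2 e3
  rw [h0 _ e2.symm, h0 _ (neg_eq_zero.mp e3.symm), sub_zero] at e1
  exact sub_eq_zero.mp (h0 _ e1)

lemma inv_coe_of_sqz (hg : ((g : Matrix ι ι F) - 1) * ((g : Matrix ι ι F) - 1) = 0) :
    ((g⁻¹ : GL ι F) : Matrix ι ι F) = 1 - ((g : Matrix ι ι F) - 1) :=
  Units.inv_eq_of_mul_eq_one_right (by linear_combination (norm := noncomm_ring) -hg)

lemma comm_of_normalizes (h : ActsAbsolutelyIrreducibly (matrixSet R))
    (hg : ((g : Matrix ι ι F) - 1) * ((g : Matrix ι ι F) - 1) = 0) {U : Submodule F (ι → F)}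
    (hU : ∀ v, (g : Matrix ι ι F) *ᵥ v - v ∈ U) (hN : g ∈ subgroupNormalizer R)
    (hd : (r = 2 ∧ (2 : F) ≠ 0 ∧ 2 * Module.finrank F U < Fintype.card ι) ∨
      4 * Module.finrank F U < Fintype.card ι) {x : GL ι F} (hx : x ∈ Z2 r R) : g * x = x * g := by
  have hy : g * x * g⁻¹ * x⁻¹ ∈ Z2 r R := mul_mem (conj_mem_Z2 hN hx) (inv_mem hx)
  set y := g * x * g⁻¹ * x⁻¹ with hy'
  set U' := U ⊔ U.map (Matrix.toLin' (x : Matrix ι ι F)) with hU'
  clear_value y
  have h1 : ∀ v, (y : Matrix ι ι F) *ᵥ v - v ∈ U' := fun v => by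
    set u := ((g⁻¹ : GL ι F) : Matrix ι ι F) *ᵥ (((x⁻¹ : GL ι F) : Matrix ι ι F) *ᵥ v)
    have : (y : Matrix ι ι F) *ᵥ v - v = ((g : Matrix ι ι F) *ᵥ ((x : Matrix ι ι F) *ᵥ u) -
        (x : Matrix ι ι F) *ᵥ u) - (x : Matrix ι ι F) *ᵥ ((g : Matrix ι ι F) *ᵥ u - u) := by
      simp only [hy', u, Units.val_mul, ← Matrix.mulVec_mulVec, mulVec_inv_mulVec, Matrix.mulVec_sub]
      abel
    rw [this]
    exact sub_mem (Submodule.mem_sup_left (hU _)) (Submodule.mem_sup_right ⟨_, hU u, rfl⟩)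
  have h2 : Module.finrank F U' ≤ 2 * Module.finrank F U := by
    have := finrank_sup_le' U (U.map (Matrix.toLin' (x : Matrix ι ι F)))
    rw [finrank_map_gl, ← hU'] at this
    omega
  rcases hd with ⟨rfl, h3, hd⟩ | hd
  · obtain ⟨c, hc⟩ := scalar_of_absIrr h (y := y * y) fun z hz => by
      obtain ⟨c, h4, h5⟩ := hy.2 z hz
      rw [← mul_assoc, h5, mul_assoc, mul_assoc, h5, ← mul_assoc y, ← sc_comm, mul_assoc,
        ← mul_assoc, ← map_mul, ← sq, h4, map_one, one_mul, mul_assoc]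
    have h4 := eq_one_of_scalar_small (U := U') hc (fun v => by
      have := add_mem (h1 ((y : Matrix ι ι F) *ᵥ v)) (h1 v)
      rwa [sub_add_sub_cancel, Matrix.mulVec_mulVec] at this) (by omega)
    have h5 : (((x * g * x⁻¹ : GL ι F) : Matrix ι ι F) - 1) *
        (((x * g * x⁻¹ : GL ι F) : Matrix ι ι F) - 1) = 0 := by
      rw [← cj_coe, ← map_one (cj x), ← map_sub, ← map_mul, hg, map_zero]
    have h6 : g * (x * g * x⁻¹)⁻¹ = (x * g * x⁻¹) * g⁻¹ := by
      rw [← mul_inv_eq_one, ← h4, hy']; group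
    have h7 := congrArg Units.val h6
    rw [Units.val_mul g, Units.val_mul _ g⁻¹, inv_coe_of_sqz hg, inv_coe_of_sqz h5] at h7
    have h8 := eq_of_sqz h3 hg (B := ((x * g * x⁻¹ : GL ι F) : Matrix ι ι F) - 1) (by simpa using h7)
    have h9 : g = x * g * x⁻¹ := Units.ext (sub_left_injective h8)
    exact (eq_mul_inv_iff_mul_eq.mp h9)
  · obtain ⟨c, hc⟩ := scalar_of_absIrr h (y := y) fun z hz => by
      obtain ⟨c, -, h5⟩ := hy.2 z hz
      by_contra h6
      have h7 : (c : F) - 1 ≠ 0 := fun h7 => h6 (by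
        rw [h5, Units.ext (sub_eq_zero.mp h7 : (c : F) = (1 : Fˣ)), map_one, one_mul])
      obtain ⟨v, hv⟩ := exists_notMem_of_finrank_lt
        (W := U' ⊔ U'.map (Matrix.toLin' (z : Matrix ι ι F))) (by
          have := finrank_sup_le' U' (U'.map (Matrix.toLin' (z : Matrix ι ι F)))
          rw [finrank_map_gl] at this
          omega)
      apply hv
      rw [← Submodule.smul_mem_iff _ h7, ← mulVec_inv_mulVec z v]
      set u := ((z⁻¹ : GL ι F) : Matrix ι ι F) *ᵥ v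
      have h8 : (z : Matrix ι ι F) *ᵥ ((y : Matrix ι ι F) *ᵥ u) =
          (c : F) • ((y : Matrix ι ι F) *ᵥ ((z : Matrix ι ι F) *ᵥ u)) := by
        rw [Matrix.mulVec_mulVec, ← Units.val_mul, h5, sc_mul_coe, Matrix.smul_mulVec,
          Units.val_mul, ← Matrix.mulVec_mulVec]
      convert sub_mem (Submodule.mem_sup_right (Submodule.mem_map_of_mem (f := Matrix.toLin'
        (z : Matrix ι ι F)) (h1 u))) (Submodule.mem_sup_left (U'.smul_mem c (h1 ((z : Matrix ι ι F) *ᵥ u)))) using 1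
      rw [Matrix.toLin'_apply, Matrix.mulVec_sub, h8]
      module
    have h4 := eq_one_of_scalar_small (U := U') hc h1 (by omega)
    rw [← mul_inv_eq_one, mul_inv_rev, ← h4, hy', mul_assoc (g * x)]

end sqz

/-- forms with many transvections -/
structure TvF (σ : F →+* F) (ε : F) (f : (ι → F) → (ι → F) → F) (a : F) : Prop
    extends HForm σ ε f where
  ne : a ≠ 0
  tr0 : a * ε + σ a = 0
  tr : ∀ u, ∃ d, d * ε + σ d = f u u
  iso : ∃ w, w ≠ 0 ∧ f w w = 0

section tvf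
variable {σ : F →+* F} {ε a : F} {f : (ι → F) → (ι → F) → F}

lemma Sesq.dot (hf : Sesq σ f) (a : F) (w v : ι → F) :
    (fun i => a * f (Pi.single i 1) w) ⬝ᵥ v = a * f v w := by
  conv_rhs => rw [← Finset.univ_sum_single v, hf.sum_left, Finset.mul_sum]
  refine Finset.sum_congr rfl fun i _ => ?_
  have : (Pi.single i (v i) : ι → F) = v i • Pi.single i 1 := by rw [← Pi.single_smul]; simp
  rw [this, hf.smul_left]; ring

/-- the transvection with isotropic centre `w` -/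
def Sesq.ft (hf : Sesq σ f) (a : F) {w : ι → F} (hw : f w w = 0) : GL ι F :=
  tv w (fun i => a * f (Pi.single i 1) w) (by rw [hf.dot, hw, mul_zero])

lemma Sesq.ft_mulVec (hf : Sesq σ f) (a : F) {w : ι → F} (hw : f w w = 0) (v : ι → F) :
    (hf.ft a hw : Matrix ι ι F) *ᵥ v = v + (a * f v w) • w := by
  rw [Sesq.ft, tv_mulVec, hf.dot]

lemma Sesq.ft_sub (hf : Sesq σ f) (a : F) {w : ι → F} (hw : f w w = 0) (v : ι → F) :
    (hf.ft a hw : Matrix ι ι F) *ᵥ v - v = (a * f v w) • w := by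
  rw [hf.ft_mulVec, add_sub_cancel_left]

lemma Sesq.ft_sqz (hf : Sesq σ f) (a : F) {w : ι → F} (hw : f w w = 0) :
    ((hf.ft a hw : Matrix ι ι F) - 1) * ((hf.ft a hw : Matrix ι ι F) - 1) = 0 := by
  rw [Sesq.ft, tv_coe, add_sub_cancel_left, Matrix.vecMulVec_mul_vecMulVec, hf.dot, hw]; simp

lemma HForm.ft_mem (hf : HForm σ ε f) {a : F} (ha : a * ε + σ a = 0) {w : ι → F} (hw : f w w = 0) :
    hf.ft a hw ∈ isoG f ⊓ specialLinear ι F := ⟨mem_isoG.mpr fun u v => by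
  simp only [hf.ft_mulVec, hf.add_left, hf.add_right, hf.smul_left, hf.smul_right, hw, map_mul,
    hf.herm w v]
  linear_combination f u w * σ (f v w) * ha, tv_mem_SL _ _ _⟩

/-- the group contains the transvections -/
def TvF.Has (hf : TvF σ ε f a) (G : Subgroup (GL ι F)) : Prop :=
  ∀ w (hw : f w w = 0), hf.ft a hw ∈ G

namespace TvF

omit [Fintype ι] [DecidableEq ι] in
lemma exists_add (hf : TvF σ ε f a) {u w : ι → F} (hu : f u u = 0) (hw : f w w = 0) :
    ∃ c : F, c ≠ 0 ∧ f (u + c • w) (u + c • w) = 0 := by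
  by_cases h : f u w = 0
  · exact ⟨1, one_ne_zero, by simp [hf.add_left, hf.add_right, hu, hw, h, hf.eq_zero_comm h]⟩
  · have h1 : σ (f u w) ≠ 0 := (map_ne_zero σ).mpr h
    refine ⟨a / σ (f u w), div_ne_zero hf.ne h1, ?_⟩
    simp only [hf.add_left, hf.add_right, hf.smul_left, hf.smul_right, hu, hw, hf.herm w u,
      map_div₀, hf.invol]
    field_simp
    linear_combination f u w * σ (f u w) * hf.tr0

omit [Fintype ι] [DecidableEq ι] in
lemma exists_add' (hf : TvF σ ε f a) {u w : ι → F} (h : f u w ≠ 0) (hw : f w w = 0) :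
    ∃ c : F, f (u + c • w) (u + c • w) = 0 := by
  have h1 : σ (f u w) ≠ 0 := (map_ne_zero σ).mpr h
  obtain ⟨d, hd⟩ := hf.tr u
  refine ⟨-d / σ (f u w), ?_⟩
  simp only [hf.add_left, hf.add_right, hf.smul_left, hf.smul_right, hw, hf.herm w u,
    map_div₀, hf.invol, map_neg]
  field_simp
  linear_combination -f u w * σ (f u w) * hd

omit [Fintype ι] [DecidableEq ι] in
lemma exists_notMem (hf : TvF σ ε f a) {W : Submodule F (ι → F)} (hW : W ≠ ⊤) :
    ∃ w, f w w = 0 ∧ w ∉ W := by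
  by_contra! h
  obtain ⟨w, h0, hw⟩ := hf.iso
  have h1 : ∀ v, f v w ≠ 0 → v ∈ W := fun v hv => by
    obtain ⟨c, hc⟩ := hf.exists_add' hv hw
    simpa using sub_mem (h _ hc) (W.smul_mem c (h w hw))
  obtain ⟨u, hu⟩ : ∃ u, f u w ≠ 0 := by
    by_contra! h2; exact h0 (hf.nondeg w h2)
  refine hW (eq_top_iff.mpr fun v _ => ?_)
  by_cases hv : f v w = 0
  · simpa using sub_mem (h1 (u + v) (by rwa [hf.add_left, hv, add_zero])) (h1 u hu)
  · exact h1 v hv

omit [Fintype ι] [DecidableEq ι] in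
lemma exists_notMem₂ (hf : TvF σ ε f a) {W W' : Submodule F (ι → F)} (hW : W ≠ ⊤) (hW' : W' ≠ ⊤) :
    ∃ w, f w w = 0 ∧ w ∉ W ∧ w ∉ W' := by
  obtain ⟨u, h1, h2⟩ := hf.exists_notMem hW
  obtain ⟨w, h3, h4⟩ := hf.exists_notMem hW'
  by_cases h5 : u ∈ W'
  · by_cases h6 : w ∈ W
    · obtain ⟨c, h7, h8⟩ := hf.exists_add h1 h3
      exact ⟨_, h8, fun h => h2 (by simpa using sub_mem h (W.smul_mem c h6)),
        fun h => h4 ((W'.smul_mem_iff h7).mp (by simpa using sub_mem h h5))⟩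
    · exact ⟨w, h3, h6, h4⟩
  · exact ⟨u, h1, h2, h5⟩

omit [Fintype ι] [DecidableEq ι] in
lemma perp_ne_top (hf : TvF σ ε f a) {v : ι → F} (hv : v ≠ 0) :
    hf.perp (Submodule.span F {v}) ≠ ⊤ := fun h =>
  hv (hf.nondeg v fun x => (h.ge trivial : x ∈ hf.perp _) v (Submodule.mem_span_singleton_self v))

omit [Fintype ι] [DecidableEq ι] in
lemma mem_perp_span (hf : TvF σ ε f a) {v w : ι → F} (h : f v w = 0) :
    w ∈ hf.perp (Submodule.span F {v}) := fun x hx => by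
  obtain ⟨c, rfl⟩ := Submodule.mem_span_singleton.mp hx
  rw [hf.smul_right, hf.eq_zero_comm h, mul_zero]

variable {hf : TvF σ ε f a} {G : Subgroup (GL ι F)}

lemma Has.not_le_stab (hG : hf.Has G) {W : Submodule F (ι → F)} (h1 : W ≠ ⊥) (h2 : W ≠ ⊤) :
    ¬ G ≤ subspaceStabilizer W := fun h => by
  obtain ⟨v, hv, h0⟩ := W.ne_bot_iff.mp h1
  obtain ⟨w, hw, h3, h4⟩ := hf.exists_notMem₂ h2 (hf.perp_ne_top h0)
  have h5 := sub_mem ((mem_subspaceStabilizer.mp (h (hG w hw)) v).mp hv) hv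
  rw [hf.ft_sub, W.smul_mem_iff (mul_ne_zero hf.ne fun h6 => h4 (hf.mem_perp_span h6))] at h5
  exact h3 h5

lemma Has.not_le_decomp (hG : hf.Has G) {t m : ℕ} {D : Fin t → Submodule F (ι → F)}
    (hD : IsMDecomposition m D) (hm : 2 ≤ m) : ¬ G ≤ decompositionStabilizer D := fun h => by
  have h1 : ∀ w, f w w = 0 → w ≠ 0 → ∃ i, w ∈ D i := fun w hw h0 => by
    obtain ⟨i, v, hv, h2⟩ : ∃ i, ∃ v ∈ D i, f v w ≠ 0 := by
      by_contra! h2
      refine hf.perp_ne_top h0 (eq_top_iff.mpr (hD.iSup_eq_top.ge.trans (iSup_le fun i v hv => ?_)))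
      exact hf.mem_perp_span (hf.eq_zero_comm (h2 i v hv))
    obtain ⟨π, hπ⟩ := h (hG w hw)
    obtain ⟨u, ⟨hu, h3⟩, h4⟩ := (D i ⊓ hf.perp (Submodule.span F {w})).ne_bot_iff.mp fun h3 => by
      have h4 := Submodule.finrank_sup_add_finrank_inf_eq (D i) (hf.perp (Submodule.span F {w}))
      have h5 := hf.le_finrank_perp (Submodule.span F {w})
      have h6 := finrank_span_singleton_le w
      have h7 := Submodule.finrank_le (D i ⊔ hf.perp (Submodule.span F {w}))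
      rw [h3, hD.finrank_eq] at h4
      simp at h4 h7
      omega
    have h5 : π i = i := by
      by_contra h5
      have h6 : u ∈ D (π i) := by
        rw [← hπ]
        exact ⟨u, hu, by
          rw [Matrix.toLin'_apply, hf.ft_mulVec, h3 w (Submodule.mem_span_singleton_self w)]; simp⟩
      exact h4 (Submodule.disjoint_def.mp (hD.indep.pairwiseDisjoint h5) u h6 hu)
    have h6 : (hf.ft a hw : Matrix ι ι F) *ᵥ v ∈ D i := by
      rw [← h5, ← hπ]; exact ⟨v, hv, rfl⟩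
    have h7 := sub_mem h6 hv
    rw [hf.ft_sub, (D i).smul_mem_iff (mul_ne_zero hf.ne h2)] at h7
    exact ⟨i, h7⟩
  obtain ⟨u, h0, hu⟩ := hf.iso
  obtain ⟨i, hi⟩ := h1 u hu h0
  obtain ⟨w, hw, h2⟩ := hf.exists_notMem (W := D i) fun h2 => by
    have h3 := hD.finrank_eq i
    have h4 := card_eq_of_isMDecomposition hD
    have h5 := hD.two_le
    rw [h2] at h3
    simp at h3
    nlinarith
  have h3 : w ≠ 0 := fun h3 => h2 (h3 ▸ zero_mem _)
  obtain ⟨j, hj⟩ := h1 w hw h3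
  obtain ⟨c, h4, h5⟩ := hf.exists_add hu hw
  have h6 := add_notMem_of_decomp hD.indep (fun h6 : i = j => h2 (h6 ▸ hj)) hi
    ((D j).smul_mem c hj) h0 (smul_ne_zero h4 h3)
  obtain ⟨k, hk⟩ := h1 _ h5 fun h7 => h6 i (h7 ▸ zero_mem _)
  exact h6 k hk

lemma Has.exists_small (hG : hf.Has G) : ∃ g ∈ G, ∃ U : Submodule F (ι → F),
    Module.finrank F U ≤ 1 ∧ (∀ v, (g : Matrix ι ι F) *ᵥ v - v ∈ U) ∧
      ∃ v, (g : Matrix ι ι F) *ᵥ v ≠ v := by
  obtain ⟨w, h0, hw⟩ := hf.iso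
  obtain ⟨u, hu⟩ : ∃ u, f u w ≠ 0 := by
    by_contra! h2; exact h0 (hf.nondeg w h2)
  exact ⟨_, hG w hw, _, finrank_span_singleton_le w, tv_sub_mem _ _ _, u, by
    rw [← sub_ne_zero, hf.ft_sub]; exact smul_ne_zero (mul_ne_zero hf.ne hu) h0⟩

lemma Has.not_le_subfield [Finite F] (hG : hf.Has G) (hn : 3 ≤ Fintype.card ι) {F₀ : Subfield F}
    (h0 : F₀ ≠ ⊤) (P : GL ι F) : ¬ G ≤ subfieldSubgroup F₀ P := fun h => by
  have h1 : ∀ w, f w w = 0 → ∀ v, InL F₀ P v → InL F₀ P ((a * f v w) • w) := fun w hw v hv =>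
    hf.ft_sub a hw v ▸ hv.sqz (hf.ft_sqz a hw) (h (hG w hw))
  have h2 : ∀ v, InL F₀ P v → v ≠ 0 → ∃ w, f w w = 0 ∧ InL F₀ P w ∧ f v w ≠ 0 := fun v hv h2 => by
    obtain ⟨w, hw, h3⟩ := hf.exists_notMem (hf.perp_ne_top h2)
    have h4 : f v w ≠ 0 := fun h4 => h3 (hf.mem_perp_span h4)
    exact ⟨_, by rw [hf.smul_left, hf.smul_right, hw]; simp, h1 w hw v hv, by
      rw [hf.smul_right]; exact mul_ne_zero ((map_ne_zero σ).mpr (mul_ne_zero hf.ne h4)) h4⟩
  obtain ⟨i⟩ : Nonempty ι := Fintype.card_pos_iff.mp (by omega)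
  obtain ⟨w₁, a1, a2, a3⟩ := h2 _ (inL_col i) (by rw [Ne, mulVec_eq_zero_iff]; simp)
  have a4 : w₁ ≠ 0 := by rintro rfl; exact a3 (hf.zero_right _)
  obtain ⟨w₂, b1, b2, b3⟩ := h2 _ a2 a4
  obtain ⟨u, hu, h3⟩ := (hf.perp (Submodule.span F {w₁} ⊔ Submodule.span F {w₂})).ne_bot_iff.mp
    fun h3 => by
      have h4 := hf.le_finrank_perp (Submodule.span F {w₁} ⊔ Submodule.span F {w₂})
      have h5 := finrank_sup_le' (Submodule.span F {w₁}) (Submodule.span F {w₂})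
      have h6 := finrank_span_singleton_le w₁
      have h7 := finrank_span_singleton_le w₂
      rw [h3, finrank_bot] at h4
      omega
  have c1 := hu _ (Submodule.mem_sup_left (Submodule.mem_span_singleton_self _))
  have c2 := hu _ (Submodule.mem_sup_right (Submodule.mem_span_singleton_self _))
  have c3 : a * f w₂ w₁ ≠ 0 := mul_ne_zero hf.ne fun h => b3 (hf.eq_zero_comm h)
  have c4 := a2.mem_of_smul a4 (h1 w₁ a1 w₂ b2)
  refine h0 (eq_top_of_inL (P := P) (smul_ne_zero c3 h3) fun c => ?_)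
  obtain ⟨d, hd⟩ := hf.exists_add' (u := w₁ + c • u) (by
    rwa [hf.add_left, hf.smul_left, c2, mul_zero, add_zero]) b1
  have h4 := h1 _ hd w₂ b2
  simp only [hf.add_right, hf.smul_right, hf.eq_zero_comm c2, b1, mul_zero, add_zero] at h4
  have h5 := a2.mem_of_smul a4 (h1 w₁ a1 _ h4)
  simp only [hf.add_left, hf.smul_left, a1, c1, mul_zero, zero_add] at h5
  have h6 : a * f w₂ w₁ * d ∈ F₀ := by
    convert F₀.mul_mem h5 (F₀.inv_mem c4) using 1
    field_simp [left_ne_zero_of_mul c3, right_ne_zero_of_mul c3]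
  convert (h4.sub (InL.smul c4 a2)).sub (InL.smul h6 b2) using 1
  module

lemma scalar_of_iso (hf : TvF σ ε f a) {X : Matrix ι ι F}
    (h : ∀ w, f w w = 0 → X *ᵥ w ∈ Submodule.span F {w}) : ∃ c : F, X = c • 1 := by
  obtain ⟨u, h0, hu⟩ := hf.iso
  obtain ⟨c, hc⟩ := Submodule.mem_span_singleton.mp (h u hu)
  refine ⟨c, ?_⟩
  by_contra h1
  obtain ⟨w, hw, h2⟩ := hf.exists_notMem (W := LinearMap.ker (Matrix.toLin' (X - c • 1))) (by
    rwa [Ne, LinearMap.ker_eq_top, map_eq_zero_iff _ Matrix.toLin'.injective, sub_eq_zero])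
  obtain ⟨d, hd⟩ := Submodule.mem_span_singleton.mp (h w hw)
  obtain ⟨e, h3, h4⟩ := hf.exists_add hu hw
  obtain ⟨k, hk⟩ := Submodule.mem_span_singleton.mp (h _ h4)
  rw [Matrix.mulVec_add, Matrix.mulVec_smul, ← hc, ← hd] at hk
  simp only [LinearMap.mem_ker, Matrix.toLin'_apply, Matrix.sub_mulVec, Matrix.smul_mulVec,
    Matrix.one_mulVec, ← hd] at h2
  by_cases h5 : k = d
  · subst h5
    refine h2 (by rw [← sub_smul, (smul_eq_zero.mp (by linear_combination (norm := module) hk :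
      (k - c) • u = 0)).resolve_right h0, zero_smul])
  · have h6 : w = ((c - k) / (e * (k - d))) • u := by
      rw [div_eq_inv_mul, mul_smul, eq_inv_smul_iff₀ (mul_ne_zero h3 (sub_ne_zero.mpr h5))]
      linear_combination (norm := module) hk
    apply h2
    rw [hd, h6, Matrix.mulVec_smul, ← hc]
    module

lemma Has.not_le_normalizer [Finite F] (hG : hf.Has G) {r : ℕ} {R : Subgroup (GL ι F)}
    (hr : r.Prime) (hR : IsPGroup r R) (h : ActsAbsolutelyIrreducibly (matrixSet R))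
    (hd : (r = 2 ∧ (2 : F) ≠ 0 ∧ 3 ≤ Fintype.card ι) ∨ 5 ≤ Fintype.card ι) :
    ¬ G ≤ subgroupNormalizer R := fun hle => by
  have : Nonempty ι := Fintype.card_pos_iff.mp (by omega)
  obtain ⟨x, hx, h1⟩ := exists_mem_Z2 (by omega) hr hR h
  obtain ⟨c, hc⟩ := hf.scalar_of_iso (X := x) fun w hw => by
    have h2 := finrank_span_singleton_le w
    have h3 := comm_of_normalizes h (hf.ft_sqz a hw) (tv_sub_mem _ _ _) (hle (hG w hw))
      (hd.imp (fun h => ⟨h.1, h.2.1, by omega⟩) (by omega)) hx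
    by_cases h0 : w = 0
    · simp [h0]
    obtain ⟨u, hu⟩ : ∃ u, f u w ≠ 0 := by
      by_contra! h2; exact h0 (hf.nondeg w h2)
    have h4 := congrArg (fun g : GL ι F => (g : Matrix ι ι F) *ᵥ u) h3
    simp only [Units.val_mul, ← Matrix.mulVec_mulVec, hf.ft_mulVec, Matrix.mulVec_add,
      Matrix.mulVec_smul, add_right_inj] at h4
    rw [← Submodule.smul_mem_iff _ (mul_ne_zero hf.ne hu), ← h4]
    exact Submodule.smul_mem _ _ (Submodule.mem_span_singleton_self w)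
  exact h1 (mem_scalars_of_eq_smul hc)

end TvF

lemma HForm.tvF_alt {f : (ι → F) → (ι → F) → F} [Nonempty ι] (hf : HForm (RingHom.id F) (-1) f)
    (h : ∀ v, f v v = 0) (a : F) (ha : a ≠ 0) : TvF (RingHom.id F) (-1) f a :=
  ⟨hf, ha, by simp, fun u => ⟨0, by simp [h]⟩,
    ⟨Pi.single (Classical.arbitrary ι) 1, by simp, h _⟩⟩

lemma HForm.tvF_herm [Finite F] (hf : HForm σ 1 f) (hσ : σ ≠ RingHom.id F)
    (hn : 2 ≤ Fintype.card ι) : ∃ a, TvF σ 1 f a := by
  obtain ⟨θ, h1⟩ : ∃ θ, σ θ ≠ θ := by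
    by_contra! h; exact hσ (RingHom.ext h)
  obtain ⟨τ, h2⟩ : ∃ τ, τ + σ τ ≠ 0 := by
    by_contra! h
    have h3 := h 1
    rw [map_one] at h3
    exact h1 (by linear_combination h θ - θ * h3)
  obtain ⟨P, hP⟩ := hf.exists_orthonormal hσ
  obtain ⟨c, hc⟩ := H13.exists_conj_mul_eq hσ hf.invol (c := -1) (by simp)
  obtain ⟨i, j, hij⟩ := Fintype.exists_pair_of_one_lt_card (α := ι) hn
  refine ⟨θ - σ θ, hf, sub_ne_zero.mpr h1.symm, by simp [hf.invol], fun u =>
    ⟨τ / (τ + σ τ) * f u u, ?_⟩, (P : Matrix ι ι F) *ᵥ (Pi.single i 1 + Pi.single j c), ?_, ?_⟩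
  · have h3 : σ (f u u) = f u u := by rw [hf.herm u u, one_mul, hf.invol, ← one_mul (σ _), ← hf.herm]
    simp only [map_mul, map_div₀, map_add, hf.invol, h3, add_comm (σ τ)]
    field_simp
  · rw [Ne, mulVec_eq_zero_iff]
    exact fun h => by simpa [hij] using congrFun h i
  · rw [hf.eq_grm, hP]
    simp [frm, Pi.single_apply, hij, hij.symm, dotProduct, apply_ite σ, add_mul, ite_mul,
      Finset.sum_add_distrib]
    linear_combination hc

end tvf

end Cfsg.Agent.H18
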