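import Cfsg.Agent.H12.SGen
import Cfsg.Agent.H13.Spinor

/-! Symplectic groups in characteristic two: subgroups containing long-root-radical complements. -/

namespace Cfsg.Agent.H18.Yx
open Cfsg.Agent.H12 Module

variable {F V : Type*} [Field F] [CharP F 2] [AddCommGroup V] [Module F V]
  {B : V →ₛₗ[RingHom.id F] V →ₗ[F] F}

theorem sym (D : SD B) (x y : V) : B y x = B x y := by
  have := D.skew x y
  simp only [RingHom.id_apply] at this
  rw [this, CharTwo.neg_eq]

omit [CharP F 2] in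
theorem slf (D : SD B) (x : V) : B x x = 0 := D.self_eq_zero rfl x

omit [CharP F 2] in
theorem adm (D : SD B) {e u : V} (h : B e u = 0) (c : F) : Adm B e u c :=
  ⟨slf D e, h, by simp [slf D u]⟩

variable (F) in
include F in
theorem vv (x : V) : x + x = 0 := by
  rw [← two_smul F x, CharTwo.two_eq_zero, zero_smul]

omit [CharP F 2] in
theorem rap (D : SD B) {e u : V} (h : B e u = 0) (c : F) (x : V) :
    (rho B e u c).1 x = x + B e x • u + (c * B e x + B u x) • e := rho_apply D (adm D h c) x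

omit [CharP F 2] in
theorem rmul (D : SD B) {e u u' : V} (h : B e u = 0) (h' : B e u' = 0) (c c' : F) :
    rho B e u c * rho B e u' c' = rho B e (u + u') (c + c' + B u u') :=
  rho_mul D (adm D h c) (adm D h' c')

theorem radd (D : SD B) {e u : V} (h : B e u = 0) (c a : F) :
    rho B e (u + a • e) c = rho B e u c := by
  rw [rho_add_smul D (adm D h c)]
  simp [CharTwo.add_self_eq_zero]

omit [CharP F 2] in
theorem rsmul (D : SD B) {e u : V} (h : B e u = 0) (c a : F) :
    rho B (a • e) u c = rho B e (a • u) (c * (a * a)) := rho_smul D (adm D h c) a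

theorem rswap (D : SD B) {e u : V} (h : B e u = 0) : rho B e u 0 = rho B u e 0 := by
  refine UG_ext fun x => ?_
  rw [rap D h, rap D (by rw [sym D, h])]
  module

/-- points at which `L` induces the full radical modulo transvections -/
def PA (L : Subgroup (UG B)) (p : V) : Prop := p ≠ 0 ∧ ∀ s, B p s = 0 → ∃ c, rho B p s c ∈ L

variable {L : Subgroup (UG B)}

omit [CharP F 2] in
theorem conj_mem (D : SD B) {g : UG B} (hg : g ∈ L) {p s : V} {c : F} (h : rho B p s c ∈ L) :
    rho B (g.1 p) (g.1 s) c ∈ L := by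
  rw [← conj_rho D]
  exact L.mul_mem (L.mul_mem hg h) (L.inv_mem hg)

omit [CharP F 2] in
theorem PA.map (D : SD B) {p : V} (h : PA L p) {g : UG B} (hg : g ∈ L) : PA L (g.1 p) := by
  refine ⟨UG_ne_zero g h.1, fun s hs => ?_⟩
  obtain ⟨c, hc⟩ := h.2 ((g⁻¹).1 s) (by rw [← UG_map_left, hs])
  exact ⟨c, by simpa using conj_mem D hg hc⟩

omit [CharP F 2] in
theorem PA.smul (D : SD B) {p : V} (h : PA L p) {a : F} (ha : a ≠ 0) : PA L (a • p) := by
  refine ⟨smul_ne_zero ha h.1, fun s hs => ?_⟩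
  have hs' : B p s = 0 := by simpa [ha] using hs
  obtain ⟨c, hc⟩ := h.2 (a • s) (by simp [hs'])
  refine ⟨c / (a * a), ?_⟩
  rw [rsmul D hs', div_mul_cancel₀ _ (mul_ne_zero ha ha)]
  exact hc

omit [CharP F 2] in
theorem mul_mem (D : SD B) {e u u' : V} (h : B e u = 0) (h' : B e u' = 0) {c c' : F}
    (H : rho B e u c ∈ L) (H' : rho B e u' c' ∈ L) : rho B e (u + u') (c + c' + B u u') ∈ L := by
  rw [← rmul D h h']; exact L.mul_mem H H'

/-- conjugating the radical at `a` by an element fixing `a` and inducing `x ↦ x + B t x • u`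
on `a^⊥ / a`. -/
theorem key (D : SD B) {a u s : V} (ha : PA L a) (hau : B a u = 0) (has : B a s = 0)
    {g : UG B} (hg : g ∈ L) (hga : g.1 a = a) {μ ν : F} (hgs : g.1 s = s + μ • u + ν • a) :
    rho B a (μ • u) (μ * B s u) ∈ L := by
  obtain ⟨c, hc⟩ := ha.2 s has
  have h1 := conj_mem D hg hc
  rw [hga, hgs, radd D (by simp [has, hau])] at h1
  have h2 := mul_mem D has (by simp [has, hau]) hc h1
  rw [← add_assoc, vv F, zero_add, CharTwo.add_self_eq_zero, zero_add] at h2
  simpa [slf D] using h2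

variable [FiniteDimensional F V]

omit [CharP F 2] in
theorem exists_two (D : SD B) {a u : V} (ha : a ≠ 0) (hu : u ∉ F ∙ a) (x y : F) :
    ∃ s, B a s = x ∧ B u s = y := by
  have hli : LinearIndependent F ![a, u] := H13.linearIndependent_pair_of_notMem ha hu
  obtain ⟨s, hs⟩ := D.exists_eq_family hli ![x, y]
  exact ⟨s, hs 0, hs 1⟩

theorem key1 (D : SD B) {a u : V} (ha : PA L a) (hau : B a u = 0) (hu : u ∉ F ∙ a) {l k : F}
    (h : rho B u (l • a) k ∈ L) (μ : F) : rho B a ((k * μ) • u) (k * μ * μ) ∈ L := by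
  obtain ⟨s, has, hus⟩ := exists_two D ha.1 hu 0 μ
  have hua : B u a = 0 := by rw [sym D, hau]
  have := key D ha hau has h (μ := k * μ) (ν := μ * l)
    (by rw [rap D (by simp [hua])]; simp [hua, slf D])
    (by rw [rap D (by simp [hua])]; simp [hus, has]; module)
  rwa [sym D, hus] at this

/-- irreducibility -/
def Irr (L : Subgroup (UG B)) : Prop :=
  ∀ W : Submodule F V, (∀ g ∈ L, ∀ w ∈ W, g.1 w ∈ W) → W = ⊥ ∨ W = ⊤

omit [CharP F 2] [FiniteDimensional F V] in
theorem Irr.span (hI : Irr L) {P : V → Prop} (hP : ∀ p, P p → ∀ g ∈ L, P (g.1 p)) {a : V}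
    (ha : P a) (h0 : a ≠ 0) : Submodule.span F {p | P p} = ⊤ := by
  refine (hI _ fun g hg w hw => ?_).resolve_left fun h => h0 ?_
  · induction hw using Submodule.span_induction with
    | mem x hx => exact Submodule.subset_span (hP x hx g hg)
    | zero => simp
    | add x y _ _ hx hy => rw [map_add]; exact add_mem hx hy
    | smul c x _ hx => rw [map_smul]; exact Submodule.smul_mem _ c hx
  · have : a ∈ Submodule.span F {p | P p} := Submodule.subset_span ha
    rwa [h, Submodule.mem_bot] at this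

omit [CharP F 2] [FiniteDimensional F V] in
theorem Irr.ex (D : SD B) (hI : Irr L) {P : V → Prop} (hP : ∀ p, P p → ∀ g ∈ L, P (g.1 p)) {a : V}
    (ha : P a) (h0 : a ≠ 0) {v : V} (hv : v ≠ 0) : ∃ p, P p ∧ B p v ≠ 0 := by
  by_contra! H
  refine hv (D.sep v fun y => D.comm0 ?_)
  have hy : y ∈ Submodule.span F {p | P p} := by rw [hI.span hP ha h0]; trivial
  induction hy using Submodule.span_induction with
  | mem x hx => exact H x hx
  | zero => simp
  | add x y _ _ hx hy => simp [hx, hy]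
  | smul c x _ hx => simp [hx]

omit [FiniteDimensional F V] in
/-- a partner of prescribed product -/
theorem Irr.partner (D : SD B) (hI : Irr L) {P : V → Prop} (hP : ∀ p, P p → ∀ g ∈ L, P (g.1 p))
    (hs : ∀ p, P p → ∀ c : F, c ≠ 0 → P (c • p)) {a : V}
    (ha : P a) (h0 : a ≠ 0) {v : V} (hv : v ≠ 0) {x : F} (hx : x ≠ 0) : ∃ p, P p ∧ B v p = x := by
  obtain ⟨p, hp, h⟩ := hI.ex D hP ha h0 hv
  refine ⟨(x / B p v) • p, hs p hp _ (div_ne_zero hx h), ?_⟩
  rw [map_smul, sym D p v, smul_eq_mul, div_mul_cancel₀ _ h]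

/-- all transvections with centre `p` -/
def PF (L : Subgroup (UG B)) (p : V) : Prop := PA L p ∧ ∀ k, rho B p 0 k ∈ L

/-- some transvection with centre `p` -/
def PT (L : Subgroup (UG B)) (p : V) : Prop := PA L p ∧ ∃ k, k ≠ 0 ∧ rho B p 0 k ∈ L

omit [FiniteDimensional F V] in
theorem eq_top_of_PF (D : SD B) [FiniteDimensional F V] (hI : Irr L) {a : V} (ha : PF L a) :
    L = ⊤ := by
  have hP : ∀ p, PF L p → ∀ g ∈ L, PF L (g.1 p) := fun p hp g hg =>
    ⟨hp.1.map D hg, fun k => by simpa using conj_mem D hg (hp.2 k)⟩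
  have hs : ∀ p, PF L p → ∀ c : F, c ≠ 0 → PF L (c • p) := fun p hp c hc =>
    ⟨hp.1.smul D hc, fun k => by rw [rsmul D (by simp), smul_zero]; exact hp.2 _⟩
  have all : ∀ v, v ≠ 0 → PF L v := fun v hv => by
    obtain ⟨p, hp, h⟩ := hI.ex D hP ha ha.1.1 hv
    obtain ⟨p', hp', h'⟩ := hI.partner D hP hs ha ha.1.1 hp.1.1 h
    obtain ⟨u, c, hA, e⟩ := exists_rho_map D (slf D p) (by rw [slf D, slf D]) h' (h' ▸ h)
    rw [← e]
    refine hP _ hp' _ ?_
    obtain ⟨c', hc'⟩ := hp.1.2 u hA.eu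
    have := mul_mem D hA.eu (by simp) hc' (hp.2 (c - c'))
    simpa using this
  rw [eq_top_iff, ← D.TG_eq_top rfl, TG, Subgroup.closure_le]
  rintro _ ⟨v, c, rfl⟩
  by_cases hv : v = 0
  · rw [hv, tv_zero_left D]; exact L.one_mem
  · exact (all v hv).2 c

variable [Finite F]

omit [FiniteDimensional F V] in
theorem exists_sq (c : F) : ∃ d : F, d * d = c := by
  obtain ⟨d, hd⟩ := FiniteField.isSquare_of_char_two (ringChar.eq F 2) c
  exact ⟨d, hd.symm⟩

theorem PF_of_pair (D : SD B) {a u : V} (ha : PT L a) (hu : PT L u) (hau : B a u = 0)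
    (hua : u ∉ F ∙ a) : PF L a := by
  obtain ⟨ha, k₁, hk₁, ta⟩ := ha
  obtain ⟨hu, k, hk, tu⟩ := hu
  have hua' : a ∉ F ∙ u := fun h => by
    obtain ⟨c, rfl⟩ := Submodule.mem_span_singleton.mp h
    have hc : c ≠ 0 := by rintro rfl; exact ha.1 (zero_smul _ _)
    exact hua (Submodule.mem_span_singleton.mpr ⟨c⁻¹, by rw [smul_smul, inv_mul_cancel₀ hc, one_smul]⟩)
  refine ⟨ha, fun c => ?_⟩
  by_cases H : ∃ l, l ≠ 0 ∧ k₁ * l * l ≠ k
  · obtain ⟨l, hl, hlk⟩ := H
    have h1 := key1 D ha hau hua (l := 0) (by rwa [zero_smul])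
    have h2 := key1 D hu (by rw [sym D, hau]) hua' (l := 0) (by rwa [zero_smul]) l
    have h3 := key1 D ha hau hua h2
    set m := k₁ * l * l with hm
    have hm0 : m ≠ 0 := by simp [hm, hk₁, hl]
    have hmk : m + k ≠ 0 := fun h => hlk (by rw [← CharTwo.sub_eq_add] at h; exact sub_eq_zero.mp h)
    obtain ⟨μ, hμ⟩ := exists_sq (c * m / (k * (m + k)))
    have h4 := mul_mem D (by simp [hau]) (by simp [hau]) (h1 μ) (h3 (k * μ / m))
    rw [mul_div_cancel₀ _ hm0, vv F] at h4
    convert h4 using 2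
    simp only [map_smul, LinearMap.map_smulₛₗ₂, slf D, smul_zero, add_zero, LinearMap.smul_apply]
    have : c = μ * μ * (k * (m + k)) / m := by rw [hμ]; field_simp
    rw [this]; field_simp
  · push Not at H
    have h1 : k₁ = k := by simpa using H 1 one_ne_zero
    have h01 : ∀ l : F, l ≠ 0 → l = 1 := fun l hl => by
      have h2 := H l hl
      rw [← h1, mul_assoc, mul_right_eq_self₀] at h2
      have h3 : (l + 1) ^ 2 = 0 := by
        rw [CharTwo.add_sq, sq, h2.resolve_right hk₁, one_pow, CharTwo.add_self_eq_zero]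
      have := pow_eq_zero_iff (two_ne_zero) |>.mp h3
      rw [← CharTwo.sub_eq_add] at this
      exact sub_eq_zero.mp this
    by_cases hc : c = 0
    · rw [hc, rho_zero D]; exact L.one_mem
    · rw [h01 c hc, ← h01 k₁ hk₁]; exact ta

omit [CharP F 2] [Finite F] in
theorem exists_perp (D : SD B) (hn : 3 ≤ finrank F V) (a b : V) :
    ∃ s, s ≠ 0 ∧ B a s = 0 ∧ B b s = 0 := by
  have h1 := D.finrank_sperp (Submodule.span F {a, b})
  have h2 := H13.finrank_span_pair_le (F := F) a b
  obtain ⟨s, hs, h0⟩ := Submodule.exists_mem_ne_zero_of_ne_bot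
    (p := sperp B (Submodule.span F {a, b})) (fun h => by rw [h, finrank_bot] at h1; omega)
  exact ⟨s, h0, mem_sperp_pair.mp hs⟩

omit [CharP F 2] [Finite F] [FiniteDimensional F V] in
theorem not_mem_of {a b s : V} (hab : B a b = 1) (hs : s ≠ 0) (has : B a s = 0) :
    b + s ∉ F ∙ b := fun h => by
  obtain ⟨c, hc⟩ := Submodule.mem_span_singleton.mp h
  have h1 := congrArg (B a) hc
  simp only [map_smul, map_add, hab, has, smul_eq_mul, mul_one, add_zero] at h1
  rw [h1, one_smul] at hc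
  exact hs (by simpa using hc)

theorem eq_top_of_PT (D : SD B) (hn : 3 ≤ finrank F V) (hI : Irr L) {a : V} (ha : PT L a) :
    L = ⊤ := by
  have hP : ∀ p, PT L p → ∀ g ∈ L, PT L (g.1 p) := fun p hp g hg =>
    ⟨hp.1.map D hg, by
      obtain ⟨k, hk, h⟩ := hp.2
      exact ⟨k, hk, by simpa using conj_mem D hg h⟩⟩
  have hs : ∀ p, PT L p → ∀ c : F, c ≠ 0 → PT L (c • p) := fun p hp c hc =>
    ⟨hp.1.smul D hc, by
      obtain ⟨k, hk, h⟩ := hp.2
      refine ⟨k / (c * c), div_ne_zero hk (mul_ne_zero hc hc), ?_⟩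
      rwa [rsmul D (by simp), smul_zero, div_mul_cancel₀ _ (mul_ne_zero hc hc)]⟩
  obtain ⟨b, hb, hab⟩ := hI.partner D hP hs ha ha.1.1 ha.1.1 one_ne_zero
  obtain ⟨s, hs0, has, hbs⟩ := exists_perp D hn a b
  obtain ⟨k, hk, ta⟩ := ha.2
  choose c hc using fun l : F => ha.1.2 (l • s) (by simp [has])
  have hc' : ∀ (l : F) (e : Bool), rho B a (l • s) (c l + if e then k else 0) ∈ L := fun l e => by
    cases e
    · simpa using hc l
    · simpa using mul_mem D (by simp [has]) (by simp) (hc l) ta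
  obtain ⟨⟨l, e⟩, ⟨l', e'⟩, hne, he⟩ : ∃ x y : F × Bool, x ≠ y ∧
      c x.1 + (if x.2 then k else 0) = c y.1 + if y.2 then k else 0 := by
    classical
    have := Fintype.ofFinite F
    refine Fintype.exists_ne_map_eq_of_card_lt _ ?_
    have := Fintype.card_pos (α := F)
    simp; omega
  have hl : l + l' ≠ 0 := fun h => by
    rw [← CharTwo.sub_eq_add, sub_eq_zero] at h
    subst h
    cases e <;> cases e' <;> simp_all
  have h1 := mul_mem D (by simp [has]) (by simp [has]) (hc' l e) (hc' l' e')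
  simp only at he
  rw [he, CharTwo.add_self_eq_zero, ← add_smul] at h1
  simp only [map_smul, LinearMap.map_smulₛₗ₂, slf D, smul_zero, add_zero,
    LinearMap.smul_apply] at h1
  have h2 := hP b hb _ h1
  rw [rap D (by simp [has])] at h2
  simp only [hab, one_smul, map_smul, LinearMap.map_smulₛₗ₂, LinearMap.smul_apply, sym D b s, hbs,
    smul_zero, zero_mul, add_zero, zero_smul] at h2
  exact eq_top_of_PF D hI (PF_of_pair D hb h2 (by simp [slf D, hbs])
    (not_mem_of hab (smul_ne_zero hl hs0) (by simp [has])))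

end Cfsg.Agent.H18.Yx
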