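import Cfsg.Agent.H18.YxA

/-! The case without transvections: construction of the invariant quadratic form. -/

namespace Cfsg.Agent.H18.Yx
open Cfsg.Agent.H12 Module QuadraticMap

variable {F V : Type*} [Field F] [CharP F 2] [AddCommGroup V] [Module F V]
  {B : V →ₛₗ[RingHom.id F] V →ₗ[F] F} {L : Subgroup (UG B)}

/-- no transvections at the good points -/
def NT (L : Subgroup (UG B)) : Prop := ∀ p, PA L p → ∀ k, rho B p 0 k ∈ L → k = 0

/-- orthogonal good points are singular for each other -/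
def HH (L : Subgroup (UG B)) : Prop :=
  ∀ a u, PA L a → PA L u → B a u = 0 → ∀ μ : F, rho B a (μ • u) 0 ∈ L

theorem eq_of_add {x y : F} (h : x + y = 0) : x = y := by
  rwa [← CharTwo.sub_eq_add, sub_eq_zero] at h

theorem NT.uniq (D : SD B) (hN : NT L) {p s : V} (hp : PA L p) (hs : B p s = 0) {c c' : F}
    (h : rho B p s c ∈ L) (h' : rho B p s c' ∈ L) : c = c' := by
  have := mul_mem D hs hs h h'
  rw [vv F, slf D, add_zero] at this
  exact eq_of_add (hN p hp _ this)

theorem hh_of_mem (D : SD B) {a u : V} (hu : u ∈ F ∙ a) (μ : F) : rho B a (μ • u) 0 ∈ L := by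
  obtain ⟨c, rfl⟩ := Submodule.mem_span_singleton.mp hu
  rw [smul_smul, ← zero_add ((μ * c) • a), radd D (by simp), rho_zero D]
  exact L.one_mem

omit [CharP F 2] in
theorem not_mem_symm {a u : V} (ha : a ≠ 0) (hua : u ∉ F ∙ a) : a ∉ F ∙ u := fun h => by
  obtain ⟨c, rfl⟩ := Submodule.mem_span_singleton.mp h
  have hc : c ≠ 0 := by rintro rfl; exact ha (zero_smul _ _)
  exact hua (Submodule.mem_span_singleton.mpr ⟨c⁻¹, by rw [smul_smul, inv_mul_cancel₀ hc, one_smul]⟩)

theorem HH.zz (D : SD B) (hH : HH L) {a b s : V} (hb : PA L b) (hab : B a b = 1) (has : B a s = 0)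
    (hbs : B b s = 0) (h : rho B a s 0 ∈ L) (μ : F) : rho B b (μ • s) 0 ∈ L := by
  have h1 := hb.map D h
  rw [rap D has] at h1
  simp only [hab, one_smul, zero_mul, sym D b s, hbs, add_zero, zero_smul] at h1
  have h2 := hH b _ hb h1 (by simp [slf D, hbs]) μ
  rwa [smul_add, add_comm, radd D (by simp [hbs])] at h2

theorem HH.zz2 (D : SD B) (hH : HH L) {a b s : V} (ha : PA L a) (hb : PA L b) (hab : B a b = 1)
    (has : B a s = 0) (hbs : B b s = 0) (h : rho B a s 0 ∈ L) (μ : F) : rho B a (μ • s) 0 ∈ L :=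
  hH.zz D ha (by rw [sym D, hab]) hbs has (by simpa using hH.zz D hb hab has hbs h 1) μ

theorem HH.line [Finite F] (D : SD B) (hH : HH L) {a b s : V} (ha : PA L a) (hb : PA L b)
    (hab : B a b = 1) (has : B a s = 0) (hbs : B b s = 0) :
    (∀ μ : F, rho B a (μ • s) 0 ∈ L) ∨ ∀ e, ∃ l : F, rho B a (l • s) e ∈ L := by
  choose c hc using fun l : F => ha.2 (l • s) (by simp [has])
  by_cases h : Function.Injective c
  · refine Or.inr fun e => ?_
    obtain ⟨l, rfl⟩ := Finite.surjective_of_injective h e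
    exact ⟨l, hc l⟩
  · obtain ⟨l, l', he, hl⟩ := Function.not_injective_iff.mp h
    have h1 := mul_mem D (by simp [has]) (by simp [has]) (hc l) (hc l')
    rw [he, CharTwo.add_self_eq_zero, ← add_smul] at h1
    simp only [map_smul, LinearMap.map_smulₛₗ₂, slf D, smul_zero, add_zero,
      LinearMap.smul_apply] at h1
    have hl' : l + l' ≠ 0 := fun h => hl (eq_of_add h)
    refine Or.inl fun μ => ?_
    have := hH.zz2 D ha hb hab (by simp [has]) (by simp [hbs]) h1 (μ / (l + l'))
    rwa [smul_smul, div_mul_cancel₀ _ hl'] at this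

variable [FiniteDimensional F V]

theorem hh_of_dim (D : SD B) (hn : 5 ≤ finrank F V) : HH L := fun a u ha hu hau μ => by
  have hua : B u a = 0 := by rw [sym D, hau]
  have h1 := D.finrank_sperp (Submodule.span F {a, u})
  have h2 := H13.finrank_span_pair_le (F := F) a u
  obtain ⟨t, ht, ht'⟩ : ∃ t ∈ sperp B (Submodule.span F {a, u}), t ∉ Submodule.span F {a, u} := by
    by_contra! H
    have := Submodule.finrank_mono (show sperp B (Submodule.span F {a, u}) ≤ _ from H)
    omega
  obtain ⟨hat, hut⟩ := mem_sperp_pair.mp ht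
  obtain ⟨s, hs, hts⟩ := D.exists_perp_one _ ht'
  have has := hs a (Submodule.subset_span (by simp))
  have hus := hs u (Submodule.subset_span (by simp))
  obtain ⟨c, hc⟩ := hu.2 (μ • t) (by simp [hut])
  have := key D ha hau has hc (μ := μ) (ν := 0)
    (by rw [rap D (by simp [hut])]; simp [hua, sym D a t, hat])
    (by rw [rap D (by simp [hut])]; simp [hus, hts])
  rwa [sym D, hus, mul_zero] at this

theorem hh_of_card (D : SD B) (hN : NT L) {x : F} (h0 : x ≠ 0) (h1 : x ≠ 1) : HH L :=
    fun a u ha hu hau μ => by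
  by_cases hua : u ∈ F ∙ a
  · exact hh_of_mem D hua μ
  obtain ⟨c, hc⟩ := ha.2 (μ • u) (by simp [hau])
  by_cases hc0 : c = 0
  · rwa [hc0] at hc
  have h2 := key1 D hu (by rw [sym D, hau]) (not_mem_symm ha.1 hua) hc
  have h3 := key1 D ha hau hua (h2 1) 1
  have h4 := key1 D ha hau hua (h2 x) (x * x)⁻¹
  rw [show c * x * x * (x * x)⁻¹ = c * 1 * 1 * 1 by field_simp] at h4
  have h5 := hN.uniq D ha (by simp [hau]) h3 h4
  have h6 : x * x = 1 := by field_simp at h5; rw [← pow_two]; exact h5
  have h7 : (x + 1) ^ 2 = 0 := by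
    rw [CharTwo.add_sq, pow_two, h6, one_pow, CharTwo.add_self_eq_zero]
  exact absurd (eq_of_add (pow_eq_zero_iff two_ne_zero |>.mp h7)) h1

variable [Finite F]

theorem HH.surj (D : SD B) (hn : 3 ≤ finrank F V) (hH : HH L) {a b : V} (ha : PA L a) (hb : PA L b)
    (hab : B a b = 1) (e : F) : ∃ s, B a s = 0 ∧ B b s = 0 ∧ rho B a s e ∈ L := by
  obtain ⟨s, hs0, has, hbs⟩ := exists_perp D hn a b
  rcases hH.line D ha hb hab has hbs with h | h
  · obtain ⟨t, ht, hst⟩ := D.exists_perp_one (Submodule.span F {a, b}) (x := s) fun h => by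
      obtain ⟨x, y, rfl⟩ := Submodule.mem_span_pair.mp h
      simp [hab, slf D, sym D a b] at has hbs
      simp [has, hbs] at hs0
    have hat := ht a (Submodule.subset_span (by simp))
    have hbt := ht b (Submodule.subset_span (by simp))
    obtain ⟨c, hc⟩ := ha.2 t hat
    refine ⟨(e - c) • s + t, by simp [has, hat], by simp [hbs, hbt], ?_⟩
    simpa [hst] using mul_mem D (by simp [has]) hat (h (e - c)) hc
  · obtain ⟨l, hl⟩ := h e
    exact ⟨l • s, by simp [has], by simp [hbs], hl⟩

theorem HH.e0 (D : SD B) (hn : 3 ≤ finrank F V) (hN : NT L) (hH : HH L) {a b : V} (ha : PA L a)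
    (hb : PA L b) (hab : B a b = 1) {e : F} (h : PA L (b + e • a)) : e = 0 := by
  obtain ⟨s, has, hbs, hs⟩ := hH.surj D hn ha hb hab e
  have h1 := h.map D hs
  have e1 : (rho B a s e).1 (b + e • a) = b + s := by
    rw [rap D has]
    simp only [map_add, map_smul, hab, slf D, sym D a s, sym D b s, has, hbs, smul_eq_mul, mul_zero,
      add_zero, mul_one, one_smul]
    linear_combination (norm := module) vv F (e • a)
  rw [e1] at h1
  have h2 := hH b _ hb h1 (by simp [slf D, hbs]) 1
  rw [smul_add, add_comm, radd D (by simp [hbs]), one_smul] at h2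
  have h3 := hH.zz D ha (by rw [sym D, hab]) hbs has h2 1
  rw [one_smul] at h3
  exact hN.uniq D ha has hs h3

theorem HH.e1 (D : SD B) (hn : 3 ≤ finrank F V) (hN : NT L) (hH : HH L) {a b p : V} (ha : PA L a)
    (hb : PA L b) (hab : B a b = 1) (hp : PA L p) (hap : B a p = 1) {c : F}
    (h : rho B a (p + b) c ∈ L) : c = B b p := by
  have h1 := hp.map D h
  have e1 : (rho B a (p + b) c).1 p = b + (c + B b p) • a := by
    rw [rap D (by simp [hab, hap, CharTwo.add_self_eq_zero])]
    simp only [map_add, LinearMap.add_apply, hap, slf D, mul_one, one_smul, zero_add]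
    linear_combination (norm := module) vv F p
  rw [e1] at h1
  exact eq_of_add (hH.e0 D hn hN ha hb hab h1)

theorem HH.f3 (D : SD B) (hn : 3 ≤ finrank F V) (hN : NT L) (hH : HH L) {a b s t : V} (ha : PA L a)
    (hb : PA L b) (hab : B a b = 1) (has : B a s = 0) (hbs : B b s = 0) {γ : F} (hγ : γ ≠ 0)
    (h : rho B a s γ ∈ L) (hat : B a t = 0) (hbt : B b t = 0) (hst : B s t = 0) {c : F}
    (hc : rho B a t c ∈ L) : rho B b (γ⁻¹ • t) (c * (γ⁻¹ * γ⁻¹)) ∈ L := by
  have hba : B b a = 1 := by rw [sym D, hab]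
  obtain ⟨d, hd⟩ := hb.2 (γ⁻¹ • s) (by simp [hbs])
  have h1 := (hb.map D h).map D hd
  have e1 : (rho B b (γ⁻¹ • s) d).1 ((rho B a s γ).1 b) = (1 + d * γ) • b + γ • a := by
    rw [rap D has, rap D (by simp [hbs])]
    simp only [map_add, map_smul, LinearMap.map_smulₛₗ₂, LinearMap.smul_apply, hab, hba, slf D,
      sym D a s, sym D b s, has, hbs, smul_eq_mul, mul_zero,
      add_zero, mul_one, one_smul, zero_add, smul_smul, mul_inv_cancel₀ hγ]
    linear_combination (norm := module) vv F s
  rw [e1] at h1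
  have h2 : 1 + d * γ = 0 := by
    by_contra h2
    have h3 := h1.smul D (inv_ne_zero h2)
    rw [smul_add, smul_smul, smul_smul, inv_mul_cancel₀ h2, one_smul] at h3
    exact mul_ne_zero (inv_ne_zero h2) hγ (hH.e0 D hn hN ha hb hab h3)
  have h3 : d = γ⁻¹ := eq_inv_of_mul_eq_one_left (eq_of_add h2).symm
  subst h3
  have h4 := conj_mem D h (conj_mem D hd hc)
  have e2 : (rho B a s γ).1 ((rho B b (γ⁻¹ • s) γ⁻¹).1 a) = γ⁻¹ • b := by
    rw [rap D has, rap D (by simp [hbs])]
    simp only [map_add, map_smul, LinearMap.map_smulₛₗ₂, LinearMap.smul_apply, hab, hba, slf D,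
      sym D a s, sym D b s, has, hbs, smul_eq_mul, mul_zero,
      add_zero, mul_one, one_smul, zero_add, smul_smul, mul_inv_cancel₀ hγ]
    linear_combination (norm := module) vv F (γ⁻¹ • s) + vv F a
  rw [e2, rho_apply_of_perp D _ hbt (by simp [hst]), rho_apply_of_perp D _ hat hst,
    rsmul D hbt] at h4
  exact h4

theorem HH.hom0 (D : SD B) (hn : 3 ≤ finrank F V) (hN : NT L) (hH : HH L) {a b s : V} (ha : PA L a)
    (hb : PA L b) (hab : B a b = 1) (has : B a s = 0) (hbs : B b s = 0) {c : F}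
    (h : rho B a s c ∈ L) (l : F) : rho B a (l • s) (c * (l * l)) ∈ L := by
  rcases hH.line D ha hb hab has hbs with H | H
  · rw [hN.uniq D ha has h (by simpa using H 1), zero_mul]
    exact H l
  by_cases hl : l = 0
  · rw [hl, zero_smul, mul_zero, mul_zero, rho_zero D]; exact L.one_mem
  obtain ⟨c', hc'⟩ := ha.2 (l • s) (by simp [has])
  obtain ⟨x, hx⟩ := H 1
  obtain ⟨y, hy⟩ := H l⁻¹
  have h1 := hH.f3 D hn hN ha hb hab (by simp [has]) (by simp [hbs]) one_ne_zero hx
    (by simp [has]) (by simp [hbs]) (by simp [slf D]) hc'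
  have h2 := hH.f3 D hn hN ha hb hab (by simp [has]) (by simp [hbs]) (inv_ne_zero hl) hy
    has hbs (by simp [slf D]) h
  rw [inv_one, one_smul, mul_one, mul_one] at h1
  rw [inv_inv] at h2
  rwa [hN.uniq D hb (by simp [hbs]) h2 h1]

theorem HH.hom (D : SD B) (hn : 3 ≤ finrank F V) (hN : NT L) (hH : HH L) {a b s : V} (ha : PA L a)
    (hb : PA L b) (hab : B a b = 1) (has : B a s = 0) {c : F}
    (h : rho B a s c ∈ L) (l : F) : rho B a (l • s) (c * (l * l)) ∈ L := by
  rw [← radd D has c (B b s)] at h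
  have := hH.hom0 D hn hN ha hb hab (by simp [has, slf D])
    (by simp [sym D a b, hab, CharTwo.add_self_eq_zero]) h l
  rwa [smul_add, smul_smul, radd D (by simp [has])] at this

theorem HH.exists_form (D : SD B) (hn : 3 ≤ finrank F V) (hI : Irr L) (hN : NT L) (hH : HH L)
    {a : V} (ha : PA L a) : ∃ Q : QuadraticForm F V, (∀ x y, polar Q x y = B x y) ∧ Q a = 0 ∧
      (∀ g ∈ L, ∀ v, Q (g.1 v) = Q v) ∧ ∀ p s, Q p = 0 → B p s = 0 → rho B p s (Q s) ∈ L := by
  classical
  have hP : ∀ p, PA L p → ∀ g ∈ L, PA L (g.1 p) := fun p hp g hg => hp.map D hg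
  have hs : ∀ p, PA L p → ∀ c : F, c ≠ 0 → PA L (c • p) := fun p hp c hc => hp.smul D hc
  obtain ⟨b, hb, hab⟩ := hI.partner D hP hs ha ha.1 ha.1 one_ne_zero
  have hba : B b a = 1 := by rw [sym D, hab]
  have hpr : ∀ v, B a (v + B a v • b) = 0 := fun v => by simp [hab, CharTwo.add_self_eq_zero]
  choose q hq using fun v => ha.2 _ (hpr v)
  have hadd : ∀ x y, q (x + y) + B a (x + y) * B b (x + y) =
      q x + B a x * B b x + (q y + B a y * B b y) + B x y := fun x y => by
    have h1 := mul_mem D (hpr x) (hpr y) (hq x) (hq y)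
    rw [show x + B a x • b + (y + B a y • b) = x + y + B a (x + y) • b by
      rw [map_add]; module] at h1
    rw [hN.uniq D ha (hpr _) (hq (x + y)) h1]
    simp only [map_add, map_smul, LinearMap.map_smulₛₗ₂, LinearMap.add_apply, LinearMap.smul_apply,
      slf D, sym D b x, smul_eq_mul, RingHom.id_apply]
    linear_combination (B a x * B b y + B a y * B b x) * CharTwo.two_eq_zero (R := F)
  have hpol : ∀ x y, polar (fun v => q v + B a v * B b v) x y = B x y := fun x y => by
    simp only [polar]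
    rw [hadd]; ring
  let Q : QuadraticForm F V := QuadraticMap.ofPolar (fun v => q v + B a v * B b v)
    (fun l x => by
      have h1 := hH.hom D hn hN ha hb hab (hpr x) (hq x) l
      rw [show l • (x + B a x • b) = l • x + B a (l • x) • b by
        rw [map_smul, smul_eq_mul]; module] at h1
      rw [hN.uniq D ha (hpr _) (hq (l • x)) h1]
      simp only [map_smul, smul_eq_mul]; ring)
    (fun x x' y => by simp only [hpol, map_add, LinearMap.add_apply])
    (fun l x y => by simp [hpol])
  have hQ : ∀ v, Q v = q v + B a v * B b v := fun _ => rfl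
  have hpol' : ∀ x y, polar Q x y = B x y := hpol
  have sing : ∀ p, PA L p → Q p = 0 := fun p hp => by
    by_cases h : B a p = 0
    · have h1 := hH a p ha hp h 1
      have h2 := hq p
      rw [one_smul] at h1
      rw [h, zero_smul, add_zero] at h2
      rw [hQ, hN.uniq D ha h h2 h1, h, zero_mul, add_zero]
    · have h1 : Q ((B a p)⁻¹ • p) = 0 := by
        have hp' := hp.smul D (inv_ne_zero h)
        have h2 : B a ((B a p)⁻¹ • p) = 1 := by simp [h]
        generalize (B a p)⁻¹ • p = p' at *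
        have h3 := hq p'
        rw [h2, one_smul] at h3
        rw [hQ, hH.e1 D hn hN ha hb hab hp' h2 h3, h2, one_mul, CharTwo.add_self_eq_zero]
      rw [H13.Q_smul] at h1
      simpa [h] using h1
  have inv : ∀ g ∈ L, ∀ v, Q (g.1 v) = Q v := fun g hg v => by
    have hv : v ∈ Submodule.span F {p | PA L p} := by rw [hI.span hP ha ha.1]; trivial
    induction hv using Submodule.span_induction with
    | mem x hx => rw [sing x hx, sing _ (hP x hx g hg)]
    | zero => simp
    | add x y _ _ hx hy => rw [map_add, H13.Q_add, H13.Q_add, hx, hy, hpol', hpol', UG_map]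
    | smul c x _ hx => rw [map_smul, H13.Q_smul, H13.Q_smul, hx]
  have all : ∀ v, v ≠ 0 → Q v = 0 → PA L v := fun v hv hv0 => by
    obtain ⟨p, hp, h⟩ := hI.ex D hP ha ha.1 hv
    obtain ⟨p', hp', h'⟩ := hI.partner D hP hs ha ha.1 hp.1 h
    have h1 : B p ((B p v)⁻¹ • (v + p')) = 0 := by simp [h', CharTwo.add_self_eq_zero]
    obtain ⟨c, hc⟩ := hp.2 _ h1
    obtain ⟨e, he⟩ : ∃ e : F, (rho B p ((B p v)⁻¹ • (v + p')) c).1 p' = v + e • p := by
      rw [rap D h1, h', smul_smul, mul_inv_cancel₀ h, one_smul, add_comm v, ← add_assoc, vv F,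
        zero_add]
      exact ⟨_, rfl⟩
    have h2 := inv _ hc p'
    rw [he, sing p' hp', H13.Q_add, H13.Q_smul, sing p hp, hv0, hpol', map_smul, sym D p v] at h2
    have h3 : e = 0 := by simpa [h] using h2
    have := hP p' hp' _ hc
    rwa [he, h3, zero_smul, add_zero] at this
  refine ⟨Q, hpol', sing a ha, inv, fun p s hp hps => ?_⟩
  by_cases h0 : p = 0
  · have : rho B p s (Q s) = 1 := UG_ext fun x => by rw [rap D hps]; simp [h0]
    rw [this]; exact L.one_mem
  obtain ⟨c, hc⟩ := (all p h0 hp).2 s hps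
  obtain ⟨v, -, hv⟩ := hI.partner D hP hs ha ha.1 h0 one_ne_zero
  have h1 := inv _ hc v
  rw [rap D hps, H13.Q_add, H13.Q_add, H13.Q_smul, H13.Q_smul, hp, hpol', hpol'] at h1
  simp only [hv, map_add, map_smul, LinearMap.add_apply, smul_eq_mul, one_smul, sym D p v,
    sym D p s, hps, sym D s v, mul_one, add_zero] at h1
  have h2 : Q s = c := eq_of_add (by
    linear_combination h1 - B s v * CharTwo.two_eq_zero (R := F))
  rwa [h2]

end Cfsg.Agent.H18.Yx
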