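import Cfsg.Agent.H18.YxB
import Cfsg.Agent.H14.Or1

/-! Overgroups of the Siegel elements in even characteristic. -/

namespace Cfsg.Agent.H18.Yx
open Cfsg.Agent.H13 Module QuadraticMap

variable {F V : Type*} [Field F] [AddCommGroup V] [Module F V] {Q : QuadraticForm F V}

theorem nd_prod (hQ : ND Q) : ND (Q.prod Q) := fun x hx => by
  refine Prod.ext (hQ _ fun y => ?_) (hQ _ fun y => ?_)
  · simpa [polar_prod] using hx (y, 0)
  · simpa [polar_prod] using hx (0, y)

/-- `g ↦ g ⊕ 1` -/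
def dbl (Q : QuadraticForm F V) : OG Q →* OG (Q.prod Q) where
  toFun g := ⟨g.1.prodCongr (LinearEquiv.refl F V), fun v => by simp⟩
  map_one' := OG_ext fun _ => rfl
  map_mul' _ _ := OG_ext fun _ => rfl

theorem dbl_apply (g : OG Q) (x : V × V) : (dbl Q g).1 x = (g.1 x.1, x.2) := rfl

theorem rk_dbl (g : OG Q) : rk (dbl Q g) = rk g := by
  have : LinearMap.range (subOne (dbl Q g)) =
      (LinearMap.range (subOne g)).map (LinearMap.inl F V V) := by
    ext x
    simp only [LinearMap.mem_range, Submodule.mem_map, subOne_apply, dbl_apply]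
    constructor
    · rintro ⟨y, rfl⟩
      exact ⟨_, ⟨y.1, rfl⟩, by ext <;> simp⟩
    · rintro ⟨_, ⟨y, rfl⟩, rfl⟩
      exact ⟨(y, 0), by ext <;> simp⟩
  rw [rk, this, rk]
  exact (LinearEquiv.finrank_eq (Submodule.equivMapOfInjective _ LinearMap.inl_injective _)).symm

theorem dbl_sieg (u a : V) : dbl Q (sieg Q u a) = sieg (Q.prod Q) (u, 0) (a, 0) := by
  by_cases h : Q u = 0 ∧ polar Q u a = 0
  · refine OG_ext fun x => ?_
    rw [dbl_apply, sieg_apply h.1 h.2, sieg_apply (by simp [h.1]) (by simp [polar_prod, h.2])]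
    ext <;> simp [polar_prod]
  · rw [sieg_of_not h, sieg_of_not (by simpa [polar_prod] using h), map_one]

variable [FiniteDimensional F V]

theorem exists_dk (hQ : ND Q) (hn : 3 ≤ finrank F V) : ∃ d : OG Q →* ℤˣ,
    (∀ g, d g = 1 ↔ Even (rk g)) ∧ (∀ u a, d (sieg Q u a) = 1) ∧
      ∀ v, Q v ≠ 0 → d (refl Q v) = -1 := by
  have hG : Good (Q.prod Q) := Or.inr (Or.inl (by rw [finrank_prod]; omega))
  refine ⟨(dickson (nd_prod hQ) hG).comp (dbl Q), fun g => ?_, fun u a => ?_, fun v hv => ?_⟩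
  · rw [MonoidHom.comp_apply, dickson_eq_one_iff, rk_dbl]
  · rw [MonoidHom.comp_apply, dbl_sieg]
    exact Abelianization.commutator_subset_ker _ ((nd_prod hQ).sieg_mem_commutator hG _ _)
  · rw [MonoidHom.comp_apply, dickson_apply, rk_dbl, hQ.rk_refl hv, pow_one]

variable [CharP F 2] [Finite F]

theorem refl_mul_mem (hQ : ND Q) (hn : 3 ≤ finrank F V) {a : V} (ha : Q a = 0) (h0 : a ≠ 0) :
    ∃ s, Q s ≠ 0 ∧ ∀ v, Q v ≠ 0 → refl Q s * refl Q v ∈ H14.SG Q := by
  obtain ⟨b, hab⟩ := hQ.exists_hp ha h0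
  have h1 := hab.finrank_pp
  haveI : Nontrivial (pp Q a b) := Module.nontrivial_of_finrank_pos (R := F) (by omega)
  obtain ⟨s, hs⟩ := (hab.nd_pp hQ).exists_ne_zero
  replace hs : Q s ≠ 0 := hs
  have r1 : ∀ {u w : V}, Q u = 0 → polar Q u w = 0 → Q w ≠ 0 → ∀ μ : F,
      refl Q w * refl Q (w + μ • u) ∈ H14.SG Q := fun {u w} hu huw hw μ => by
    have := sieg_eq_refl_mul_refl (Q := Q) (u := (-μ / Q w) • u) (a := w)
      (by rw [Q_smul, hu, mul_zero]) (by simp [huw]) hw
    rw [smul_smul, mul_div_cancel₀ _ hw, neg_smul, sub_neg_eq_add] at this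
    rw [← this]; exact H14.sieg_mem_SG _ _
  have r2 : ∀ w : pp Q a b, Q w ≠ 0 → ∀ v, Q v ≠ 0 → polar Q a v ≠ 0 →
      refl Q w * refl Q v ∈ H14.SG Q := fun w hw v hv hav => by
    obtain ⟨μ, hμ⟩ := exists_sq (Q w / Q v)
    have hμ0 : μ ≠ 0 := by rintro rfl; exact div_ne_zero hw hv (by simpa using hμ.symm)
    have h2 := r1 hab.Qv (pp_right w) hw (μ * polar Q a v)
    have h3 := H14.sieg_map (Q := Q) (u := a) (x := w + (μ * polar Q a v) • b) (y := μ • v) ha
      (by rw [Q_add, Q_smul, Q_smul, hab.Qv, pow_two μ, hμ]; simp [pp_right' w, hv])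
      (by simp [pp_left w, hab.uv]) (by simp [pp_left w, hab.uv, hμ0, hav])
    generalize hg : sieg Q a _ = g at h3
    have hg' : g ∈ H14.SG Q := hg ▸ H14.sieg_mem_SG _ _
    rw [← refl_smul hμ0 v, ← h3, ← conj_refl]
    set x := refl Q (w + (μ * polar Q a v) • b)
    have : refl Q w * (g * x * g⁻¹) = (refl Q w * g * (refl Q w)⁻¹) * (refl Q w * x) * g⁻¹ := by
      group
    rw [this]
    exact Subgroup.mul_mem _ (Subgroup.mul_mem _ (Subgroup.Normal.conj_mem inferInstance _ hg' _) h2) (inv_mem hg')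
  refine ⟨s, hs, fun v hv => ?_⟩
  by_cases hav : polar Q a v = 0
  · obtain ⟨c, w, rfl⟩ := hab.exists_eq_of_perp hav
    have hw : Q w ≠ 0 := by
      rwa [Q_add, Q_smul, ha, polar_smul_left, pp_left w, mul_zero, smul_zero, zero_add,
        add_zero] at hv
    have hba : Q (b + a) ≠ 0 := by rw [Q_add, ha, hab.Qv, hab.vu]; simp
    have hba' : polar Q a (b + a) ≠ 0 := by simp [hab.uv, hab.uu]
    have h2 := r2 s hs _ hba hba'
    have h3 := r2 w hw _ hba hba'
    have h4 := r1 ha (pp_left w) hw c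
    have : refl Q s * refl Q (c • a + w) =
        (refl Q s * refl Q (b + a)) * (refl Q w * refl Q (b + a))⁻¹ * (refl Q w * refl Q (w + c • a)) := by
      rw [add_comm (c • a)]; group
    rw [this]
    exact Subgroup.mul_mem _ (Subgroup.mul_mem _ h2 (inv_mem h3)) h4
  · exact r2 s hs v hv hav

theorem ortho_end (hQ : ND Q) (hn : 3 ≤ finrank F V) {a : V} (ha : Q a = 0) (h0 : a ≠ 0)
    (M : Subgroup (OG Q)) (hM : ∀ u s, sieg Q u s ∈ M) : M = ⊤ ∨ ∀ g, g ∈ M ↔ Even (rk g) := by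
  obtain ⟨s, hs, H⟩ := refl_mul_mem hQ hn ha h0
  obtain ⟨d, d1, d2, d3⟩ := exists_dk hQ hn
  have hS : H14.SG Q ≤ M := (Subgroup.closure_le _).mpr (by rintro _ ⟨u, a, rfl⟩; exact hM u a)
  have hS' : H14.SG Q ≤ d.ker := (Subgroup.closure_le _).mpr (by rintro _ ⟨u, a, rfl⟩; exact d2 u a)
  have hall : ∀ g, g ∈ H14.SG Q ∨ refl Q s * g ∈ H14.SG Q := fun g => by
    have := hQ.eq_top_of_refl_sieg (Subgroup.zpowers (refl Q s) ⊔ H14.SG Q) (fun v => by
      by_cases hv : Q v = 0
      · rw [refl_of_singular hv]; exact one_mem _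
      · have : refl Q v = refl Q s * (refl Q s * refl Q v) := by
          rw [← mul_assoc, refl_mul_self, one_mul]
        rw [this]
        exact Subgroup.mul_mem _ (Subgroup.mem_sup_left (Subgroup.mem_zpowers _))
          (Subgroup.mem_sup_right (H v hv)))
      fun u a => Subgroup.mem_sup_right (H14.sieg_mem_SG u a)
    have hg : g ∈ Subgroup.zpowers (refl Q s) ⊔ H14.SG Q := by rw [this]; trivial
    obtain ⟨y, ⟨k, rfl⟩, z, hz, rfl⟩ := Subgroup.mem_sup_of_normal_right.mp hg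
    have h2 : refl Q s ^ (2 : ℤ) = 1 := by rw [zpow_two, refl_mul_self]
    rcases Int.emod_two_eq_zero_or_one k with hk | hk
    · left
      simp only [zpow_eq_zpow_emod k h2, hk, zpow_zero, one_mul, hz]
    · right
      simp only [zpow_eq_zpow_emod k h2, hk, zpow_one, ← mul_assoc, refl_mul_self, one_mul, hz]
  by_cases hr : refl Q s ∈ M
  · refine Or.inl (eq_top_iff.mpr fun g _ => ?_)
    rcases hall g with h | h
    · exact hS h
    · exact (M.mul_mem_cancel_left hr).mp (hS h)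
  · refine Or.inr fun g => ?_
    rw [← d1]
    rcases hall g with h | h
    · exact iff_of_true (hS h) (hS' h)
    · refine iff_of_false (fun hg => hr ((M.mul_mem_cancel_right hg).mp (hS h))) fun hg => ?_
      have := hS' h
      rw [MonoidHom.mem_ker, map_mul, d3 s hs, hg] at this
      exact absurd this (by decide)

end Cfsg.Agent.H18.Yx
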