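import Cfsg.Agent.H18.YxC

/-! The exceptional configuration over the field of two elements, the structure of the radical,
and the abstract classification. -/

namespace Cfsg.Agent.H18.Yx
open Cfsg.Agent.H12 Module QuadraticMap MulAction

variable {F V : Type*} [Field F] [CharP F 2] [AddCommGroup V] [Module F V]
  {B : V →ₛₗ[RingHom.id F] V →ₗ[F] F} {L : Subgroup (UG B)} [FiniteDimensional F V] [Finite F]

theorem dvd_card (D : SD B) (hI : Irr L) (hF : ∀ x : F, x ≠ 0 → x = 1) (hV : Nat.card V = 16)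
    {a u : V} (ha : PA L a) (hau : B a u = 0) (hu : u ∉ F ∙ a) (hy : rho B u a 1 ∈ L) :
    120 ∣ Nat.card L := by
  haveI : Finite V := Module.finite_of_finite F
  obtain ⟨b, hab, hub⟩ := exists_two D ha.1 hu 1 0
  have hua : B u a = 0 := by rw [sym D, hau]
  have hx := key1 D ha hau hu (l := 1) (k := 1) (by rwa [one_smul]) 1
  simp only [mul_one, one_smul] at hx
  have T0 : ∀ v, B a v = 1 → ∃ g ∈ L, g.1 a = a ∧ g.1 b = v := fun v hv => by
    have h1 : B a (v + b) = 0 := by simp [hv, hab, CharTwo.add_self_eq_zero]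
    obtain ⟨c, hc⟩ := ha.2 _ h1
    have h2 : (rho B a (v + b) c).1 b = v + (c + B v b) • a := by
      rw [rap D h1, hab, one_smul, add_comm v, ← add_assoc, vv F, zero_add]
      simp [slf D]
    by_cases he : c + B v b = 0
    · exact ⟨_, hc, rho_apply_self D _ _ _, by rw [h2, he, zero_smul, add_zero]⟩
    · refine ⟨_, L.mul_mem hc (L.mul_mem hx hy), ?_, ?_⟩
      · rw [UG_mul_apply, UG_mul_apply, rho_apply_of_perp D _ hua (slf D a), rho_apply_self D,
          rho_apply_self D]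
      · have h3 : (rho B a u 1).1 ((rho B u a 1).1 b) = b + a := by
          rw [rap D hua, rap D hau]
          simp only [map_add, map_smul, hab, hub, hua, hau, slf D, smul_eq_mul, mul_zero, zero_add,
            zero_smul, add_zero, one_smul, mul_one]
          linear_combination (norm := module) vv F u
        rw [UG_mul_apply, UG_mul_apply, h3, map_add, h2, hF _ he, rho_apply_self D, one_smul,
          add_assoc, vv F, add_zero]
  have T1 : ∀ v w, B a v = 1 → B a w = 1 → ∃ g ∈ L, g.1 v = w := fun v w hv hw => by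
    obtain ⟨g, hg, -, rfl⟩ := T0 v hv
    obtain ⟨h, hh, -, rfl⟩ := T0 w hw
    exact ⟨h * g⁻¹, L.mul_mem hh (L.inv_mem hg), by simp⟩
  have T2 : ∀ v, v ≠ 0 → ∃ g ∈ L, g.1 a = v := fun v hv => by
    have hP : ∀ p, (∃ g ∈ L, g.1 a = p) → ∀ h ∈ L, ∃ g ∈ L, g.1 a = h.1 p := by
      rintro _ ⟨g, hg, rfl⟩ h hh
      exact ⟨h * g, L.mul_mem hh hg, rfl⟩
    obtain ⟨_, ⟨g, hg, rfl⟩, h1⟩ := hI.ex D hP ⟨1, L.one_mem, rfl⟩ ha.1 hv
    obtain ⟨_, ⟨k, hk, rfl⟩, h2⟩ := hI.ex D hP ⟨1, L.one_mem, rfl⟩ ha.1 (UG_ne_zero g ha.1)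
    rw [sym D] at h2
    rw [UG_map_left] at h1 h2
    obtain ⟨h, hh, e⟩ := T1 _ _ (hF _ h2) (hF _ h1)
    refine ⟨g * h * g⁻¹ * k, L.mul_mem (L.mul_mem (L.mul_mem hg hh) (L.inv_mem hg)) hk, ?_⟩
    simp only [UG_mul_apply, e, UG_apply_inv]
  have o1 : orbit L a = {0}ᶜ := by
    ext v
    refine ⟨?_, fun hv => ?_⟩
    · rintro ⟨g, rfl⟩; exact UG_ne_zero g.1 ha.1
    · obtain ⟨g, hg, e⟩ := T2 v hv
      exact ⟨⟨g, hg⟩, e⟩
  have o2 : orbit (stabilizer L a) b = {v | B a v = 1} := by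
    ext v
    refine ⟨?_, fun hv => ?_⟩
    · rintro ⟨g, rfl⟩
      have h1 : g.1.1.1 a = a := g.2
      change B a (g.1.1.1 b) = 1
      have h2 := UG_map g.1.1 a b
      rwa [h1, hab] at h2
    · obtain ⟨g, hg, e, e'⟩ := T0 v hv
      exact ⟨⟨⟨g, hg⟩, e⟩, e'⟩
  have c1 : (orbit L a).ncard = 15 := by
    have := Set.ncard_add_ncard_compl ({0} : Set V)
    rw [o1]; simp only [Set.ncard_singleton, hV] at this; omega
  have c2 : (orbit (stabilizer L a) b).ncard = 8 := by
    have h1 := Set.ncard_add_ncard_compl {v | B a v = 1}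
    have h2 : {v | B a v = 1}ᶜ = (fun v => v + b) '' {v | B a v = 1} := by
      ext v
      simp only [Set.mem_compl_iff, Set.mem_setOf_eq, Set.mem_image]
      constructor
      · intro h
        have h0 : B a v = 0 := by by_contra h0; exact h (hF _ h0)
        exact ⟨v + b, by simp [h0, hab], by rw [add_assoc, vv F, add_zero]⟩
      · rintro ⟨w, hw, rfl⟩
        simp [hw, hab]
    rw [h2, Set.ncard_image_of_injective _ (add_left_injective b), hV] at h1
    rw [o2]; omega
  rw [← index_stabilizer] at c1 c2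
  have h1 := (stabilizer L a).index_mul_card
  have h2 := (stabilizer (stabilizer L a) b).index_dvd_card
  rw [c2] at h2
  rw [← h1, c1]
  exact Nat.mul_dvd_mul_left 15 h2

theorem eq_rho (D : SD B) (hn : 3 ≤ finrank F V) {a : V} (ha : a ≠ 0) (N : Subgroup (UG B))
    (hp : IsPGroup 2 N) (hN : ∀ x ∈ N, x.1 a = a)
    (hc : ∀ h : UG B, h.1 a = a → ∀ x ∈ N, h⁻¹ * x * h ∈ N) (x : UG B) (hx : x ∈ N) :
    ∃ s c, B a s = 0 ∧ x = rho B a s c := by
  haveI : Finite V := Module.finite_of_finite F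
  obtain ⟨b, hab⟩ : ∃ b, B a b = 1 := by
    obtain ⟨y, hy⟩ := D.exists_ne ha
    exact ⟨(B a y)⁻¹ • y, by simp [hy]⟩
  have hba : B b a = 1 := by rw [sym D, hab]
  have hB : ∀ x ∈ N, ∀ v, B a (x.1 v) = B a v := fun x hx v => by
    nth_rewrite 1 [← hN x hx]; exact UG_map _ _ _
  let W := sperp B (Submodule.span F {a, b})
  letI : MulAction N W :=
    { smul := fun x w => ⟨x.1.1 w + B b (x.1.1 w) • a, mem_sperp_pair.mpr
        ⟨by simp [hB x x.2, slf D, (mem_sperp_pair.mp w.2).1],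
          by simp [hba, CharTwo.add_self_eq_zero]⟩⟩
      one_smul := fun w => Subtype.ext (by
        change w.1 + B b w.1 • a = w.1
        rw [(mem_sperp_pair.mp w.2).2, zero_smul, add_zero])
      mul_smul := fun x y w => Subtype.ext (by
        change x.1.1 (y.1.1 w) + B b (x.1.1 (y.1.1 w)) • a =
          x.1.1 (y.1.1 w + B b (y.1.1 w) • a) + B b (x.1.1 (y.1.1 w + B b (y.1.1 w) • a)) • a
        simp only [map_add, map_smul, hN x x.2, hba, smul_eq_mul, mul_one]
        linear_combination (norm := module) -vv F (B b (y.1.1 w) • a)) }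
  have hsm : ∀ (x : N) (w : W), ((x • w : W) : V) = x.1.1 w + B b (x.1.1 w) • a := fun _ _ => rfl
  obtain ⟨s, hs0, has, hbs⟩ := exists_perp D hn a b
  have h2 : 2 ∣ Nat.card W := by
    have : addOrderOf (⟨s, mem_sperp_pair.mpr ⟨has, hbs⟩⟩ : W) = 2 :=
      addOrderOf_eq_prime (by rw [two_smul]; exact vv F _) (fun h => hs0 (congrArg Subtype.val h))
    rw [← this]; exact addOrderOf_dvd_natCard _
  obtain ⟨w, hw, hw0⟩ := hp.exists_fixed_point_of_prime_dvd_card_of_fixed_point W h2 (a := 0)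
    (fun x => Subtype.ext (by rw [hsm]; simp))
  obtain ⟨haw, hbw⟩ := mem_sperp_pair.mp w.2
  have hwa : (w : V) ∉ F ∙ a := fun h => by
    obtain ⟨c, hc⟩ := Submodule.mem_span_singleton.mp h
    rw [← hc] at hbw
    have : c = 0 := by simpa [hba] using hbw
    exact hw0 (Subtype.ext (by rw [← hc, this, zero_smul]; rfl))
  have triv : ∀ v, B a v = 0 → ∃ μ : F, x.1 v = v + μ • a := fun v hv => by
    by_cases h : v ∈ F ∙ a
    · obtain ⟨c, rfl⟩ := Submodule.mem_span_singleton.mp h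
      exact ⟨0, by rw [map_smul, hN x hx, zero_smul, add_zero]⟩
    obtain ⟨g, hg⟩ := D.witt (H13.linearIndependent_pair_of_notMem ha hwa)
      (H13.linearIndependent_pair_of_notMem ha h) (fun i j => by
        fin_cases i <;> fin_cases j <;> simp [slf D, hv, haw, sym D a v, sym D a w])
    have g0 : g.1 a = a := hg 0
    have g1 : g.1 w = v := hg 1
    have h1 := congrArg (fun z : W => g.1 z) (hw ⟨_, hc g g0 x hx⟩)
    simp only [hsm, UG_mul_apply, map_add, map_smul, UG_apply_inv, g0, g1] at h1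
    generalize B b _ = e at h1
    exact ⟨e, by linear_combination (norm := module) h1 - vv F (e • a)⟩
  have hs : B a (x.1 b + b) = 0 := by simp [hB x hx, hab, CharTwo.add_self_eq_zero]
  refine ⟨x.1 b + b, B (x.1 b) b, hs, UG_ext fun v => ?_⟩
  obtain ⟨μ, hμ⟩ := triv (v + B a v • b) (by simp [hab, CharTwo.add_self_eq_zero])
  have h1 := UG_map x b (v + B a v • b)
  rw [hμ] at h1
  have h3 : B (x.1 b) a = 1 := by rw [sym D, hB x hx, hab]
  simp only [map_add, map_smul, slf D, h3, smul_eq_mul, mul_one, mul_zero, add_zero] at h1 hμ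
  rw [rap D hs]
  have h4 : μ = B (x.1 b) b * B a v + B (x.1 b + b) v := by
    simp only [map_add, LinearMap.add_apply]
    linear_combination h1 - (B (x.1 b) v + B a v * B (x.1 b) b) * CharTwo.two_eq_zero (R := F)
  rw [← h4]
  linear_combination (norm := module) hμ - vv F (B a v • x.1 b)

theorem pa_of_card (D : SD B) {a : V} (ha : a ≠ 0) (X : Subgroup (UG B))
    (hX : ∀ x ∈ X, ∃ s c, B a s = 0 ∧ x = rho B a s c)
    (hc : Nat.card X = Nat.card F ^ (finrank F V - 2)) (ht : ∀ k, rho B a 0 k ∈ X → k = 0) :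
    PA X a := by
  haveI : Finite V := Module.finite_of_finite F
  obtain ⟨b, hab⟩ : ∃ b, B a b = 1 := by
    obtain ⟨y, hy⟩ := D.exists_ne ha
    exact ⟨(B a y)⁻¹ • y, by simp [hy]⟩
  have hba : B b a = 1 := by rw [sym D, hab]
  let W := sperp B (Submodule.span F {a, b})
  have hW : finrank F W = finrank F V - 2 := by
    have h1 := D.finrank_sperp (Submodule.span F {a, b})
    rw [H13.finrank_span_pair_eq (H13.linearIndependent_pair_of_notMem ha fun h => by
      obtain ⟨c, rfl⟩ := Submodule.mem_span_singleton.mp h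
      simp [slf D] at hab)] at h1
    exact Nat.eq_sub_of_add_eq h1
  have hX' : ∀ x : X, ∃ (w : W) (c : F), x.1 = rho B a w c := fun x => by
    obtain ⟨s, c, hs, e⟩ := hX x x.2
    exact ⟨⟨s + B b s • a, mem_sperp_pair.mpr ⟨by simp [hs, slf D],
      by simp [hba, CharTwo.add_self_eq_zero]⟩⟩, c, by rw [e, radd D hs]⟩
  choose φ c hφ using hX'
  have hinj : Function.Injective φ := fun x y h => by
    have h0 := (mem_sperp_pair.mp (φ y).2).1
    have h1 := hφ x
    rw [h] at h1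
    have h2 := mul_mem D h0 h0 (h1 ▸ x.2) (hφ y ▸ y.2)
    rw [vv F, slf D, add_zero] at h2
    exact Subtype.ext (by rw [h1, hφ y, eq_of_add (ht _ h2)])
  have hsurj := (hinj.bijective_of_nat_card_le (by
    rw [hc, H13.card_eq_pow (F := F), hW])).2
  refine ⟨ha, fun s hs => ?_⟩
  obtain ⟨x, hx⟩ := hsurj ⟨s + B b s • a, mem_sperp_pair.mpr ⟨by simp [hs, slf D],
      by simp [hba, CharTwo.add_self_eq_zero]⟩⟩
  refine ⟨c x, ?_⟩
  have := hφ x ▸ x.2
  rwa [hx, radd D hs] at this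

theorem main (D : SD B) (hn : 4 ≤ finrank F V) (hI : Irr L) {a : V} (ha : PA L a) :
    L = ⊤ ∨ (∃ Q : QuadraticForm F V, (∀ x y, polar Q x y = B x y) ∧
      ((∀ g : UG B, g ∈ L ↔ ∀ v, Q (g.1 v) = Q v) ∨ ∀ g : UG B, g ∈ L ↔ (∀ v, Q (g.1 v) = Q v) ∧
        Even (finrank F (LinearMap.range ((g.1 : V →ₗ[F] V) - LinearMap.id))))) ∨
      (Nat.card F = 2 ∧ finrank F V = 4 ∧ 120 ∣ Nat.card L) := by
  by_cases hN : NT L
  swap
  · simp only [NT, not_forall] at hN
    obtain ⟨p, hp, k, hk, hk0⟩ := hN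
    exact Or.inl (eq_top_of_PT D (by omega) hI ⟨hp, k, hk0, hk⟩)
  refine Or.inr ?_
  by_cases hH : HH L
  · obtain ⟨Q, hQ, hQa, inv, hs⟩ := hH.exists_form D (by omega) hI hN ha
    have hnd : H13.ND Q := fun x hx => D.sep x fun y => by rw [← hQ, hx]
    have hle : H13.OG Q ≤ UG B := fun g hg x y => by
      rw [← hQ, ← hQ]; exact H13.OG_polar ⟨g, hg⟩ x y
    refine Or.inl ⟨Q, hQ, ?_⟩
    refine (ortho_end hnd (by omega) hQa ha.1 (L.comap (Subgroup.inclusion hle)) fun u s => ?_).imp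
      (fun h g => ⟨inv g, fun hg => ?_⟩) fun h g => ⟨fun hg => ⟨inv g hg, ?_⟩, fun hg => ?_⟩
    · by_cases h : Q u = 0 ∧ polar Q u s = 0
      · have h2 : B u s = 0 := by rw [← hQ, h.2]
        have : Subgroup.inclusion hle (H13.sieg Q u s) = rho B u s (Q s) := UG_ext fun x => by
          rw [rap D h2]
          change (H13.sieg Q u s).1 x = _
          rw [H13.sieg_apply h.1 h.2, hQ, hQ]
          linear_combination (norm := module) -vv F (B u x • (s + Q s • u))
        rw [Subgroup.mem_comap, this]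
        exact hs u s h.1 h2
      · rw [H13.sieg_of_not h]; exact one_mem _
    · have : (⟨g.1, hg⟩ : H13.OG Q) ∈ L.comap (Subgroup.inclusion hle) := by rw [h]; trivial
      exact this
    · exact (h ⟨g.1, inv g hg⟩).mp hg
    · exact (h ⟨g.1, hg.1⟩).mpr hg.2
  · have hF : ∀ x : F, x ≠ 0 → x = 1 := fun x hx => by
      by_contra h1; exact hH (hh_of_card D hN hx h1)
    have h4 : finrank F V = 4 := by
      by_contra h; exact hH (hh_of_dim D (by omega))
    have h2 : Nat.card F = 2 := by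
      rw [Nat.card_eq_two_iff' (0 : F)]
      exact ⟨1, one_ne_zero, fun y hy => hF y hy⟩
    refine Or.inr ⟨h2, h4, ?_⟩
    simp only [HH, not_forall] at hH
    obtain ⟨u, p, hu, hp, hup, μ, hμ⟩ := hH
    have hpu : p ∉ F ∙ u := fun h => hμ (hh_of_mem D h μ)
    have hμ0 : μ ≠ 0 := by
      rintro rfl; exact hμ (by rw [zero_smul, rho_zero D]; exact L.one_mem)
    rw [hF μ hμ0, one_smul] at hμ
    obtain ⟨c, hc⟩ := hu.2 p hup
    have hc0 : c ≠ 0 := by rintro rfl; exact hμ hc
    rw [hF c hc0] at hc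
    exact dvd_card D hI hF (by rw [H13.card_eq_pow (F := F), h2, h4]; rfl) hp
      (by rw [sym D, hup]) (not_mem_symm hu.1 hpu) hc

end Cfsg.Agent.H18.Yx
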