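import Cfsg.Agent.H18.YxD
import Cfsg.Agent.H12.SBridge
import Cfsg.Agent.S5945
import Cfsg.Agent.S0247

/-! Matrix form of the classification. -/

namespace Cfsg.Agent.H18.Yx
open Cfsg.Agent.H12 Module Matrix

theorem six_sub (H : Subgroup (Equiv.Perm (Fin 6))) (h : 120 ∣ Nat.card H) :
    H = ⊤ ∨ Nonempty (H ≃* alternatingGroup (Fin 6)) ∨ Nonempty (H ≃* Equiv.Perm (Fin 5)) := by
  have h1 := H.index_mul_card
  have h720 : Nat.card (Equiv.Perm (Fin 6)) = 720 := by
    rw [Nat.card_eq_fintype_card, Fintype.card_perm]; rfl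
  obtain ⟨k, hk⟩ := h
  rw [hk, h720] at h1
  have h2 : H.index ∣ 6 := ⟨k, by nlinarith⟩
  have h3 : H.index ≤ 6 := Nat.le_of_dvd (by norm_num) h2
  have h4 : H.index = 1 ∨ H.index = 2 ∨ H.index = 3 ∨ H.index = 6 := by
    generalize H.index = m at h2 h3
    interval_cases m <;> simp_all
  rcases h4 with h | h | h | h
  · exact Or.inl (Subgroup.index_eq_one.mp h)
  · exact Or.inr (Or.inl ⟨MulEquiv.subgroupCongr (Equiv.Perm.eq_alternatingGroup_of_index_eq_two h)⟩)
  · exfalso
    have h5 := normalCore_eq_bot (α := Fin 6) (by simp) (H := H) (by omega)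
    rw [Subgroup.normalCore_eq_ker, MonoidHom.ker_eq_bot_iff] at h5
    have h6 := Nat.card_le_card_of_injective _ h5
    rw [h720, Nat.card_perm, ← Subgroup.index, h] at h6
    exact absurd h6 (by decide)
  · exact Or.inr (Or.inr (S5945.result.2.1 H h))

variable {F : Type*} [Field F] {ι : Type} [Fintype ι] [DecidableEq ι]

/-- isometries as matrices -/
noncomputable def toM (B : (ι → F) →ₛₗ[RingHom.id F] (ι → F) →ₗ[F] F) : UG B →* GL ι F :=
  (glEq ι F).symm.toMonoidHom.comp (UG B).subtype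

variable {B : (ι → F) →ₛₗ[RingHom.id F] (ι → F) →ₗ[F] F}

theorem toM_inj : Function.Injective (toM B) :=
  (glEq ι F).symm.injective.comp Subtype.val_injective

theorem toM_mulVec (g : UG B) (v : ι → F) : (toM B g : Matrix ι ι F) *ᵥ v = g.1 v := by
  rw [← glEq_apply]
  exact congrFun (congrArg _ ((glEq ι F).apply_symm_apply g.1)) v

theorem exists_toM {g : GL ι F} (h : ∀ u v, B ((g : Matrix ι ι F) *ᵥ u) ((g : Matrix ι ι F) *ᵥ v) =
    B u v) : ∃ k, toM B k = g :=
  ⟨⟨glEq ι F g, h⟩, (glEq ι F).symm_apply_apply g⟩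

theorem rank_toM (g : UG B) : ((toM B g : Matrix ι ι F) - 1).rank =
    finrank F (LinearMap.range ((g.1 : (ι → F) →ₗ[F] (ι → F)) - LinearMap.id)) := by
  rw [Matrix.rank, show ((toM B g : Matrix ι ι F) - 1).mulVecLin =
    (g.1 : (ι → F) →ₗ[F] (ι → F)) - LinearMap.id from LinearMap.ext fun v => by
      simp [Matrix.sub_mulVec, toM_mulVec]]

theorem rank_tv (D : SD B) {a : ι → F} (ha : a ≠ 0) {k : F} (hk : k ≠ 0) :
    ((toM B (rho B a 0 k) : Matrix ι ι F) - 1).rank = 1 := by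
  rw [rank_toM, ← finrank_span_singleton (K := F) ha]
  refine congrArg (fun W : Submodule F (ι → F) => finrank F W) ?_
  ext v
  simp only [LinearMap.mem_range, LinearMap.sub_apply, LinearEquiv.coe_coe, LinearMap.id_apply,
    rap D (map_zero (B a)), Submodule.mem_span_singleton]
  constructor
  · rintro ⟨y, rfl⟩
    exact ⟨k * B a y, by simp⟩
  · rintro ⟨c, rfl⟩
    obtain ⟨y, hy⟩ := D.exists_ne ha
    exact ⟨(c / (k * B a y)) • y, by simp; congr 1; field_simp⟩

end Cfsg.Agent.H18.Yx
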